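import Cfsg.Agent.KnownB.Proj.Unit.Lang
import Cfsg.Agent.KnownB.AutPSL.Facts
import Cfsg.Prelude.Def_Classical
import Cfsg.Prelude.Def_KGroupFacts

/-! The outer automorphism group of `PSU_n(q)`. -/

set_option autoImplicit false

namespace Cfsg.Agent.KnownB.Proj.Unit

open Matrix
open Cfsg.Agent.Forms (normOne guDet)

universe u

variable {n q : ℕ} {F : Type u} [Field F] [Fintype F]

theorem mem_inn_psu_iff (β : MulAut (Cfsg.PSU n F q)) :
    β ∈ Cfsg.Inn (Cfsg.PSU n F q) ↔ ∃ s : Cfsg.SU n F q, A n q F (suInc s) = β := by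
  constructor
  · rintro ⟨x, rfl⟩
    induction x using QuotientGroup.induction_on with
    | H s => exact ⟨s, (conj_eq s).symm⟩
  · rintro ⟨s, rfl⟩
    exact ⟨QuotientGroup.mk s, conj_eq s⟩

theorem A_mem_inn_iff (hF : Fintype.card F = q ^ 2) (hn : 3 ≤ n) (g : Cfsg.GU n F q) :
    A n q F g ∈ Cfsg.Inn (Cfsg.PSU n F q) ↔
      guDet hF g ∈ (powMonoidHom n : normOne F q →* normOne F q).range := by
  have hsu : ∀ s : Cfsg.SU n F q, suInc s = Forms.suToGU s := fun s => gu_ext rfl
  rw [mem_inn_psu_iff]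
  constructor
  · rintro ⟨s, hs⟩
    have h : A n q F ((suInc s)⁻¹ * g) = 1 := by rw [map_mul, map_inv, hs, inv_mul_cancel]
    obtain ⟨c, hc⟩ := (A_eq_one_iff hF hn _).mp h
    refine ⟨c, ?_⟩
    have h1 := congrArg (guDet hF) hc
    have h2 : guDet hF (suInc s) = 1 := by
      rw [← MonoidHom.mem_ker, ← Forms.suToGU_range hF, hsu]
      exact ⟨s, rfl⟩
    rw [guDet_sc hF, map_mul, map_inv, h2, inv_one, one_mul] at h1
    exact h1
  · rintro ⟨c, hc⟩
    have h : g * (sc n hF c)⁻¹ ∈ (guDet (n := n) hF).ker := by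
      rw [MonoidHom.mem_ker, map_mul, map_inv, guDet_sc hF, ← hc, powMonoidHom_apply,
        mul_inv_cancel]
    rw [← Forms.suToGU_range hF] at h
    obtain ⟨s, hs⟩ := h
    refine ⟨s, ?_⟩
    rw [hsu, hs, map_mul, map_inv, (A_eq_one_iff hF hn _).mpr ⟨c, rfl⟩, inv_one, mul_one]

/-- The inner diagonal automorphisms modulo the inner ones. -/
theorem exists_diag_quotient (hF : Fintype.card F = q ^ 2) (hn : 3 ≤ n) {M : Type u} [Group M]
    (c : MulAut (Cfsg.PSU n F q) →* M) (hc : c.ker = Cfsg.Inn (Cfsg.PSU n F q)) :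
    IsCyclic ((A n q F).range.map c) ∧
      Nat.card ((A n q F).range.map c) = Nat.gcd n (q + 1) := by
  classical
  haveI : NeZero n := ⟨by omega⟩
  let R : Subgroup (normOne F q) := (powMonoidHom n).range
  let ψ : Cfsg.GU n F q →* normOne F q ⧸ R := (QuotientGroup.mk' R).comp (guDet hF)
  have hψ : Function.Surjective ψ :=
    (QuotientGroup.mk'_surjective R).comp (Forms.guDet_surjective hF (by omega))
  have hker : ψ.ker = (c.comp (A n q F)).ker := by
    ext g
    rw [MonoidHom.mem_ker, MonoidHom.mem_ker, MonoidHom.comp_apply, MonoidHom.comp_apply,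
      QuotientGroup.mk'_apply, QuotientGroup.eq_one_iff, ← MonoidHom.mem_ker (f := c), hc,
      A_mem_inn_iff hF hn]
  have e : (A n q F).range.map c ≃* normOne F q ⧸ R :=
    ((MulEquiv.subgroupCongr (show (A n q F).range.map c = (c.comp (A n q F)).range by
      rw [MonoidHom.range_comp])).trans
      (QuotientGroup.quotientKerEquivRange (c.comp (A n q F))).symm).trans
      ((QuotientGroup.quotientMulEquivOfEq hker.symm).trans
        (QuotientGroup.quotientKerEquivOfSurjective ψ hψ))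
  haveI : IsCyclic (normOne F q ⧸ R) := isCyclic_of_surjective _ (QuotientGroup.mk'_surjective R)
  refine ⟨isCyclic_of_surjective e.symm.toMonoidHom e.symm.surjective, ?_⟩
  rw [Nat.card_congr e.toEquiv, ← Subgroup.index_eq_card, IsCyclic.index_powMonoidHom_range,
    Forms.card_normOne hF, Nat.gcd_comm]

/-- `Aut PSU_n(q) → Aut F` for `n ≥ 3`. -/
theorem exists_proj (hF : Fintype.card F = q ^ 2) (hn : 3 ≤ n) (h32 : ¬(n = 3 ∧ q = 2)) :
    ∃ π : MulAut (Cfsg.PSU n F q) →* (F ≃+* F),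
      Function.Surjective π ∧ π.ker = (A n q F).range ∧
        ∀ g σ, π (A n q F g * Fd n q F σ) = σ := by
  classical
  choose g σ hdec using fun β => exists_decomp hn hF h32 β
  have huniq : ∀ g' σ' β, β = A n q F g' * Fd n q F σ' → σ β = σ' := by
    intro g' σ' β hβ
    refine mul_inv_eq_one.mp (eq_one_of_A_Fd hF hn (g'⁻¹ * g β) _ ?_)
    calc A n q F (g'⁻¹ * g β) * Fd n q F (σ β * σ'⁻¹)
        = (A n q F g')⁻¹ * (A n q F (g β) * Fd n q F (σ β)) * (Fd n q F σ')⁻¹ := by
          rw [map_mul, map_mul, map_inv, map_inv]; simp only [mul_assoc]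
      _ = 1 := by rw [← hdec, hβ]; simp [mul_assoc]
  let π : MulAut (Cfsg.PSU n F q) →* (F ≃+* F) :=
    MonoidHom.mk' σ fun β γ => huniq (g β * mapGU (σ β) (g γ)) _ _ (by
      conv_lhs => rw [hdec β, hdec γ]
      rw [map_mul, map_mul, mul_assoc (A n q F (g β)), ← mul_assoc (Fd n q F (σ β)), Fd_A]
      simp only [mul_assoc])
  have hπ : ∀ g' σ', π (A n q F g' * Fd n q F σ') = σ' := fun g' σ' => huniq g' σ' _ rfl
  refine ⟨π, fun x => ⟨_, hπ 1 x⟩, ?_, hπ⟩
  ext β
  constructor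
  · intro h
    refine ⟨g β, ?_⟩
    conv_rhs => rw [hdec β]
    change σ β = 1 at h
    rw [h, map_one, mul_one]
  · rintro ⟨g', rfl⟩
    have := hπ g' 1
    rwa [map_one, mul_one] at this

end Cfsg.Agent.KnownB.Proj.Unit
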