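import Cfsg.Agent.KnownB.Proj.Unit.Chart

/-! Every automorphism of `PSU_n(q)` is induced by a semilinear isometry. -/

set_option autoImplicit false

namespace Cfsg.Agent.KnownB.Proj.Unit

open Matrix

open Cfsg.Agent.Forms (frobQ)
open Cfsg.Agent.KnownA (ub act root ub_add_left ub_add_right ub_smul_left ub_smul_right ub_sub_left
  ub_sub_right ub_zero_left ub_zero_right ub_symm ub_eq_zero_symm sig_sig act_root act_mul_apply
  act_ub root_mul su_ext)

universe u

variable {n q : ℕ} {F : Type u} [Field F] [Fintype F] {hF : Fintype.card F = q ^ 2}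
  {e f : Fin n → F}

local notation "Vn" => (Fin n → F)
local notation "Mn" => Matrix (Fin n) (Fin n) F
local notation "SUn" => Cfsg.SU n F q

variable (H : Hyp hF e f) (hn : 3 ≤ n)
include H hn

/-- A semilinear isometry with the same coordinates. -/
theorem Hyp.exists_theta {γ : MulAut (Cfsg.PSU n F q)} (hγe : Sends hF γ e e) (π : Vn → Vn)
    (σ : F ≃+* F)
    (hπ : ∀ w c w' c', Param hF e f γ w c w' c' → w' = π w)
    (hσ : ∀ (k : F) w, InW hF e f w → π (k • w) = σ k • π w)
    (hadd : ∀ v w, InW hF e f v → InW hF e f w → π (v + w) = π v + π w) :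
    ∃ g : Cfsg.GU n F q, Sends hF (A n q F g * Fd n q F σ) e e ∧
      Sends hF (A n q F g * Fd n q F σ) f f ∧
      ∀ w c w' c', Param hF e f γ w c w' c' →
        ∃ d, Param hF e f (A n q F g * Fd n q F σ) w c w' d ∧ (w = 0 → d = c') := by
  obtain ⟨r, hr0, hr, hsim, hψ⟩ := H.exists_similitude hn hγe π σ hπ hσ hadd
  have hW : ∀ w, InW hF e f w → InW hF e f (π w) := fun w hw => by
    obtain ⟨c, hc⟩ := exists_c hF w
    obtain ⟨w', c', h⟩ := Param.exists' H hn hγe hw hc
    exact hπ _ _ _ _ h ▸ h.mem'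
  have hπ0 : π 0 = 0 := by simpa using hadd 0 0 InW.zero InW.zero
  have hρ0 : σ r ≠ 0 := (map_ne_zero σ).mpr hr0
  have hρ : frobQ hF (σ r) = σ r := by rw [← map_frob hF, hr]
  obtain ⟨s, hs⟩ := KnownA.exists_norm hF (σ r)⁻¹ (by rw [map_inv₀, hρ])
  have hs0 : s ≠ 0 := fun h => inv_ne_zero hρ0 (by rw [← hs, h, zero_mul])
  set P : Vn → Vn := fun x => x - ub hF f x • e - ub hF e x • f with hP
  let L : Vn → Vn := fun x =>
    s • ((σ r * σ (ub hF f x)) • e + σ (ub hF e x) • f + π (P x))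
  have hLadd : ∀ x y, L (x + y) = L x + L y := fun x y => by
    have h1 : P (x + y) = P x + P y := by simp only [hP, ub_add_right hF]; module
    have h2 : π (P (x + y)) = π (P x) + π (P y) := by
      rw [h1]; exact hadd _ _ (H.proj x) (H.proj y)
    simp only [L, h2, ub_add_right hF, map_add]
    module
  have hLsmul : ∀ (a : F) x, L (a • x) = σ a • L x := fun a x => by
    have h1 : P (a • x) = a • P x := by simp only [hP, ub_smul_right hF]; module
    have h2 : π (P (a • x)) = σ a • π (P x) := by rw [h1]; exact hσ a _ (H.proj x)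
    simp only [L, h2, ub_smul_right hF, map_mul]
    module
  have hLub : ∀ x y, ub hF (L x) (L y) = σ (ub hF x y) := by
    intro x y
    have hx := hW _ (H.proj x)
    have hy := hW _ (H.proj y)
    have h1 := hsim _ _ (H.proj x) (H.proj y)
    simp only [hP, ub_sub_left hF, ub_sub_right hF, ub_smul_left hF, ub_smul_right hF, H.he, H.hf,
      H.hef, H.fe, map_sub, map_add, map_mul, map_zero, map_frob hF] at h1
    simp only [L, hP, ub_add_left hF, ub_add_right hF, ub_smul_left hF, ub_smul_right hF, H.he,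
      H.hef, H.hf, H.fe, hx.1, hx.2, hy.1, hy.2, hx.left.1, hx.left.2, hy.left.1, hy.left.2, h1,
      map_mul, hρ]
    have hs' : s * frobQ hF s * σ r = 1 := by rw [hs, inv_mul_cancel₀ hρ0]
    have e1 : σ (ub hF x e) = frobQ hF (σ (ub hF e x)) := by rw [← map_frob hF, ub_symm hF]
    have e2 : σ (ub hF x f) = frobQ hF (σ (ub hF f x)) := by rw [← map_frob hF, ub_symm hF]
    rw [e1, e2, map_one]
    linear_combination (σ (ub hF x y)) * hs'
  -- the matrix
  let G : Vn →ₗ[F] Vn :=
    { toFun := fun x => L (⇑σ.symm ∘ x)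
      map_add' := fun x y => by
        rw [show (⇑σ.symm ∘ (x + y)) = (⇑σ.symm ∘ x) + (⇑σ.symm ∘ y) from funext fun i => by simp,
          hLadd]
      map_smul' := fun a x => by
        rw [show (⇑σ.symm ∘ (a • x)) = σ.symm a • (⇑σ.symm ∘ x) from funext fun i => by simp,
          hLsmul, RingEquiv.apply_symm_apply, RingHom.id_apply] }
  have hGub : ∀ x y, ub hF (G x) (G y) = ub hF x y := fun x y => by
    show ub hF (L _) (L _) = _
    rw [hLub]
    show σ (Cfsg.hermForm n F q _ _) = _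
    rw [herm_map σ.symm, RingEquiv.apply_symm_apply]
    rfl
  have hGinj : Function.Injective G := by
    rw [injective_iff_map_eq_zero]
    intro x hx
    refine (Forms.hermB_nondegenerate hF).1 x fun y => ?_
    show ub hF x y = 0
    rw [← hGub, hx, ub_zero_left hF]
  have hdet : (LinearMap.toMatrix' G).det ≠ 0 := fun h => by
    obtain ⟨x, hx0, hx⟩ := Matrix.exists_mulVec_eq_zero_iff.mpr h
    rw [LinearMap.toMatrix'_mulVec] at hx
    exact hx0 (hGinj (hx.trans (map_zero G).symm))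
  let g : Cfsg.GU n F q := ⟨Matrix.GeneralLinearGroup.mkOfDetNeZero _ hdet, fun u v => by
    show Cfsg.hermForm n F q (LinearMap.toMatrix' G *ᵥ u) (LinearMap.toMatrix' G *ᵥ v) = _
    rw [LinearMap.toMatrix'_mulVec, LinearMap.toMatrix'_mulVec]
    exact hGub v u⟩
  have hsemi : ∀ x, semi g σ x = L x := fun x => by
    show LinearMap.toMatrix' G *ᵥ (⇑σ ∘ x) = L x
    rw [LinearMap.toMatrix'_mulVec]
    show L (⇑σ.symm ∘ (⇑σ ∘ x)) = L x
    congr 1
    funext i; simp
  have hsρ : s * σ r ≠ 0 := mul_ne_zero hs0 hρ0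
  have hge : semi g σ e = (s * σ r) • e := by
    rw [hsemi]
    simp [L, hP, H.he, H.fe, hπ0, smul_smul]
  have hgf : semi g σ f = s • f := by
    rw [hsemi]
    simp [L, hP, H.hf, H.hef, hπ0]
  have hgw : ∀ w, InW hF e f w → semi g σ w = s • π w := fun w hw => by
    rw [hsemi]
    simp [L, hP, hw.1, hw.2]
  refine ⟨g, ?_, ?_, fun w c w' c' h => ?_⟩
  · have h1 := sends_semi hF g σ H.e_ne H.he
    rw [hge] at h1
    have h2 := h1.smul hF one_ne_zero (inv_ne_zero hsρ)
    rwa [one_smul, inv_smul_smul₀ hsρ] at h2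
  · have h1 := sends_semi hF g σ H.f_ne H.hf
    rw [hgf] at h1
    have h2 := h1.smul hF one_ne_zero (inv_ne_zero hs0)
    rwa [one_smul, inv_smul_smul₀ hs0] at h2
  · obtain rfl := hπ _ _ _ _ h
    obtain ⟨-, h1, h2⟩ := conj_root hF (isSemi_semi hF g σ) hsρ H.he h.mem.1 h.cond hge
      (semi_act g σ (root hF e w c))
    have hl : frobQ hF (s * σ r) • semi g σ w = π w := by
      rw [hgw w h.mem, smul_smul, map_mul, hρ,
        show frobQ hF s * σ r * s = 1 by
          rw [mul_comm _ s, ← mul_assoc, hs, inv_mul_cancel₀ hρ0], one_smul]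
    have hN : s * σ r * frobQ hF (s * σ r) = σ r := by
      rw [map_mul, hρ, show s * σ r * (frobQ hF s * σ r) = s * frobQ hF s * σ r * σ r by ring, hs,
        inv_mul_cancel₀ hρ0, one_mul]
    rw [hl, hN] at h1 h2
    refine ⟨_, ⟨h.mem, h.cond, h.mem', h1, ?_⟩, fun h0 => ?_⟩
    · show (QuotientGroup.mk (conjSU g (fieldSU σ (root hF e w c))) : Cfsg.PSU n F q) = _
      rw [h2]
    · subst h0
      rw [hψ _ _ _ h, mul_comm]

/-- A normalised automorphism is trivial. -/
theorem Hyp.eq_one (h32 : ¬(n = 3 ∧ q = 2)) {γ : MulAut (Cfsg.PSU n F q)}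
    (hγe : Sends hF γ e e) (hγf : Sends hF γ f f)
    (hid : ∀ w c w' c', Param hF e f γ w c w' c' → w' = w ∧ (w = 0 → c' = c)) : γ = 1 := by
  obtain ⟨π, -, hadd, hπ⟩ := H.swap.exists_pi hn hγf
  have hW2 : ∀ w, InW hF f e w → InW hF f e (π w) := fun w hw => by
    obtain ⟨c, hc⟩ := exists_c hF w
    obtain ⟨w', c', h⟩ := Param.exists' H.swap hn hγf hw hc
    exact hπ _ _ _ _ h ▸ h.mem'
  obtain ⟨k, hk⟩ : ∃ k : F, ∀ w, InW hF f e w → π w = k • w := by
    refine H.swap.commutant hn h32 π hW2 hadd fun s μ hμf hμ hse w hw => ?_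
    obtain ⟨l, hl, hle⟩ := hse
    obtain ⟨s', hs'⟩ := QuotientGroup.mk_surjective (γ (QuotientGroup.mk s))
    have hsf' : Fixes s' f := fixes_image hF hn hs'.symm H.f_ne H.hf hγf ⟨μ, hμ, hμf⟩
    obtain ⟨l', hl', hle'⟩ := fixes_image hF hn hs'.symm H.e_ne H.he hγe ⟨l, hl, hle⟩
    obtain ⟨μ', hμ', hμf'⟩ := hsf'
    -- the norms agree
    obtain ⟨z, hz, hzc⟩ := exists_z hF
    obtain ⟨z', d, hzp⟩ := Param.exists' H hn hγe InW.zero (neg_ub_zero hF hzc)
    obtain ⟨rfl, hd⟩ := hid _ _ _ _ hzp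
    rw [hd rfl] at hzp
    have h1 := Param.conj H hzp hs'.symm hl hle ⟨μ, hμ, hμf⟩ hl' hle' ⟨μ', hμ', hμf'⟩
    rw [map_zero, smul_zero, map_zero, smul_zero] at h1
    have hN : l' * frobQ hF l' = l * frobQ hF l := mul_left_cancel₀ hz ((hid _ _ _ _ h1).2 rfl)
    -- the actions agree
    have hν : ∀ u, InW hF e f u → frobQ hF l' • act s' u = frobQ hF l • act s u := by
      intro u hu
      obtain ⟨c, hc⟩ := exists_c hF u
      obtain ⟨u', c', h⟩ := Param.exists' H hn hγe hu hc
      obtain rfl := (hid _ _ _ _ h).1.symm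
      exact (hid _ _ _ _
        (Param.conj H h hs'.symm hl hle ⟨μ, hμ, hμf⟩ hl' hle' ⟨μ', hμ', hμf'⟩)).1
    have hinv : ∀ {l μ : F} (_ : frobQ hF l * μ = 1), frobQ hF μ = l⁻¹ := by
      intro l μ h
      have h' := congrArg (frobQ hF) h
      rw [map_mul, sig_sig hF, map_one] at h'
      exact eq_inv_of_mul_eq_one_right h'
    have hμl := hinv (H.mult_eq hle hμf)
    have hμl' := hinv (H.mult_eq hle' hμf')
    have hν2 : ∀ u, InW hF e f u → frobQ hF μ' • act s' u = frobQ hF μ • act s u := by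
      intro u hu
      have hll : frobQ hF l' ≠ 0 := (map_ne_zero _).mpr hl'
      refine smul_right_injective _ (mul_ne_zero hl' hll) ?_
      show (l' * frobQ hF l') • frobQ hF μ' • act s' u = (l' * frobQ hF l') • frobQ hF μ • act s u
      rw [hμl', hμl, smul_smul, smul_smul, show l' * frobQ hF l' * l'⁻¹ = frobQ hF l' by field_simp,
        hν u hu, hN, show l * frobQ hF l * l⁻¹ = frobQ hF l by field_simp]
    obtain ⟨c, hc⟩ := exists_c hF w
    obtain ⟨w', c', h⟩ := Param.exists' H.swap hn hγf hw hc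
    rw [← hπ _ _ _ _ (Param.conj H.swap h hs'.symm hμ hμf ⟨l, hl, hle⟩ hμ' hμf' ⟨l', hl', hle'⟩),
      hπ _ _ _ _ h, hν2 _ (hW2 w hw).swap]
  -- images of opposite points
  have himg : ∀ {a b : Vn}, Hyp hF a b → Sends hF γ b b → ∀ {w w' : Vn} {c c' : F},
      Param hF a b γ w c w' c' → Sends hF γ (b + w + c • a) (b + w' + c' • a) := by
    intro a b Hab hb w w' c c' h
    have h1 := sends_equivariant hF hn h.eq Hab.f_ne Hab.hf hb
    rwa [Hab.root_f h.mem h.cond, Hab.root_f h.mem' h.cond'] at h1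
  have hrel : ∀ w c w' c', Param hF e f γ w c w' c' → w ≠ 0 → c ≠ 0 → c = k * c' := by
    intro w c w' c' h hw0 hc0
    obtain rfl := (hid _ _ _ _ h).1.symm
    have hfc : frobQ hF c ≠ 0 := (map_ne_zero _).mpr hc0
    have hc2 : c⁻¹ + frobQ hF c⁻¹ = -ub hF (c⁻¹ • w) (c⁻¹ • w) := by
      rw [ub_smul_left hF, ub_smul_right hF, map_inv₀]
      field_simp
      linear_combination h.cond
    obtain ⟨v, d, h2⟩ := Param.exists' H.swap hn hγf (h.mem.swap.smul c⁻¹) hc2
    have hv : v = (k * c⁻¹) • w := by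
      rw [hπ _ _ _ _ h2, hk _ (h.mem.swap.smul c⁻¹), smul_smul]
    subst hv
    have hs1 := (himg H.swap hγe h2).smul hF hc0 one_ne_zero
    rw [one_smul, show c • (e + c⁻¹ • w + c⁻¹ • f) = f + w + c • e by
      rw [smul_add, smul_add, smul_inv_smul₀ hc0, smul_inv_smul₀ hc0]; abel] at hs1
    have hne : f + w + c • e ≠ 0 := by
      intro h0
      have := congrArg (ub hF e) h0
      simp [ub_add_right hF, ub_smul_right hF, H.he, H.hef, h.mem.1, ub_zero_right hF] at this
    have hiso : ub hF (f + w + c • e) (f + w + c • e) = 0 := by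
      simp only [ub_add_left hF, ub_add_right hF, ub_smul_left hF, ub_smul_right hF, H.he, H.hf,
        H.hef, H.fe, h.mem.1, h.mem.2, h.mem.left.1, h.mem.left.2]
      linear_combination h.cond
    obtain ⟨t, ht, e1⟩ := Sends.unique hF hn hne hiso (himg H hγf h) hs1
    have e2 := congrArg (ub hF f) e1
    simp [ub_add_right hF, ub_smul_right hF, H.hf, H.fe, h.mem.2] at e2
    subst e2
    have e3 := sub_eq_zero.mpr e1
    have hne' : (1 - c' * (k * c⁻¹)) • w + (1 - c' * d) • f = 0 := by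
      rw [← e3]; module
    have e4 := congrArg (ub hF e) hne'
    simp [ub_add_right hF, ub_smul_right hF, h.mem.1, H.hef, ub_zero_right hF] at e4
    rw [e4, zero_smul, add_zero, smul_eq_zero, or_iff_left hw0, sub_eq_zero] at hne'
    field_simp at hne'
    linear_combination hne'
  obtain ⟨z, hz, hzc⟩ := exists_z hF
  have hshift : ∀ w c c', Param hF e f γ w c w c' → Param hF e f γ w (c + z) w (c' + z) := by
    intro w c c' h
    have h0 : Param hF e f γ 0 z 0 z := by
      obtain ⟨z', d, hzp⟩ := Param.exists' H hn hγe InW.zero (neg_ub_zero hF hzc)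
      obtain ⟨rfl, hd⟩ := hid _ _ _ _ hzp
      rwa [hd rfl] at hzp
    have := Param.mul H h h0
    rwa [add_zero, ub_zero_right hF, sub_zero, sub_zero] at this
  have hfixed : ∀ w c w' c', Param hF e f γ w c w' c' → c' = c := by
    intro w c w' c' h
    obtain rfl := (hid _ _ _ _ h).1.symm
    have hz' := (hid _ _ _ _ h).2
    by_cases hw0 : w = 0
    · exact hz' hw0
    have hk1 : k = 1 := by
      obtain ⟨a, ha, haa⟩ := H.exists_aniso hn
      obtain ⟨d, hd⟩ := exists_c hF a
      obtain ⟨a', d', h1⟩ := Param.exists' H hn hγe ha hd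
      obtain rfl := (hid _ _ _ _ h1).1.symm
      have ha0 : a ≠ 0 := fun h0 => haa (by rw [h0, ub_zero_left hF])
      have hd0 : ∀ x : F, x + frobQ hF x = -ub hF a a → x ≠ 0 := fun x hx h0 => haa (by
        rw [h0, map_zero, add_zero, eq_comm, neg_eq_zero] at hx; exact hx)
      have e1 := hrel _ _ _ _ h1 ha0 (hd0 _ h1.cond)
      have h2 := hshift _ _ _ h1
      have e2 := hrel _ _ _ _ h2 ha0 (hd0 _ h2.cond)
      exact mul_right_cancel₀ hz (show k * z = 1 * z by linear_combination e1 - e2)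
    by_cases hc0 : c = 0
    · have h2 := hrel _ _ _ _ (hshift _ _ _ h) hw0 (by rw [hc0, zero_add]; exact hz)
      rw [hk1, one_mul] at h2
      linear_combination -h2
    · have h2 := hrel _ _ _ _ h hw0 hc0
      rw [hk1, one_mul] at h2
      exact h2.symm
  -- all points
  have hopp : ∀ v : Vn, ub hF v v = 0 → ub hF e v = 1 → Sends hF γ v v := by
    intro v hvv hev
    obtain ⟨w, c, hw, hc, rfl⟩ := H.exists_param hvv hev
    obtain ⟨w', c', h⟩ := Param.exists' H hn hγe hw hc
    have h1 := himg H hγf h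
    rwa [(hid _ _ _ _ h).1, hfixed _ _ _ _ h] at h1
  refine eq_one_of_sends hF hn fun v hv hvv => ?_
  by_cases hev : ub hF e v ≠ 0
  · have h1 := (hopp ((ub hF e v)⁻¹ • v) (by rw [ub_smul_left hF, ub_smul_right hF, hvv]; ring)
      (by rw [ub_smul_right hF, inv_mul_cancel₀ hev])).smul hF hev hev
    rwa [smul_inv_smul₀ hev] at h1
  push Not at hev
  have hdec : ∀ x : Vn, ub hF e x = 0 → x = ub hF f x • e + (x - ub hF f x • e) ∧
      InW hF e f (x - ub hF f x • e) := fun x hx => ⟨by abel, by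
    simpa [hx] using H.proj x⟩
  obtain ⟨hv1, hzW⟩ := hdec v hev
  set z := v - ub hF f v • e with hzdef
  by_cases hz0 : z = 0
  · rw [hz0, add_zero] at hv1
    have ha : ub hF f v ≠ 0 := fun h => hv (by rw [hv1, h, zero_smul])
    rw [hv1]
    exact hγe.smul hF ha ha
  obtain ⟨v', hv'⟩ := exists_sends hF hn γ hv hvv
  have hev' : ub hF e v' = 0 := (Sends.perp_iff hF hn H.e_ne H.he hv hvv hγe hv').mp hev
  obtain ⟨hv1', hzW'⟩ := hdec v' hev'
  set z' := v' - ub hF f v' • e with hzdef'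
  obtain ⟨w, hw, hzw⟩ : ∃ w, InW hF e f w ∧ ub hF w z = 1 := by
    by_contra hcon
    push Not at hcon
    refine hz0 (H.eq_zero_of_perp hzW fun w hw => ?_)
    by_contra hne
    have hne' : ub hF w z ≠ 0 := fun h => hne (ub_eq_zero_symm hF h)
    exact hcon _ (hw.smul (frobQ hF (ub hF w z)⁻¹)) (by
      rw [ub_smul_left hF, sig_sig hF, inv_mul_cancel₀ hne'])
  have hiff : ∀ u, InW hF e f u →
      (ub hF f v + ub hF u z = 0 ↔ ub hF f v' + ub hF u z' = 0) := by
    intro u hu
    obtain ⟨c, hc⟩ := exists_c hF u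
    have hyy : ub hF (f + u + c • e) (f + u + c • e) = 0 := by
      simp only [ub_add_left hF, ub_add_right hF, ub_smul_left hF, ub_smul_right hF, H.he, H.hf,
        H.hef, H.fe, hu.1, hu.2, hu.left.1, hu.left.2]
      linear_combination hc
    have hey : ub hF e (f + u + c • e) = 1 := by
      simp [ub_add_right hF, ub_smul_right hF, H.he, H.hef, hu.1]
    have hy0 : f + u + c • e ≠ 0 := fun h0 => by
      rw [h0, ub_zero_right hF] at hey; exact zero_ne_one hey
    have hy := hopp _ hyy hey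
    have hcalc : ∀ x, ub hF e x = 0 →
        ub hF (f + u + c • e) x = ub hF f x + ub hF u (x - ub hF f x • e) := fun x hx => by
      simp only [ub_add_left hF, ub_smul_left hF, ub_sub_right hF, ub_smul_right hF, hu.left.1, hx]
      ring
    have h1 := Sends.perp_iff hF hn hy0 hyy hv hvv hy hv'
    rwa [hcalc v hev, hcalc v' hev'] at h1
  set a := ub hF f v with ha
  set a' := ub hF f v' with ha'
  set k' := ub hF w z' with hk'
  have hw0 : InW hF e f (frobQ hF (-a) • w) := hw.smul _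
  have h0 := (hiff _ hw0).mp (by rw [ub_smul_left hF, sig_sig hF, hzw]; ring)
  rw [ub_smul_left hF, sig_sig hF, ← hk'] at h0
  have hzz : z' = k' • z := by
    refine sub_eq_zero.mp (H.eq_zero_of_perp (hzW'.sub (hzW.smul k')) fun u hu =>
      ub_eq_zero_symm hF ?_)
    have h1 := (hiff _ (hw0.add (hu.sub (hw.smul (frobQ hF (ub hF u z)))))).mp (by
      simp only [ub_add_left hF, ub_sub_left hF, ub_smul_left hF, sig_sig hF, hzw]; ring)
    simp only [ub_add_left hF, ub_sub_left hF, ub_smul_left hF, sig_sig hF, ← hk'] at h1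
    rw [ub_sub_right hF, ub_smul_right hF]
    linear_combination h1 - h0
  have hv'eq : v' = k' • v := by
    rw [hv1', hv1, hzz, show a' = k' * a by linear_combination h0]; module
  have hk0 : k' ≠ 0 := fun h => hv'.1 (by rw [hv'eq, h, zero_smul])
  have h1 := hv'.smul hF one_ne_zero (inv_ne_zero hk0)
  rwa [one_smul, hv'eq, inv_smul_smul₀ hk0] at h1

omit H in
/-- The automorphism group of `PSU_n(q)`. -/
theorem exists_decomp (hF : Fintype.card F = q ^ 2) (h32 : ¬(n = 3 ∧ q = 2))
    (β : MulAut (Cfsg.PSU n F q)) :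
    ∃ (g : Cfsg.GU n F q) (σ : F ≃+* F), β = A n q F g * Fd n q F σ := by
  obtain ⟨e, f, he, hf, hef⟩ := Forms.exists_iso_pair hF (show 2 ≤ n by omega) (n := n)
  have H : Hyp hF e f := ⟨he, hf, hef⟩
  obtain ⟨a, ha⟩ := exists_sends hF hn β H.e_ne he
  obtain ⟨b, hb⟩ := exists_sends hF hn β H.f_ne hf
  have hab : ub hF a b ≠ 0 := fun h0 => by
    have := (Sends.perp_iff hF hn H.e_ne he H.f_ne hf ha hb).mpr h0
    rw [hef] at this; exact one_ne_zero this
  obtain ⟨s, t, t', ht, ht', hsa, hsb⟩ := exists_move hF (v := a) (f := (ub hF a b)⁻¹ • b) ha.2.1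
    (by rw [ub_smul_left hF, ub_smul_right hF, hb.2.1]; ring)
    (by rw [ub_smul_right hF, inv_mul_cancel₀ hab]) he hf hef
  set γ := A n q F (suInc s) * β with hγ
  have hA : ∀ x : Vn, semi (suInc s) 1 x = act s x := fun x => by
    rw [act_eq]; rfl
  have hAs : ∀ v : Vn, v ≠ 0 → ub hF v v = 0 → Sends hF (A n q F (suInc s)) v (act s v) :=
    fun v hv hvv => by
      have := sends_semi hF (suInc s) 1 hv hvv
      rwa [map_one, mul_one, hA] at this
  have hγe : Sends hF γ e e := by
    have h1 := Sends.comp hF hn ha (hAs a ha.1 ha.2.1)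
    rw [hsa] at h1
    have h2 := h1.smul hF one_ne_zero (inv_ne_zero ht)
    rwa [one_smul, inv_smul_smul₀ ht] at h2
  have hγf : Sends hF γ f f := by
    have h1 := Sends.comp hF hn hb (hAs b hb.1 hb.2.1)
    have hsb' : act s b = (ub hF a b * t') • f := by
      rw [map_smul, inv_smul_eq_iff₀ hab, smul_smul] at hsb
      exact hsb
    rw [hsb'] at h1
    have h2 := h1.smul hF one_ne_zero (inv_ne_zero (mul_ne_zero hab ht'))
    rwa [one_smul, inv_smul_smul₀ (mul_ne_zero hab ht')] at h2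
  obtain ⟨π, -, hadd, hπ⟩ := H.exists_pi hn hγe
  obtain ⟨σ, hσ⟩ := H.exists_semilinear hn h32 hγe hγf π hadd hπ
  obtain ⟨g, hge, hgf, hθ⟩ := H.exists_theta hn hγe π σ hπ hσ hadd
  set θ := A n q F g * Fd n q F σ with hθdef
  have hone : θ⁻¹ * γ = 1 := by
    refine H.eq_one hn h32 (Sends.comp hF hn hγe (Sends.inv hF hn H.e_ne he hge))
      (Sends.comp hF hn hγf (Sends.inv hF hn H.f_ne hf hgf)) fun w c w' c' h => ?_
    obtain ⟨u, d, h1⟩ := Param.exists' H hn hγe h.mem h.cond
    have hu := hπ _ _ _ _ h1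
    -- `γ = θ * (θ⁻¹ γ)`
    have h2 : θ (QuotientGroup.mk (root hF e w' c')) = QuotientGroup.mk (root hF e u d) := by
      rw [← h.eq]
      show (θ * (θ⁻¹ * γ)) (QuotientGroup.mk (root hF e w c)) = _
      rw [mul_inv_cancel_left, h1.eq]
    obtain ⟨d', h3, h3'⟩ := hθ _ _ _ _ h1
    have hx : ∀ {v : Vn} {a : F}, Param hF e f θ v a u d → θ⁻¹ (QuotientGroup.mk (root hF e u d)) =
        QuotientGroup.mk (root hF e v a) := fun hp => by rw [← hp.eq, MulAut.inv_apply_self]
    obtain ⟨v, b, h4⟩ := Param.exists' (γ := θ) H hn hge h.mem' h.cond'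
    obtain ⟨w₂, c₂, h5⟩ := Param.exists' (γ := γ) H hn hγe h.mem' h.cond'
    obtain ⟨d₂, h6, h6'⟩ := hθ _ _ _ _ h5
    have e1 : v = w₂ := (Param.unique H hn h4 h6).1
    have h7 : Param hF e f θ w' c' u d := ⟨h.mem', h.cond', h1.mem', h1.cond', h2⟩
    have e2 : v = u := (Param.unique H hn h4 h7).1
    have hπinj : π w' = π w := by rw [← hπ _ _ _ _ h5, ← hu, ← e1, e2]
    have hwW : InW hF e f (w' - w) := h.mem'.sub h.mem
    have hz : π (w' - w) = 0 := by
      have := hadd _ _ hwW h.mem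
      rw [sub_add_cancel, hπinj, right_eq_add] at this
      exact this
    have hw : w' = w := by
      -- only the zero vector has zero image
      obtain ⟨c₃, hc₃⟩ := exists_c hF (w' - w)
      obtain ⟨w₃, d₃, h8⟩ := Param.exists' H hn hγe hwW hc₃
      rw [hπ _ _ _ _ h8, hz] at h8
      exact sub_eq_zero.mp (Param.center_zero H hn (Sends.inv hF hn H.e_ne he hγe) (Param.symm H h8))
    refine ⟨hw, fun h0 => ?_⟩
    subst h0
    subst hw
    rw [h3' rfl] at h3
    exact (Param.unique (γ := θ⁻¹) H hn (Param.symm H h7) (Param.symm H h3)).2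
  refine ⟨(suInc s)⁻¹ * g, σ, ?_⟩
  rw [map_mul, map_inv, mul_assoc, ← hθdef, show θ = γ from inv_mul_eq_one.mp hone, hγ,
    inv_mul_cancel_left]

end Cfsg.Agent.KnownB.Proj.Unit
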