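import Cfsg.Agent.KnownB.Proj.Unit.Space

/-! The additive commutant of the stabiliser of a hyperbolic pair consists of scalars. -/

set_option autoImplicit false

namespace Cfsg.Agent.KnownB.Proj.Unit

open Cfsg.Agent.Forms (frobQ)
open Cfsg.Agent.KnownA (ub act ub_add_left ub_add_right ub_smul_left ub_smul_right ub_sub_left
  ub_sub_right ub_zero_left ub_zero_right ub_symm ub_eq_zero_symm sig_sig act_mul_apply act_ub)

universe u

variable {n q : ℕ} {F : Type u} [Field F] [Fintype F] {hF : Fintype.card F = q ^ 2}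
  {e f : Fin n → F}

local notation "Vn" => (Fin n → F)
local notation "SUn" => Cfsg.SU n F q

/-- An additive map commuting with squares is linear. -/
theorem linear_of_sq (p : F → F) (hadd : ∀ a b, p (a + b) = p a + p b)
    (hsq : ∀ x a, p (x ^ 2 * a) = x ^ 2 * p a) (b : F) : p b = b * p 1 := by
  have hsub : ∀ a b, p (a - b) = p a - p b := fun a b => by
    have := hadd (a - b) b
    rw [sub_add_cancel] at this
    linear_combination -this
  have h1 : ∀ x, p (x ^ 2) = x ^ 2 * p 1 := fun x => by simpa using hsq x 1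
  by_cases h2 : (2 : F) = 0
  · obtain ⟨r, hr⟩ := FiniteField.isSquare_of_char_two (CharP.ringChar_of_prime_eq_zero
      Nat.prime_two (by exact_mod_cast h2)) b
    rw [hr, ← sq, h1]
  · have hb : b = ((b + 1) / 2) ^ 2 - ((b - 1) / 2) ^ 2 := by field_simp; ring
    rw [hb, hsub, h1, h1]; ring

theorem eq_top_of_norm_quot (hF : Fintype.card F = q ^ 2) (hq : 3 ≤ q) (K : Subfield F)
    (h : ∀ t : F, t ≠ 0 → frobQ hF t * (frobQ hF t / t) ∈ K) : K = ⊤ := by
  classical
  by_contra hK
  let D : Fˣ →* Fˣ := powMonoidHom (2 * q - 1)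
  have hker : Nat.card D.ker ≤ 3 := by
    rw [IsCyclic.card_powMonoidHom_ker, Nat.card_units, Nat.card_eq_fintype_card, hF]
    refine Nat.le_of_dvd (by norm_num) ?_
    set g := Nat.gcd (q ^ 2 - 1) (2 * q - 1)
    have d1 : g ∣ 4 * (q ^ 2 - 1) := dvd_mul_of_dvd_right (Nat.gcd_dvd_left _ _) 4
    have d2 : g ∣ (2 * q - 1) * (2 * q + 1) := dvd_mul_of_dvd_left (Nat.gcd_dvd_right _ _) _
    have h1 : 1 ≤ q ^ 2 := Nat.one_le_pow _ _ (by omega)
    have e : (2 * q - 1) * (2 * q + 1) - 4 * (q ^ 2 - 1) = 3 := by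
      have e1 : (2 * q - 1) * (2 * q + 1) = 4 * q ^ 2 - 1 := by
        zify [show 1 ≤ 2 * q by omega, show 1 ≤ 4 * q ^ 2 by omega]
        ring
      omega
    exact e ▸ Nat.dvd_sub d2 d1
  have hmul : Nat.card D.ker * Nat.card D.range = q ^ 2 - 1 := by
    rw [← Subgroup.index_ker, Subgroup.card_mul_index, Nat.card_units, Nat.card_eq_fintype_card, hF]
  haveI : Fintype K := Fintype.ofFinite K
  have hle : Nat.card D.range + 1 ≤ Fintype.card K := by
    have hmem : ∀ u : D.range, ((u : Fˣ) : F) ∈ K := by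
      rintro ⟨_, t, rfl⟩
      show ((t ^ (2 * q - 1) : Fˣ) : F) ∈ K
      have := h t t.ne_zero
      rw [Forms.frobQ_apply] at this
      convert this using 1
      rw [Units.val_pow_eq_pow_val, mul_div_assoc', eq_div_iff t.ne_zero, ← pow_succ, ← pow_add]
      congr 1
      omega
    let j : Option D.range → K := fun o => o.elim 0 fun u => ⟨_, hmem u⟩
    have hj : Function.Injective j := by
      rintro (_ | a) (_ | b) hab
      · rfl
      · exact absurd (congrArg Subtype.val hab).symm (Units.ne_zero _)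
      · exact absurd (congrArg Subtype.val hab) (Units.ne_zero _)
      · exact congrArg some (Subtype.ext (Units.ext (congrArg Subtype.val hab)))
    have := Nat.card_le_card_of_injective j hj
    rwa [Finite.card_option, Nat.card_eq_fintype_card (α := K)] at this
  have hpow := Module.card_eq_pow_finrank (K := K) (V := F)
  have hk : 2 ≤ Module.finrank K F := by
    by_contra hlt
    have hpos : 0 < Module.finrank K F := Module.finrank_pos
    rw [show Module.finrank K F = 1 by omega, pow_one] at hpow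
    refine hK (SetLike.ext fun x => ⟨fun _ => Subfield.mem_top x, fun _ => ?_⟩)
    have hb := ((Fintype.bijective_iff_injective_and_card (Subtype.val : K → F)).mpr
      ⟨Subtype.val_injective, hpow.symm⟩).2 x
    obtain ⟨y, rfl⟩ := hb
    exact y.2
  rw [hF] at hpow
  have hKq : Fintype.card K ≤ q := by
    by_contra hgt
    have h3 : Fintype.card K ^ 2 ≤ Fintype.card K ^ Module.finrank K F :=
      Nat.pow_le_pow_right Fintype.card_pos hk
    nlinarith
  have h1 : 1 ≤ q ^ 2 := Nat.one_le_pow _ _ (by omega)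
  have h2 : q ^ 2 - 1 ≤ 3 * Nat.card D.range := hmul ▸ Nat.mul_le_mul_right _ hker
  have h3 : q * q + 2 ≤ 3 * q := by rw [sq] at h2 h1; omega
  nlinarith

variable (H : Hyp hF e f)
include H

theorem Hyp.no_iso_imp (hno : ∀ w, InW hF e f w → ub hF w w = 0 → w = 0) (hn : 3 ≤ n) : n = 3 := by
  obtain ⟨z, hz, hzz⟩ := H.exists_aniso hn
  have hsp : (⊤ : Submodule F Vn) ≤ Submodule.span F {e, f, z} := fun x _ => by
    obtain ⟨k, hk⟩ := H.line_of_no_iso hno hz hzz (H.proj x)
    rw [sub_sub, sub_eq_iff_eq_add] at hk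
    rw [hk]
    refine Submodule.add_mem _ (Submodule.smul_mem _ _ (Submodule.subset_span (by simp)))
      (Submodule.add_mem _ (Submodule.smul_mem _ _ (Submodule.subset_span (by simp)))
      (Submodule.smul_mem _ _ (Submodule.subset_span (by simp))))
  classical
  have h1 := Submodule.finrank_mono hsp
  have h2 : Module.finrank F (Submodule.span F ({e, f, z} : Set Vn)) ≤ 3 := by
    have h3 := finrank_span_finset_le_card (R := F) ({e, f, z} : Finset Vn)
    rw [Finset.coe_insert, Finset.coe_pair] at h3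
    exact h3.trans Finset.card_le_three
  rw [finrank_top, Module.finrank_fin_fun] at h1
  omega

/-- The commutant. -/
theorem Hyp.commutant (hn : 3 ≤ n) (h32 : ¬(n = 3 ∧ q = 2)) (φ : Vn → Vn)
    (hW : ∀ w, InW hF e f w → InW hF e f (φ w))
    (hadd : ∀ v w, InW hF e f v → InW hF e f w → φ (v + w) = φ v + φ w)
    (hcomm : ∀ (s : SUn) (l : F), act s e = l • e → l ≠ 0 → Fixes s f → ∀ w, InW hF e f w →
      φ (frobQ hF l • act s w) = frobQ hF l • act s (φ w)) :
    ∃ k : F, ∀ w, InW hF e f w → φ w = k • w := by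
  by_cases hno : ∀ w, InW hF e f w → ub hF w w = 0 → w = 0
  · obtain ⟨z', hz', hzz'⟩ := H.exists_aniso hn
    obtain ⟨x, hx⟩ := KnownA.exists_norm hF (ub hF z' z')⁻¹
      (by rw [map_inv₀, KnownA.ub_self_fixed hF])
    obtain ⟨z, hz, hz1⟩ : ∃ z, InW hF e f z ∧ ub hF z z = 1 := by
      refine ⟨x • z', hz'.smul x, ?_⟩
      rw [ub_smul_left hF, ub_smul_right hF, ← mul_assoc, mul_comm _ x, hx,
        inv_mul_cancel₀ hzz']
    have hline : ∀ y, InW hF e f y → y = ub hF z y • z := fun y hy => by
      obtain ⟨k, hk⟩ := H.line_of_no_iso hno hz (by rw [hz1]; exact one_ne_zero) hy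
      rw [hk, ub_smul_right hF, hz1, mul_one]
    let p : F → F := fun a => ub hF z (φ (a • z))
    have hp : ∀ a, φ (a • z) = p a • z := fun a => hline _ (hW _ (hz.smul a))
    have hq : 3 ≤ q := by
      have := Forms.two_le_q hF
      have := H.no_iso_imp hno hn
      omega
    let K : Subfield F :=
      { carrier := {c | ∀ a, p (c * a) = c * p a}
        one_mem' := fun a => by simp
        mul_mem' := fun {c d} hc hd a => by rw [mul_assoc, hc, hd, mul_assoc]
        zero_mem' := fun a => by
          have h0 : φ 0 = 0 := by simpa using hadd 0 0 InW.zero InW.zero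
          simp [p, h0, ub_zero_right hF]
        add_mem' := fun {c d} hc hd a => by
          show ub hF z (φ (((c + d) * a) • z)) = _
          rw [add_mul, add_smul, hadd _ _ (hz.smul _) (hz.smul _), ub_add_right hF]
          rw [add_mul]
          exact congrArg₂ _ (hc a) (hd a)
        neg_mem' := fun {c} hc a => by
          show ub hF z (φ (((-c) * a) • z)) = _
          have h := hadd _ _ (hz.smul (-c * a)) (hz.smul (c * a))
          rw [← add_smul, neg_mul, neg_add_cancel, zero_smul] at h
          have h0 : φ 0 = 0 := by simpa using hadd 0 0 InW.zero InW.zero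
          rw [h0] at h
          rw [show -c * a = -(c * a) by ring]
          have h2 : φ (-(c * a) • z) = -φ ((c * a) • z) := eq_neg_of_add_eq_zero_left h.symm
          rw [h2, show -φ ((c * a) • z) = (-1 : F) • φ ((c * a) • z) by simp, ub_smul_right hF]
          linear_combination -(hc a)
        inv_mem' := fun c hc a => by
          by_cases h0 : c = 0
          · subst h0; simpa using hc a
          · have := hc (c⁻¹ * a)
            rw [mul_inv_cancel_left₀ h0] at this
            rw [this, inv_mul_cancel_left₀ h0] }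
    have hK : K = ⊤ := eq_top_of_norm_quot hF hq K fun t ht a => by
      obtain ⟨s, hs⟩ := KnownA.exists_torus_three hF e f z t ht H.he H.hf H.hef hz.1 hz.2 hz1
      have hse : act s e = t • e := by rw [hs, H.he, H.fe, hz.left.1]; module
      have hsf : act s f = (frobQ hF t)⁻¹ • f := by rw [hs, H.hf, H.hef, hz.left.2]; module
      have hsz : act s z = (frobQ hF t / t) • z := by rw [hs, hz.1, hz.2, hz1]; module
      have h := hcomm s t hse ht ⟨_, inv_ne_zero ((map_ne_zero _).mpr ht), hsf⟩ _ (hz.smul a)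
      rw [hp, map_smul, map_smul, hsz, smul_smul, smul_smul, smul_smul, smul_smul] at h
      show p (frobQ hF t * (frobQ hF t / t) * a) = _
      have h2 := congrArg (ub hF z) h
      rw [ub_smul_right hF, hz1, mul_one] at h2
      rw [show frobQ hF t * (frobQ hF t / t) * a = frobQ hF t * a * (frobQ hF t / t) by ring]
      show ub hF z (φ _) = _
      rw [h2]
      ring
    refine ⟨p 1, fun w hw => ?_⟩
    have hall : ∀ b, p b = b * p 1 := fun b => by
      have hb : b ∈ K := by rw [hK]; trivial
      simpa using hb 1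
    rw [hline w hw, hp, hall, smul_smul, mul_comm]
  push Not at hno
  obtain ⟨a, haW, haa, ha0⟩ := hno
  -- action on an isotropic pair
  have hpair : ∀ w z, InW hF e f w → InW hF e f z → ub hF w w = 0 → ub hF z z = 0 →
      ub hF w z = 1 → ∃ r : F, (∀ b : F, φ (b • w) = (b * r) • w) ∧
        ∀ b : F, φ (b • z) = (b * r) • z := by
    intro w z hw hz hww hzz hwz
    have hzw : ub hF z w = 1 := by rw [← ub_symm hF, hwz, map_one]
    obtain ⟨κ, hκ, hκc⟩ := exists_z hF
    have hmove : ∀ w z, InW hF e f w → InW hF e f z → ub hF w w = 0 → ub hF w z = 1 → ∀ b : F,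
        φ ((κ * b) • w) = (κ * ub hF w (φ (b • z))) • w := by
      intro w z hw hz hww hwz b
      obtain ⟨h1, h2⟩ := H.trv_fixes hw hww hκc
      have h := hcomm (tr hF w κ) 1 (by rw [h1, one_smul]) one_ne_zero
        ⟨1, one_ne_zero, by rw [h2, one_smul]⟩ _ (hz.smul b)
      rw [map_one, one_smul, one_smul, act_tr hF hww hκc, act_tr hF hww hκc, ub_smul_right hF, hwz,
        mul_one, hadd _ _ (hz.smul b) (hw.smul _), add_right_inj] at h
      exact h
    let p : F → F := fun b => ub hF w (φ (b • z))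
    have hpz : ∀ b, φ (b • z) = p b • z := by
      intro b
      have h := hmove z w hz hw hzz hzw (κ⁻¹ * b)
      rw [mul_inv_cancel_left₀ hκ] at h
      show φ (b • z) = ub hF w (φ (b • z)) • z
      rw [h, ub_smul_right hF, hwz, mul_one]
    have hsq : ∀ x b, p (x ^ 2 * b) = x ^ 2 * p b := by
      intro x b
      by_cases hx : x = 0
      · subst hx
        have h0 : φ 0 = 0 := by simpa using hadd 0 0 InW.zero InW.zero
        simp [p, h0, ub_zero_right hF]
      obtain ⟨s, hse, hsf, hsz⟩ := H.exists_torus_W hw hz hww hzz hwz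
        (t := frobQ hF x) ((map_ne_zero _).mpr hx)
      have h := hcomm s _ hse ((map_ne_zero _).mpr hx)
        ⟨_, inv_ne_zero ((map_ne_zero _).mpr ((map_ne_zero _).mpr hx)), hsf⟩ _ (hz.smul b)
      rw [hpz, map_smul, map_smul, hsz, sig_sig hF, smul_smul, smul_smul, smul_smul, smul_smul] at h
      show ub hF w (φ ((x ^ 2 * b) • z)) = _
      rw [show x ^ 2 * b = x * b * x by ring, h, ub_smul_right hF, hwz]
      ring
    have hlin := linear_of_sq p (fun b b' => by
      simp only [p]; rw [add_smul, hadd _ _ (hz.smul b) (hz.smul b'), ub_add_right hF]) hsq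
    refine ⟨p 1, fun b => ?_, fun b => by rw [hpz, hlin]⟩
    have h := hmove w z hw hz hww hwz (κ⁻¹ * b)
    rw [mul_inv_cancel_left₀ hκ] at h
    rw [h, show ub hF w (φ ((κ⁻¹ * b) • z)) = p (κ⁻¹ * b) from rfl, hlin, mul_assoc,
      mul_inv_cancel_left₀ hκ]
  have hnonorth : ∀ w z, InW hF e f w → InW hF e f z → ub hF w w = 0 → ub hF z z = 0 →
      ub hF w z ≠ 0 → ∀ r r' : F, φ w = r • w → φ z = r' • z → r = r' := by
    intro w z hw hz hww hzz hwz r r' h1 h2
    obtain ⟨k, hk1, hk2⟩ := hpair w ((ub hF w z)⁻¹ • z) hw (hz.smul _) hww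
      (by rw [ub_smul_left hF, ub_smul_right hF, hzz]; ring)
      (by rw [ub_smul_right hF, inv_mul_cancel₀ hwz])
    have hw0 : w ≠ 0 := fun h => hwz (by rw [h, ub_zero_left hF])
    have hz0 : z ≠ 0 := fun h => hwz (by rw [h, ub_zero_right hF])
    have h3 := hk1 1
    rw [one_smul, one_mul, h1] at h3
    have h4 := hk2 (ub hF w z)
    rw [smul_smul, smul_smul, mul_inv_cancel₀ hwz, one_smul, h2,
      show ub hF w z * k * (ub hF w z)⁻¹ = k by field_simp] at h4
    exact (smul_left_injective F hw0 h3).trans (smul_left_injective F hz0 h4).symm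
  have hscal : ∀ w, InW hF e f w → ub hF w w = 0 → ∃ r : F, φ w = r • w := by
    intro w hw hww
    by_cases hw0 : w = 0
    · subst hw0
      exact ⟨0, by simpa using hadd 0 0 InW.zero InW.zero⟩
    obtain ⟨z, hz, hzz, hwz⟩ := H.exists_partner_W hw hw0 hww
    obtain ⟨r, hr, -⟩ := hpair w z hw hz hww hzz hwz
    exact ⟨r, by simpa using hr 1⟩
  obtain ⟨r₀, hr₀⟩ := hscal a haW haa
  refine ⟨r₀, fun x hx => H.iso_induction (P := fun x => φ x = r₀ • x)
    (fun v w hv hw e1 e2 => by rw [hadd v w hv hw, e1, e2, smul_add]) (fun w hw hww => ?_)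
    haW ha0 haa hx⟩
  by_cases hw0 : w = 0
  · subst hw0; simpa using hadd 0 0 InW.zero InW.zero
  obtain ⟨r, hr⟩ := hscal w hw hww
  suffices r = r₀ by rw [hr, this]
  by_cases haw : ub hF w a ≠ 0
  · exact hnonorth w a hw haW hww haa haw r r₀ hr hr₀
  push Not at haw
  obtain ⟨z, hz, hzz, h1, h2⟩ := H.exists_common hw hw0 hww haW ha0 haa haw
  obtain ⟨r', hr'⟩ := hscal z hz hzz
  exact (hnonorth w z hw hz hww hzz h1 r r' hr hr').trans
    (hnonorth a z haW hz haa hzz h2 r₀ r' hr₀ hr').symm

end Cfsg.Agent.KnownB.Proj.Unit
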