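import Cfsg.Agent.KnownB.Proj.Unit.Radical
import Cfsg.Agent.KnownB.Proj.Unit.Commutant

/-! An automorphism fixing a hyperbolic pair of points, in the coordinates of the radical. -/

set_option autoImplicit false

namespace Cfsg.Agent.KnownB.Proj.Unit

open Cfsg.Agent.Forms (frobQ)
open Cfsg.Agent.KnownA (ub act root ub_add_left ub_add_right ub_smul_left ub_smul_right ub_sub_left
  ub_sub_right ub_zero_left ub_zero_right ub_symm ub_eq_zero_symm sig_sig act_root act_mul_apply
  act_ub root_mul su_ext)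

universe u

variable {n q : ℕ} {F : Type u} [Field F] [Fintype F] (hF : Fintype.card F = q ^ 2)

local notation "Vn" => (Fin n → F)
local notation "SUn" => Cfsg.SU n F q

/-- `γ` maps the radical element `(w, c)` to `(w', c')`. -/
structure Param (e f : Vn) (γ : MulAut (Cfsg.PSU n F q)) (w : Vn) (c : F) (w' : Vn) (c' : F) :
    Prop where
  mem : InW hF e f w
  cond : c + frobQ hF c = -ub hF w w
  mem' : InW hF e f w'
  cond' : c' + frobQ hF c' = -ub hF w' w'
  eq : γ (QuotientGroup.mk (root hF e w c)) = QuotientGroup.mk (root hF e w' c')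

variable {hF} {e f : Fin n → F} (H : Hyp hF e f) (hn : 3 ≤ n) {γ : MulAut (Cfsg.PSU n F q)}
include H hn

theorem Param.exists' (hγ : Sends hF γ e e) {w : Vn} {c : F} (hw : InW hF e f w)
    (hc : c + frobQ hF c = -ub hF w w) : ∃ w' c', Param hF e f γ w c w' c' := by
  obtain ⟨r, hr, h⟩ := H.radical_image hn hγ (H.root_valid hw hc)
  obtain ⟨w', c', hw', hc', rfl⟩ := H.radical_param hr
  exact ⟨w', c', hw, hc, hw', hc', h⟩

theorem Param.unique {w : Vn} {c : F} {w₁ w₂ : Vn} {c₁ c₂ : F}
    (h₁ : Param hF e f γ w c w₁ c₁) (h₂ : Param hF e f γ w c w₂ c₂) : w₁ = w₂ ∧ c₁ = c₂ := by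
  obtain ⟨p, _, _⟩ := exists_char (F := F)
  have h := eq_of_mk_eq hF (show 2 ≤ n by omega)
    (radical_pow hF p H.he (H.root_valid h₁.mem' h₁.cond'))
    (radical_pow hF p H.he (H.root_valid h₂.mem' h₂.cond')) (h₁.eq.symm.trans h₂.eq)
  exact H.root_inj h₁.mem' h₂.mem' h₁.cond' h₂.cond' (by rw [h])

omit hn in
theorem Param.mul {w v w' v' : Vn} {c d c' d' : F} (h : Param hF e f γ w c w' c')
    (k : Param hF e f γ v d v' d') :
    Param hF e f γ (w + v) (c + d - ub hF w v) (w' + v') (c' + d' - ub hF w' v') := by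
  refine ⟨h.mem.add k.mem, ?_, h.mem'.add k.mem', ?_, ?_⟩
  · simp only [map_sub, map_add, ub_symm hF, ub_add_left hF, ub_add_right hF]
    linear_combination h.cond + k.cond
  · simp only [map_sub, map_add, ub_symm hF, ub_add_left hF, ub_add_right hF]
    linear_combination h.cond' + k.cond'
  · rw [← root_mul hF H.he h.mem.1 k.mem.1 h.cond k.cond,
      ← root_mul hF H.he h.mem'.1 k.mem'.1 h.cond' k.cond', QuotientGroup.mk_mul, map_mul, h.eq,
      k.eq, QuotientGroup.mk_mul]

omit hn in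
theorem Param.symm {w w' : Vn} {c c' : F} (h : Param hF e f γ w c w' c') :
    Param hF e f γ⁻¹ w' c' w c :=
  ⟨h.mem', h.cond', h.mem, h.cond, by rw [← h.eq, MulAut.inv_apply_self]⟩

theorem Param.center_zero (hγ : Sends hF γ e e) {z : F} {w' : Vn} {d : F}
    (h : Param hF e f γ 0 z w' d) : w' = 0 := by
  have hz : z + frobQ hF z = 0 := by
    have := h.cond; rwa [ub_zero_left hF, neg_zero] at this
  by_cases hz0 : z = 0
  · subst hz0
    have h1 : root hF e (0 : Vn) (0 : F) = 1 := su_ext fun x => by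
      rw [act_root hF H.he (ub_zero_right hF e) h.cond, ub_zero_left hF, act_one_apply]; simp
    have h00 : (0 : F) + frobQ hF 0 = -ub hF (0 : Vn) 0 := h.cond
    refine (Param.unique H hn h ⟨InW.zero, h00, InW.zero, h00, ?_⟩).1
    rw [h1, QuotientGroup.mk_one, map_one]
  · obtain ⟨-, -, c, -, hcc, e'⟩ := hγ.2.2 _ ⟨H.e_ne, H.he, z, hz0, hz, rfl⟩
    exact (Param.unique H hn h
      ⟨InW.zero, h.cond, InW.zero, neg_ub_zero hF hcc, e'.symm⟩).1

omit hn in
theorem Param.conj {w w' : Vn} {c c' : F} (h : Param hF e f γ w c w' c') {s s' : SUn} {l l' : F}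
    (hs : γ (QuotientGroup.mk s) = QuotientGroup.mk s') (hl : l ≠ 0) (hle : act s e = l • e)
    (hsf : Fixes s f) (hl' : l' ≠ 0) (hle' : act s' e = l' • e) (hsf' : Fixes s' f) :
    Param hF e f γ (frobQ hF l • act s w) (c * (l * frobQ hF l))
      (frobQ hF l' • act s' w') (c' * (l' * frobQ hF l')) := by
  obtain ⟨-, h1, h2⟩ := conj_root hF (isSemi_act hF s) hl H.he h.mem.1 h.cond hle
    (s := s * root hF e w c * s⁻¹) fun x => by rw [act_mul_apply, act_mul_apply, act_inv_act]
  obtain ⟨-, h1', h2'⟩ := conj_root hF (isSemi_act hF s') hl' H.he h.mem'.1 h.cond' hle'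
    (s := s' * root hF e w' c' * s'⁻¹) fun x => by rw [act_mul_apply, act_mul_apply, act_inv_act]
  simp only [RingEquiv.refl_apply] at h1 h2 h1' h2'
  refine ⟨(H.mem_W_of_fixes ⟨l, hl, hle⟩ hsf h.mem).smul _, h1,
    (H.mem_W_of_fixes ⟨l', hl', hle'⟩ hsf' h.mem').smul _, h1', ?_⟩
  rw [← h2, ← h2']
  simp only [QuotientGroup.mk_mul, QuotientGroup.mk_inv, map_mul, map_inv, hs, h.eq]

/-- The map induced on the orthogonal of the pair. -/
theorem Hyp.exists_pi (hγ : Sends hF γ e e) :
    ∃ π : Vn → Vn, (∀ w, InW hF e f w → InW hF e f (π w)) ∧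
      (∀ v w, InW hF e f v → InW hF e f w → π (v + w) = π v + π w) ∧
      ∀ w c w' c', Param hF e f γ w c w' c' → w' = π w := by
  have hex : ∀ w, ∃ w', InW hF e f w → ∃ c c', Param hF e f γ w c w' c' := by
    intro w
    by_cases hw : InW hF e f w
    · obtain ⟨c, hc⟩ := exists_c hF w
      obtain ⟨w', c', h⟩ := Param.exists' H hn hγ hw hc
      exact ⟨w', fun _ => ⟨c, c', h⟩⟩
    · exact ⟨0, fun h => absurd h hw⟩
  choose π hπ using hex
  have hall : ∀ w c w' c', Param hF e f γ w c w' c' → w' = π w := by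
    intro w c w' c' h
    obtain ⟨c₀, c₀', h0⟩ := hπ w h.mem
    have hd : (c - c₀) + frobQ hF (c - c₀) = -ub hF (0 : Vn) 0 := by
      rw [map_sub, ub_zero_left hF]; linear_combination h.cond - h0.cond
    obtain ⟨v, d, k⟩ := Param.exists' H hn hγ InW.zero hd
    have h2 := Param.mul H h0 k
    rw [add_zero, ub_zero_right hF, sub_zero, add_sub_cancel] at h2
    rw [(Param.unique H hn h h2).1, Param.center_zero H hn hγ k, add_zero]
  refine ⟨π, fun w hw => ?_, fun v w hv hw => ?_, hall⟩
  · obtain ⟨c, c', h⟩ := hπ w hw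
    exact h.mem'
  · obtain ⟨c, c', h⟩ := hπ v hv
    obtain ⟨d, d', k⟩ := hπ w hw
    exact (hall _ _ _ _ (Param.mul H h k)).symm

/-- The induced map is semilinear. -/
theorem Hyp.exists_semilinear (h32 : ¬(n = 3 ∧ q = 2)) (hγe : Sends hF γ e e)
    (hγf : Sends hF γ f f) (π : Vn → Vn)
    (hadd : ∀ v w, InW hF e f v → InW hF e f w → π (v + w) = π v + π w)
    (hπ : ∀ w c w' c', Param hF e f γ w c w' c' → w' = π w) :
    ∃ σ : F ≃+* F, ∀ (k : F) w, InW hF e f w → π (k • w) = σ k • π w := by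
  have hγe' := Sends.inv hF hn H.e_ne H.he hγe
  obtain ⟨π', hW', hadd', hπ'⟩ := H.exists_pi hn hγe'
  have hinv : ∀ w, InW hF e f w → π' (π w) = w := by
    intro w hw
    obtain ⟨c, hc⟩ := exists_c hF w
    obtain ⟨w', c', h⟩ := Param.exists' H hn hγe hw hc
    have := (hπ' _ _ _ _ (Param.symm H h)).symm
    rwa [hπ _ _ _ _ h] at this
  have hinv' : ∀ w, InW hF e f w → π (π' w) = w := by
    intro w hw
    obtain ⟨c, hc⟩ := exists_c hF w
    obtain ⟨w', c', h⟩ := Param.exists' H hn hγe' hw hc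
    have hs := Param.symm H h
    rw [inv_inv] at hs
    have := (hπ _ _ _ _ hs).symm
    rwa [hπ' _ _ _ _ h] at this
  have hW : ∀ w, InW hF e f w → InW hF e f (π w) := by
    intro w hw
    obtain ⟨c, hc⟩ := exists_c hF w
    obtain ⟨w', c', h⟩ := Param.exists' H hn hγe hw hc
    exact hπ _ _ _ _ h ▸ h.mem'
  have hscal : ∀ k : F, ∃ τ : F, ∀ w, InW hF e f w → π (k • π' w) = τ • w := by
    intro k
    refine H.commutant hn h32 (fun w => π (k • π' w)) (fun w hw => hW _ ((hW' w hw).smul k))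
      (fun v w hv hw => by
        rw [hadd' v w hv hw, smul_add, hadd _ _ ((hW' v hv).smul k) ((hW' w hw).smul k)])
      fun s' l' hle' hl' hsf' w hw => ?_
    obtain ⟨s, hs⟩ := QuotientGroup.mk_surjective (γ⁻¹ (QuotientGroup.mk s'))
    obtain ⟨l, hl, hle⟩ := fixes_image hF hn hs.symm H.e_ne H.he hγe' ⟨l', hl', hle'⟩
    have hsf := fixes_image hF hn hs.symm H.f_ne H.hf (Sends.inv hF hn H.f_ne H.hf hγf) hsf'
    have hs1 : γ (QuotientGroup.mk s) = QuotientGroup.mk s' := by rw [hs, MulAut.apply_inv_self]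
    have hν : ∀ u, InW hF e f u → π (frobQ hF l • act s u) = frobQ hF l' • act s' (π u) := by
      intro u hu
      obtain ⟨c, hc⟩ := exists_c hF u
      obtain ⟨u', c', h⟩ := Param.exists' H hn hγe hu hc
      rw [← hπ _ _ _ _ (Param.conj H h hs1 hl hle hsf hl' hle' hsf'), hπ _ _ _ _ h]
    have hνW : ∀ u, InW hF e f u → InW hF e f (frobQ hF l • act s u) := fun u hu =>
      (H.mem_W_of_fixes ⟨l, hl, hle⟩ hsf hu).smul _
    have h1 : π' (frobQ hF l' • act s' w) = frobQ hF l • act s (π' w) := by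
      conv_lhs => rw [← hinv' w hw, ← hν _ (hW' w hw), hinv _ (hνW _ (hW' w hw))]
    show π (k • π' (frobQ hF l' • act s' w)) = frobQ hF l' • act s' (π (k • π' w))
    rw [h1, smul_comm, ← map_smul, hν _ ((hW' w hw).smul k)]
  choose τ hτ using hscal
  obtain ⟨w₀, hw₀, hw₀0⟩ := H.exists_W_ne hn
  have hτ' : ∀ k w, InW hF e f w → π (k • w) = τ k • π w := fun k w hw => by
    have := hτ k (π w) (hW w hw)
    rwa [hinv w hw] at this
  have hπ0 : π w₀ ≠ 0 := fun h => hw₀0 (by
    have h2 := hadd' 0 0 InW.zero InW.zero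
    rw [add_zero, left_eq_add] at h2
    rw [← hinv w₀ hw₀, h, h2])
  have huniq : ∀ a b : F, a • π w₀ = b • π w₀ → a = b := fun a b h =>
    smul_left_injective F hπ0 h
  let T : F →+* F :=
    { toFun := τ
      map_one' := huniq _ _ (by rw [← hτ' 1 w₀ hw₀, one_smul, one_smul])
      map_mul' := fun a b => huniq _ _ (by
        rw [← hτ' _ w₀ hw₀, mul_smul, hτ' a _ (hw₀.smul b), hτ' b _ hw₀, mul_smul])
      map_zero' := huniq _ _ (by
        have h2 := hadd 0 0 InW.zero InW.zero
        rw [add_zero, left_eq_add] at h2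
        rw [← hτ' 0 w₀ hw₀, zero_smul, zero_smul, h2])
      map_add' := fun a b => huniq _ _ (by
        rw [← hτ' _ w₀ hw₀, add_smul, hadd _ _ (hw₀.smul a) (hw₀.smul b), hτ' a _ hw₀,
          hτ' b _ hw₀, add_smul]) }
  exact ⟨RingEquiv.ofBijective T ⟨T.injective, Finite.surjective_of_injective T.injective⟩, hτ'⟩

/-- The induced map is a similitude, and determines the action on the centre of the radical. -/
theorem Hyp.exists_similitude (hγe : Sends hF γ e e) (π : Vn → Vn) (σ : F ≃+* F)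
    (hπ : ∀ w c w' c', Param hF e f γ w c w' c' → w' = π w)
    (hσ : ∀ (k : F) w, InW hF e f w → π (k • w) = σ k • π w)
    (hadd : ∀ v w, InW hF e f v → InW hF e f w → π (v + w) = π v + π w) :
    ∃ r : F, r ≠ 0 ∧ frobQ hF r = r ∧
      (∀ v w, InW hF e f v → InW hF e f w → ub hF (π v) (π w) = σ r * σ (ub hF v w)) ∧
      ∀ z d w', Param hF e f γ 0 z w' d → d = σ r * σ z := by
  have key : ∀ v w, InW hF e f v → InW hF e f w →
      Param hF e f γ 0 (ub hF v w - ub hF w v) 0 (ub hF (π v) (π w) - ub hF (π w) (π v)) := by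
    intro v w hv hw
    obtain ⟨c, hc⟩ := exists_c hF v
    obtain ⟨d, hd⟩ := exists_c hF w
    obtain ⟨v', c', h⟩ := Param.exists' H hn hγe hv hc
    obtain ⟨w', d', k⟩ := Param.exists' H hn hγe hw hd
    obtain rfl := hπ _ _ _ _ h
    obtain rfl := hπ _ _ _ _ k
    have hz : (ub hF v w - ub hF w v) + frobQ hF (ub hF v w - ub hF w v) = -ub hF (0 : Vn) 0 := by
      rw [map_sub, ub_symm hF, ub_symm hF, ub_zero_left hF]; ring
    obtain ⟨z', x, hzp⟩ := Param.exists' H hn hγe InW.zero hz
    obtain rfl := Param.center_zero H hn hγe hzp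
    have h1 := Param.mul H (Param.mul H h k) hzp
    rw [add_zero, add_zero, ub_zero_right hF, ub_zero_right hF, sub_zero, sub_zero] at h1
    have h2 := Param.mul H k h
    rw [add_comm w v, add_comm (π w) (π v),
      show d + c - ub hF w v = c + d - ub hF v w + (ub hF v w - ub hF w v) by ring] at h2
    have h3 := (Param.unique H hn h1 h2).2
    rwa [show x = ub hF (π v) (π w) - ub hF (π w) (π v) by linear_combination h3] at hzp
  have hπ0 : π 0 = 0 := by simpa using hadd 0 0 InW.zero InW.zero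
  have h00 : ∀ {x}, Param hF e f γ 0 0 0 x → x = 0 := by
    intro x hx
    refine (Param.unique H hn hx ⟨InW.zero, hx.cond, InW.zero, hx.cond, ?_⟩).2
    have h1 : root hF e (0 : Vn) (0 : F) = 1 := su_ext fun x => by
      rw [act_root hF H.he (ub_zero_right hF e) hx.cond, ub_zero_left hF, act_one_apply]; simp
    rw [h1, QuotientGroup.mk_one, map_one]
  have hperp : ∀ v w, InW hF e f v → InW hF e f w → ub hF v w = 0 → ub hF (π v) (π w) = 0 := by
    intro v w hv hw h
    by_contra hne
    obtain ⟨z, hz, hzc⟩ := exists_z hF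
    obtain ⟨t, ht⟩ := KnownA.exists_trace_one hF
    have hall : ∀ a : F, a - frobQ hF a = 0 := by
      intro a
      set k := σ.symm (a / ub hF (π v) (π w))
      have h1 := key v (k • w) hv (hw.smul k)
      rw [ub_smul_right hF, ub_smul_left hF, ub_eq_zero_symm hF h, h, mul_zero, mul_zero, sub_zero,
        hσ k w hw] at h1
      have h2 := h00 h1
      rw [ub_smul_right hF, ub_smul_left hF, ← ub_symm hF (π v) (π w), ← map_mul,
        RingEquiv.apply_symm_apply, div_mul_cancel₀ _ hne] at h2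
      exact h2
    have h3 : frobQ hF z = z := (sub_eq_zero.mp (hall z)).symm
    have h4 : frobQ hF t = t := (sub_eq_zero.mp (hall t)).symm
    rw [h3] at hzc
    rw [h4] at ht
    exact hz (by linear_combination t * hzc - z * ht)
  have hpart : ∀ v, InW hF e f v → v ≠ 0 → ∃ r : F,
      (∀ w, InW hF e f w → ub hF (π v) (π w) = σ r * σ (ub hF v w)) ∧
      ∀ a : F, Param hF e f γ 0 (a - frobQ hF a) 0 (σ r * σ a - frobQ hF (σ r * σ a)) := by
    intro v hv hv0
    obtain ⟨u, hu, hvu⟩ : ∃ u, InW hF e f u ∧ ub hF v u = 1 := by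
      by_contra hcon
      push Not at hcon
      refine hv0 (H.eq_zero_of_perp hv fun w hw => ?_)
      by_contra hne
      exact hcon _ (hw.smul (ub hF v w)⁻¹) (by rw [ub_smul_right hF, inv_mul_cancel₀ hne])
    refine ⟨σ.symm (ub hF (π v) (π u)), fun w hw => ?_, fun a => ?_⟩
    · have h1 := hperp v (w - ub hF v w • u) hv (hw.sub (hu.smul _))
        (by rw [ub_sub_right hF, ub_smul_right hF, hvu, mul_one, sub_self])
      have h2 := hadd _ _ (hw.sub (hu.smul (ub hF v w))) (hu.smul (ub hF v w))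
      rw [sub_add_cancel, hσ _ u hu] at h2
      rw [h2, ub_add_right hF, h1, ub_smul_right hF, zero_add, RingEquiv.apply_symm_apply, mul_comm]
    · have h1 := key v (a • u) hv (hu.smul a)
      rw [ub_smul_right hF, hvu, mul_one, ub_smul_left hF, ← ub_symm hF v u, hvu, map_one, mul_one,
        hσ a u hu, ub_smul_right hF, ub_smul_left hF, ← ub_symm hF (π v) (π u), ← map_mul,
        mul_comm (σ a)] at h1
      rwa [RingEquiv.apply_symm_apply]
  obtain ⟨v₀, hv₀, hv₀₀⟩ := H.exists_aniso hn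
  have hv₀ne : v₀ ≠ 0 := fun h => hv₀₀ (by rw [h, ub_zero_left hF])
  obtain ⟨r, hr, hrψ⟩ := hpart v₀ hv₀ hv₀ne
  have hfix : frobQ hF (σ r) = σ r := by
    have h1 := hrψ 1
    rw [map_one, sub_self] at h1
    have h2 := h00 h1
    rw [map_one, mul_one] at h2
    exact (sub_eq_zero.mp h2).symm
  have hfix' : frobQ hF r = r := σ.injective (by rw [map_frob hF, hfix])
  have hall : ∀ v w, InW hF e f v → InW hF e f w → ub hF (π v) (π w) = σ r * σ (ub hF v w) := by
    intro v w hv hw
    by_cases hv0 : v = 0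
    · subst hv0; rw [hπ0, ub_zero_left hF, ub_zero_left hF]; simp
    obtain ⟨r', hr', hr'ψ⟩ := hpart v hv hv0
    suffices r' = r by rw [hr' w hw, this]
    by_contra hne
    have hd : ∀ a : F, (σ r' - σ r) * σ a = frobQ hF ((σ r' - σ r) * σ a) := fun a => by
      have h1 := (Param.unique H hn (hr'ψ a) (hrψ a)).2
      rw [sub_mul, map_sub]
      linear_combination h1
    have hne' : σ r' - σ r ≠ 0 := sub_ne_zero.mpr fun h => hne (σ.injective h)
    have hall2 : ∀ y : F, frobQ hF y = y := fun y => by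
      have := hd (σ.symm (y / (σ r' - σ r)))
      rwa [RingEquiv.apply_symm_apply, mul_div_cancel₀ _ hne', eq_comm] at this
    exact Forms.frobQ_ne_id hF (RingHom.ext hall2)
  refine ⟨r, fun h0 => ?_, hfix', hall, fun z d w' h => ?_⟩
  · -- the induced map is not zero
    have h1 := hr v₀ hv₀
    rw [h0, map_zero, zero_mul] at h1
    obtain ⟨z, hz, hzc⟩ := exists_z hF
    have h2 := hrψ (z * (KnownA.exists_trace_one hF).choose)
    obtain ⟨w', d, h3⟩ := Param.exists' H hn hγe InW.zero
      (show (0 : F) + frobQ hF 0 = -ub hF (0 : Vn) 0 by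
        rw [map_zero, add_zero, ub_zero_left hF, neg_zero])
    rw [h0, map_zero, zero_mul, map_zero, sub_zero] at h2
    have ht := (KnownA.exists_trace_one hF).choose_spec
    set t := (KnownA.exists_trace_one hF).choose
    have hzz : z * t - frobQ hF (z * t) = z := by
      rw [map_mul]; linear_combination z * ht - frobQ hF t * hzc
    rw [hzz] at h2
    have h00' : (0 : F) + frobQ hF 0 = -ub hF (0 : Vn) 0 := by
      rw [map_zero, add_zero, ub_zero_left hF, neg_zero]
    have h5 := (Param.unique (γ := γ⁻¹) H hn (Param.symm H h2)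
      ⟨InW.zero, h00', InW.zero, h00', ?_⟩).2
    · exact hz h5
    have h1 : root hF e (0 : Vn) (0 : F) = 1 := su_ext fun x => by
      rw [act_root hF H.he (ub_zero_right hF e) h00', ub_zero_left hF, act_one_apply]; simp
    rw [h1, QuotientGroup.mk_one, map_one]
  · have hz : z + frobQ hF z = 0 := by
      have := h.cond; rwa [ub_zero_left hF, neg_zero] at this
    obtain ⟨t, ht⟩ := KnownA.exists_trace_one hF
    have hzz : z * t - frobQ hF (z * t) = z := by
      rw [map_mul]; linear_combination z * ht - frobQ hF t * hz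
    have h2 := hrψ (z * t)
    rw [hzz] at h2
    rw [(Param.unique H hn h h2).2, map_mul (frobQ hF) (σ r), hfix, ← mul_sub]
    congr 1
    rw [← map_frob hF, ← map_sub, hzz]

end Cfsg.Agent.KnownB.Proj.Unit
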