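import Cfsg.Prelude.Def_LieTypeDatum
import Cfsg.Agent.Forms.UnitaryOrder
import Cfsg.Agent.Forms.UnitarySimple
import Cfsg.Agent.KnownB.AutPSL.Twist
import Cfsg.Agent.KnownB.AutPSL.Lang

/-! Automorphisms of `PSU_n(q)` induced by semilinear isometries. -/

set_option autoImplicit false

namespace Cfsg.Agent.KnownB.Proj.Unit

open Matrix
open Cfsg.Agent.KnownA (ub act)

universe u

variable {n q : ℕ} {F : Type u} [Field F]

local notation "Vn" => (Fin n → F)
local notation "Mn" => Matrix (Fin n) (Fin n) F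
local notation "GLn" => Matrix.GeneralLinearGroup (Fin n) F
local notation "SUn" => Cfsg.SU n F q

/-- The matrix of an element of `SU`. -/
abbrev sm (s : SUn) : Mn := ((s : Matrix.SpecialLinearGroup (Fin n) F) : Mn)

theorem sm_ext {s t : SUn} (h : sm s = sm t) : s = t := Subtype.ext (Subtype.ext h)

theorem act_eq (s : SUn) (x : Vn) : act s x = sm s *ᵥ x := Matrix.toLin'_apply (sm s) x

theorem herm_map (σ : F ≃+* F) (u v : Vn) :
    Cfsg.hermForm n F q (⇑σ ∘ u) (⇑σ ∘ v) = σ (Cfsg.hermForm n F q u v) := by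
  simp [Cfsg.hermForm, map_sum]

theorem map_mulVec (σ : F ≃+* F) (s : Mn) (u : Vn) : s.map σ *ᵥ (⇑σ ∘ u) = ⇑σ ∘ (s *ᵥ u) := by
  funext i
  simp [Matrix.mulVec, dotProduct, map_sum]

theorem comp_symm (σ : F ≃+* F) (u : Vn) : ⇑σ ∘ (⇑σ.symm ∘ u) = u := by
  funext i; simp

theorem map_preserves (σ : F ≃+* F) {s : Mn}
    (hs : ∀ u v, Cfsg.hermForm n F q (s *ᵥ u) (s *ᵥ v) = Cfsg.hermForm n F q u v) (u v : Vn) :
    Cfsg.hermForm n F q (s.map σ *ᵥ u) (s.map σ *ᵥ v) = Cfsg.hermForm n F q u v := by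
  obtain ⟨u, rfl⟩ : ∃ w, ⇑σ ∘ w = u := ⟨_, comp_symm σ u⟩
  obtain ⟨v, rfl⟩ : ∃ w, ⇑σ ∘ w = v := ⟨_, comp_symm σ v⟩
  rw [map_mulVec, map_mulVec, herm_map, hs, herm_map]

/-- `σ` on `SU`. -/
def fieldSU : (F ≃+* F) →* MulAut SUn where
  toFun σ :=
    { toFun := fun s => ⟨Matrix.SpecialLinearGroup.map (σ : F →+* F) s.1, map_preserves σ s.2⟩
      invFun := fun s => ⟨Matrix.SpecialLinearGroup.map (σ.symm : F →+* F) s.1,
        map_preserves σ.symm s.2⟩
      left_inv := fun s => sm_ext (Matrix.ext fun i j => σ.symm_apply_apply _)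
      right_inv := fun s => sm_ext (Matrix.ext fun i j => σ.apply_symm_apply _)
      map_mul' := fun s t => sm_ext (Matrix.map_mul (f := (σ : F →+* F))) }
  map_one' := MulEquiv.ext fun _ => sm_ext (Matrix.ext fun _ _ => rfl)
  map_mul' _ _ := MulEquiv.ext fun _ => sm_ext (Matrix.ext fun _ _ => rfl)

/-- Conjugate of an element of `SU` by a unitary matrix, as a special linear matrix. -/
def conjSL (g : GLn) (s : Matrix.SpecialLinearGroup (Fin n) F) :
    Matrix.SpecialLinearGroup (Fin n) F :=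
  ⟨(g : Mn) * s.1 * ((g⁻¹ : GLn) : Mn), by rw [Matrix.det_units_conj, s.2]⟩

theorem conj_mem {g : GLn} (hg : g ∈ Cfsg.GU n F q) (s : SUn) : conjSL g s.1 ∈ SUn := by
  intro u v
  show Cfsg.hermForm n F q (((g : Mn) * sm s * ((g⁻¹ : GLn) : Mn)) *ᵥ u)
    (((g : Mn) * sm s * ((g⁻¹ : GLn) : Mn)) *ᵥ v) = _
  rw [← Matrix.mulVec_mulVec, ← Matrix.mulVec_mulVec, ← Matrix.mulVec_mulVec,
    ← Matrix.mulVec_mulVec]
  exact ((hg _ _).trans (s.2 _ _)).trans ((inv_mem hg : g⁻¹ ∈ Cfsg.GU n F q) u v)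

/-- Conjugation by unitary matrices. -/
def conjSU : Cfsg.GU n F q →* MulAut SUn where
  toFun g :=
    { toFun := fun s => ⟨conjSL g.1 s.1, conj_mem g.2 s⟩
      invFun := fun s => ⟨conjSL g.1⁻¹ s.1, conj_mem (inv_mem g.2) s⟩
      left_inv := fun s => sm_ext (by simp [sm, conjSL, mul_assoc])
      right_inv := fun s => sm_ext (by simp [sm, conjSL, mul_assoc])
      map_mul' := fun s t => sm_ext (show (g.1 : Mn) * (sm s * sm t) * ((g.1⁻¹ : GLn) : Mn) =
          ((g.1 : Mn) * sm s * ((g.1⁻¹ : GLn) : Mn)) * ((g.1 : Mn) * sm t * ((g.1⁻¹ : GLn) : Mn))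
        by simp [mul_assoc]) }
  map_one' := MulEquiv.ext fun _ => sm_ext (by simp [sm, conjSL])
  map_mul' g h := MulEquiv.ext fun _ => sm_ext (by simp [sm, conjSL, mul_assoc])

/-- An automorphism of `SU` induces one of `PSU`. -/
def liftAut : MulAut SUn →* MulAut (Cfsg.PSU n F q) where
  toFun e := QuotientGroup.congr _ _ e (AutPSL.map_center_eq e)
  map_one' := MulEquiv.ext fun x => by induction x using QuotientGroup.induction_on; rfl
  map_mul' _ _ := MulEquiv.ext fun x => by induction x using QuotientGroup.induction_on; rfl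

variable (n q F) in
/-- `GU → Aut PSU`. -/
def A : Cfsg.GU n F q →* MulAut (Cfsg.PSU n F q) := liftAut.comp conjSU

variable (n q F) in
/-- Field automorphisms of `PSU`. -/
def Fd : (F ≃+* F) →* MulAut (Cfsg.PSU n F q) := liftAut.comp fieldSU

theorem autPSU_ext {β γ : MulAut (Cfsg.PSU n F q)}
    (h : ∀ s : SUn, β (QuotientGroup.mk s) = γ (QuotientGroup.mk s)) : β = γ :=
  MulEquiv.ext fun x => by induction x using QuotientGroup.induction_on; exact h _

theorem mapGL_mem (σ : F ≃+* F) {g : GLn} (hg : g ∈ Cfsg.GU n F q) :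
    AutPSL.mapGL σ g ∈ Cfsg.GU n F q := map_preserves σ hg

/-- `σ` on unitary matrices. -/
def mapGU (σ : F ≃+* F) : Cfsg.GU n F q →* Cfsg.GU n F q :=
  ((AutPSL.mapGL σ).comp (Cfsg.GU n F q).subtype).codRestrict _ fun g => mapGL_mem σ g.2

theorem mapGU_val (σ : F ≃+* F) (g : Cfsg.GU n F q) :
    ((mapGU σ g).1 : Mn) = (g.1 : Mn).map σ := rfl

theorem Fd_A (σ : F ≃+* F) (g : Cfsg.GU n F q) :
    Fd n q F σ * A n q F g = A n q F (mapGU σ g) * Fd n q F σ := by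
  refine autPSU_ext fun s => congrArg QuotientGroup.mk (sm_ext ?_)
  show ((g.1 : Mn) * sm s * ((g.1⁻¹ : GLn) : Mn)).map σ = (g.1 : Mn).map σ * (sm s).map σ * _
  rw [Matrix.map_mul, Matrix.map_mul]
  rfl

theorem isInducedBySemilinear_iff {g : GLn} (hg : g ∈ Cfsg.GU n F q) (σ : F ≃+* F)
    (β : MulAut (Cfsg.PSU n F q)) :
    Cfsg.IsInducedBySemilinearPSU g σ β ↔ β = A n q F ⟨g, hg⟩ * Fd n q F σ := by
  constructor
  · intro h
    exact autPSU_ext fun s => h s (conjSU ⟨g, hg⟩ (fieldSU σ s)) rfl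
  · rintro rfl s s' hs
    show QuotientGroup.mk (conjSU ⟨g, hg⟩ (fieldSU σ s)) = _
    exact congrArg QuotientGroup.mk (sm_ext hs.symm)

theorem isFieldAutOf_iff (σ : F ≃+* F) (β : MulAut (Cfsg.PSU n F q)) :
    Cfsg.IsFieldAutPSUOf σ β ↔ β = Fd n q F σ := by
  constructor
  · intro h
    exact autPSU_ext fun s => h s (fieldSU σ s) rfl
  · rintro rfl s s' hs
    show QuotientGroup.mk (fieldSU σ s) = _
    exact congrArg QuotientGroup.mk (sm_ext hs.symm)

theorem isInnerDiagonal_iff (β : MulAut (Cfsg.PSU n F q)) :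
    Cfsg.IsInnerDiagonalAutPSU β ↔ β ∈ (A n q F).range := by
  constructor
  · rintro ⟨g, hg, h⟩
    exact ⟨⟨g, hg⟩, (autPSU_ext fun s => h s (conjSU ⟨g, hg⟩ s) rfl).symm⟩
  · rintro ⟨g, rfl⟩
    refine ⟨g.1, g.2, fun s s' hs => ?_⟩
    show QuotientGroup.mk (conjSU g s) = _
    exact congrArg QuotientGroup.mk (sm_ext hs.symm)

theorem inndiagPSU_eq : Cfsg.inndiagPSU n F q = (A n q F).range := by
  refine le_antisymm ((Subgroup.closure_le _).mpr fun β hβ => (isInnerDiagonal_iff β).mp hβ)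
    fun β hβ => Subgroup.subset_closure ((isInnerDiagonal_iff β).mpr hβ)

/-- A special unitary matrix as a unitary one. -/
def suInc : SUn →* Cfsg.GU n F q :=
  (Matrix.SpecialLinearGroup.toGL.comp (Cfsg.SU n F q).subtype).codRestrict _ fun s => s.2

theorem conj_eq (s : SUn) :
    MulAut.conj (QuotientGroup.mk s : Cfsg.PSU n F q) = A n q F (suInc s) := by
  refine autPSU_ext fun t => ?_
  show (QuotientGroup.mk s : Cfsg.PSU n F q) * QuotientGroup.mk t * (QuotientGroup.mk s)⁻¹ =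
    QuotientGroup.mk (conjSU (suInc s) t)
  rw [← QuotientGroup.mk_inv, ← QuotientGroup.mk_mul, ← QuotientGroup.mk_mul]
  refine congrArg QuotientGroup.mk (sm_ext ?_)
  rfl

/-- The semilinear map of `A g * Fd σ`. -/
def semi (g : Cfsg.GU n F q) (σ : F ≃+* F) (x : Vn) : Vn := (g.1 : Mn) *ᵥ (⇑σ ∘ x)

theorem semi_act (g : Cfsg.GU n F q) (σ : F ≃+* F) (s : SUn) (x : Vn) :
    act (conjSU g (fieldSU σ s)) (semi g σ x) = semi g σ (act s x) := by
  rw [act_eq, act_eq]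
  show ((g.1 : Mn) * (sm s).map σ * ((g.1⁻¹ : GLn) : Mn)) *ᵥ ((g.1 : Mn) *ᵥ (⇑σ ∘ x)) =
    (g.1 : Mn) *ᵥ (⇑σ ∘ (sm s *ᵥ x))
  rw [Matrix.mulVec_mulVec, mul_assoc, mul_assoc, Units.inv_mul, mul_one, ← Matrix.mulVec_mulVec,
    map_mulVec]

theorem semi_add (g : Cfsg.GU n F q) (σ : F ≃+* F) (x y : Vn) :
    semi g σ (x + y) = semi g σ x + semi g σ y := by
  rw [semi, semi, semi, ← Matrix.mulVec_add]
  congr 1
  funext i; simp

theorem semi_smul (g : Cfsg.GU n F q) (σ : F ≃+* F) (a : F) (x : Vn) :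
    semi g σ (a • x) = σ a • semi g σ x := by
  rw [semi, semi, ← Matrix.mulVec_smul]
  congr 1
  funext i; simp

theorem semi_surj (g : Cfsg.GU n F q) (σ : F ≃+* F) : Function.Surjective (semi g σ) := fun y =>
  ⟨⇑σ.symm ∘ (((g.1⁻¹ : GLn) : Mn) *ᵥ y), by
    rw [semi, comp_symm, Matrix.mulVec_mulVec, Units.mul_inv, Matrix.one_mulVec]⟩

theorem semi_ne (g : Cfsg.GU n F q) (σ : F ≃+* F) {x : Vn} (hx : x ≠ 0) : semi g σ x ≠ 0 := by
  intro h
  refine hx (funext fun i => σ.injective ?_)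
  have h1 := congrArg (fun y => ((g.1⁻¹ : GLn) : Mn) *ᵥ y) h
  simp only [semi, Matrix.mulVec_mulVec, Units.inv_mul, Matrix.one_mulVec, Matrix.mulVec_zero] at h1
  simpa using congrFun h1 i

theorem ub_semi [Fintype F] (hF : Fintype.card F = q ^ 2) (g : Cfsg.GU n F q) (σ : F ≃+* F)
    (x y : Vn) : ub hF (semi g σ x) (semi g σ y) = σ (ub hF x y) := by
  show Cfsg.hermForm n F q ((g.1 : Mn) *ᵥ (⇑σ ∘ y)) ((g.1 : Mn) *ᵥ (⇑σ ∘ x)) = _
  exact (g.2 _ _).trans (herm_map σ y x)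

end Cfsg.Agent.KnownB.Proj.Unit
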