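import Cfsg.Agent.KnownB.Proj.Unit.Aut
import Cfsg.Agent.KnownB.Proj.GroupTwist
import Cfsg.Agent.Forms.HermOrder

/-! Lang's theorem for unitary groups and the twist of a field automorphism of odd order. -/

set_option autoImplicit false

namespace Cfsg.Agent.KnownB.Proj.Unit

open Matrix
open Cfsg.Agent.Forms (frobQ normOne)
open Cfsg.Agent.KnownB.AutPSL (nrm fixSub mem_fixSub mapGL nrm_comp)
open Cfsg.Agent.KnownA (ub act)

universe u v

variable {n q : ℕ} {F : Type u} [Field F] [Fintype F] (hF : Fintype.card F = q ^ 2)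

local notation "Vn" => (Fin n → F)
local notation "Mn" => Matrix (Fin n) (Fin n) F
local notation "GLn" => Matrix.GeneralLinearGroup (Fin n) F
local notation "SUn" => Cfsg.SU n F q

omit [Fintype F] in
theorem gu_ext {g h : Cfsg.GU n F q} (e : (g.1 : Mn) = (h.1 : Mn)) : g = h :=
  Subtype.ext (Units.ext e)

include hF

variable (n) in
/-- Scalar isometries. -/
def sc : normOne F q →* Cfsg.GU n F q :=
  ((GeneralLinearGroup.scalar (Fin n)).comp (normOne F q).subtype).codRestrict _ fun c u v => by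
    have hc := (Forms.mem_normOne hF).mp c.2
    show Cfsg.hermForm n F q ((GeneralLinearGroup.scalar (Fin n) (c : Fˣ) : Mn) *ᵥ u)
      ((GeneralLinearGroup.scalar (Fin n) (c : Fˣ) : Mn) *ᵥ v) = _
    rw [GeneralLinearGroup.coe_scalar, Matrix.scalar_apply]
    exact Forms.hermForm_mulVec_scalar_diag (q := q) _ (fun _ => by
      rw [← Forms.frobQ_apply hF]; exact hc) u v

theorem sc_val (c : normOne F q) :
    ((sc n hF c).1 : Mn) = Matrix.diagonal fun _ => ((c : Fˣ) : F) := by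
  show ((GeneralLinearGroup.scalar (Fin n) (c : Fˣ) : GLn) : Mn) = _
  rw [GeneralLinearGroup.coe_scalar, Matrix.scalar_apply]

theorem sc_mulVec (c : normOne F q) (x : Vn) :
    ((sc n hF c).1 : Mn) *ᵥ x = ((c : Fˣ) : F) • x := by
  rw [sc_val]; funext i; simp [Matrix.mulVec_diagonal]

theorem sc_comm (c : normOne F q) (x : Cfsg.GU n F q) : Commute (sc n hF c) x := by
  refine gu_ext ?_
  show ((sc n hF c).1 : Mn) * (x.1 : Mn) = (x.1 : Mn) * ((sc n hF c).1 : Mn)
  rw [sc_val]; ext i j; simp [mul_comm]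

theorem sc_inj (hn : 1 ≤ n) : Function.Injective (sc n hF) := by
  intro a b h
  have h1 := congrArg (fun g : Cfsg.GU n F q => (g.1 : Mn) ⟨0, hn⟩ ⟨0, hn⟩) h
  simp only [sc_val, Matrix.diagonal_apply_eq] at h1
  exact Subtype.ext (Units.ext h1)

theorem guDet_sc (c : normOne F q) : Forms.guDet hF (sc n hF c) = c ^ n := by
  refine Subtype.ext (Units.ext ?_)
  show ((sc n hF c).1 : Mn).det = _
  rw [sc_val, Matrix.det_diagonal, Finset.prod_const, Finset.card_univ, Fintype.card_fin]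
  simp

omit [Fintype F] in
/-- `σ` on the norm-one units. -/
def mapNormOne (σ : F ≃+* F) : normOne F q →* normOne F q :=
  ((Units.map (σ : F →* F)).comp (normOne F q).subtype).codRestrict _ fun c => by
    have hc : (c : Fˣ) ^ (q + 1) = 1 := c.2
    show (Units.map (σ : F →* F) (c : Fˣ)) ^ (q + 1) = 1
    rw [← map_pow, hc, map_one]

theorem mapGU_sc (σ : F ≃+* F) (c : normOne F q) :
    mapGU σ (sc n hF c) = sc n hF (mapNormOne σ c) := by
  refine gu_ext ?_
  rw [mapGU_val, sc_val, sc_val, Matrix.diagonal_map (map_zero σ)]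
  rfl

theorem guDet_mapGU (σ : F ≃+* F) (g : Cfsg.GU n F q) :
    Forms.guDet hF (mapGU σ g) = mapNormOne σ (Forms.guDet hF g) := by
  refine Subtype.ext ?_
  exact AutPSL.det_mapGL σ g.1

theorem A_eq_one_iff (hn : 3 ≤ n) (g : Cfsg.GU n F q) :
    A n q F g = 1 ↔ g ∈ (sc n hF).range := by
  constructor
  · intro h
    have hg : ∀ x, semi g 1 x = (g.1 : Mn) *ᵥ x := fun x => rfl
    obtain ⟨k, hk⟩ := Forms.scalar_of_iso_lines hF (show 2 ≤ n by omega) (Matrix.toLin' (g.1 : Mn))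
      (Forms.gu_preserves hF g) fun v hv hv0 => by
        have h1 := sends_semi hF g 1 hv0 hv
        rw [h, map_one, mul_one] at h1
        obtain ⟨k, -, e⟩ := Sends.unique hF hn hv0 hv h1
          ⟨hv0, hv, fun x hx => by rwa [MulAut.one_apply]⟩
        exact ⟨k, by rw [Matrix.toLin'_apply, ← hg, e]⟩
    have hM : (g.1 : Mn) = Matrix.diagonal fun _ => k := Forms.matrix_ext_mulVec fun x => by
      rw [← Matrix.toLin'_apply, hk]; funext i; simp [Matrix.mulVec_diagonal]
    obtain ⟨e, f, -, -, hef⟩ := Forms.exists_iso_pair hF (show 2 ≤ n by omega) (n := n)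
    have h2 := Forms.gu_preserves hF g e f
    rw [hk, hk, KnownA.ub_smul_left hF, KnownA.ub_smul_right hF, hef, mul_one] at h2
    have hk0 : k ≠ 0 := by rintro rfl; rw [map_zero, zero_mul] at h2; exact zero_ne_one h2
    refine ⟨⟨Units.mk0 k hk0, (Forms.mem_normOne hF).2 (by rw [mul_comm]; exact h2)⟩, gu_ext ?_⟩
    rw [sc_val, hM]; rfl
  · rintro ⟨c, rfl⟩
    refine autPSU_ext fun s => congrArg QuotientGroup.mk (sm_ext ?_)
    show ((sc n hF c).1 : Mn) * sm s * (((sc n hF c).1⁻¹ : GLn) : Mn) = sm s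
    rw [show ((sc n hF c).1 : Mn) * sm s = sm s * ((sc n hF c).1 : Mn) by
      rw [sc_val]; ext i j; simp [mul_comm], mul_assoc, Units.mul_inv, mul_one]

omit hF [Fintype F] in
theorem mapGU_iter (σ : F ≃+* F) (k : ℕ) (g : Cfsg.GU n F q) :
    (((mapGU σ)^[k] g).1 : Mn) = (g.1 : Mn).map ⇑(σ ^ k) := by
  induction k with
  | zero => ext i j; rfl
  | succ k ih =>
    rw [Function.iterate_succ_apply', mapGU_val, ih, pow_succ']
    ext i j
    rfl

/-- The fixed field of an automorphism of odd order. -/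
theorem card_fixed {r : ℕ} {σ : F ≃+* F} (hσ : orderOf σ = r)
    (K : Subfield F) (hK : ∀ x : F, x ∈ K ↔ σ x = x) : Nat.card K ^ r = q ^ 2 := by
  classical
  haveI : Finite (F ≃+* F) := Finite.of_injective (fun e => (e : F → F)) DFunLike.coe_injective
  let S := Subgroup.zpowers σ
  haveI : Fintype S := Fintype.ofFinite S
  haveI : FaithfulSMul S F := ⟨fun {a b} h => Subtype.ext (RingEquiv.ext h)⟩
  have hKeq : K = FixedPoints.subfield S F := by
    ext x
    rw [hK]
    refine ⟨fun hx g => ?_, fun hx => hx ⟨σ, Subgroup.mem_zpowers σ⟩⟩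
    obtain ⟨k, hk⟩ := g.2
    show (g : F ≃+* F) x = x
    rw [← hk]
    have : σ ∈ MulAction.stabilizer (F ≃+* F) x := hx
    exact (zpow_mem this k : σ ^ k ∈ MulAction.stabilizer (F ≃+* F) x)
  subst hKeq
  haveI : Fintype (FixedPoints.subfield S F) := Fintype.ofFinite _
  have h := Module.card_eq_pow_finrank (K := FixedPoints.subfield S F) (V := F)
  rw [FixedPoints.finrank_eq_card S F, ← Nat.card_eq_fintype_card (α := S), Nat.card_zpowers, hσ,
    hF] at h
  rw [Nat.card_eq_fintype_card]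
  exact h.symm

omit hF [Fintype F] in
theorem pow_q_eq {K : Type v} [Field K] [Fintype K] {q₀ r : ℕ} (hK : Fintype.card K = q₀ ^ 2)
    (hr : Odd r) (x : K) : x ^ q₀ ^ r = x ^ q₀ := by
  obtain ⟨m, rfl⟩ := hr
  induction m with
  | zero => simp
  | succ m ih =>
    rw [show 2 * (m + 1) + 1 = (2 * m + 1) + 2 by ring, pow_add, pow_mul, ih, ← pow_mul,
      mul_comm, pow_mul, ← hK, FiniteField.pow_card]

/-- Lang's theorem. -/
theorem lang_gu {r : ℕ} (hr : Odd r) {σ : F ≃+* F} (hσ : orderOf σ = r)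
    (g : Cfsg.GU n F q) (hg : nrm (mapGU σ) r g = 1) : ∃ h, g = h * (mapGU σ h)⁻¹ := by
  classical
  obtain ⟨H, hH⟩ := AutPSL.lang_field hr.pos hσ g.1 (by
    rw [show g.1 = (Cfsg.GU n F q).subtype g from rfl,
      nrm_comp (mapGL σ) (mapGU σ) _ (fun x => rfl), hg, map_one])
  let K : Subfield F := RingHom.eqLocusField (σ : F →+* F) (RingHom.id F)
  have hKmem : ∀ x : F, x ∈ K ↔ σ x = x := fun x => Iff.rfl
  haveI : Fintype K := Fintype.ofFinite K
  have hcard := card_fixed hF hσ K hKmem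
  obtain ⟨q₀, hq₀, hqq⟩ : ∃ q₀, Fintype.card K = q₀ ^ 2 ∧ q = q₀ ^ r := by
    obtain ⟨p, hp⟩ := CharP.exists K
    obtain ⟨a, hpp, ha⟩ := FiniteField.card K p
    obtain ⟨p', b, hp'', -, hb⟩ := Forms.exists_q_eq_pow hF
    rw [Nat.card_eq_fintype_card, ha, ← pow_mul, hb, ← pow_mul] at hcard
    have hpp' : p = p' := by
      have h1 : p ∣ p' ^ (b * 2) := hcard ▸ dvd_pow_self p (by have := hr.pos; have := a.pos; positivity)
      exact (Nat.prime_dvd_prime_iff_eq hpp hp'').mp (hpp.dvd_of_dvd_pow h1)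
    subst hpp'
    have h2 : (a : ℕ) * r = b * 2 := Nat.pow_right_injective hpp.two_le hcard
    obtain ⟨a', ha'⟩ : 2 ∣ (a : ℕ) := by
      rcases Nat.prime_two.dvd_mul.mp (h2 ▸ dvd_mul_left 2 b : 2 ∣ (a : ℕ) * r) with h | h
      · exact h
      · exact absurd (even_iff_two_dvd.mpr h) (Nat.not_even_iff_odd.mpr hr)
    refine ⟨p ^ a', by rw [ha, ← pow_mul, ha', mul_comm], ?_⟩
    rw [hb, ← pow_mul]
    congr 1
    rw [ha'] at h2
    linarith
  have hqx : ∀ x : K, ((frobQ hq₀ x : K) : F) = (x : F) ^ q := fun x => by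
    rw [Forms.frobQ_apply, ← pow_q_eq hq₀ hr x, hqq]
    exact SubmonoidClass.coe_pow _ _
  -- the Gram matrix is fixed by `σ`
  let Kc : GLn := mapGL σ H
  have hgK : (g.1 : Mn) * (Kc : Mn) = (H : Mn) := by
    rw [hH, Units.val_mul, mul_assoc, Units.inv_mul, mul_one]
  let col : GLn → Fin n → Vn := fun M i => (M : Mn) *ᵥ Pi.single i 1
  let N : Mn := fun i j => ub hF (col H i) (col H j)
  have hN : ∀ i j, σ (N i j) = N i j := by
    intro i j
    have h1 : ∀ l, col Kc l = ⇑σ ∘ col H l := fun l => by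
      show (H : Mn).map σ *ᵥ Pi.single l 1 = _
      have he : (Pi.single l 1 : Vn) = ⇑σ ∘ Pi.single l 1 := by
        funext k; by_cases hk : k = l <;> simp [hk]
      conv_lhs => rw [he]
      exact map_mulVec σ _ _
    have h2 := Forms.gu_preserves hF g (col Kc i) (col Kc j)
    rw [Matrix.toLin'_apply, Matrix.toLin'_apply, Matrix.mulVec_mulVec, Matrix.mulVec_mulVec,
      hgK, h1, h1] at h2
    show σ (ub hF (col H i) (col H j)) = ub hF (col H i) (col H j)
    refine Eq.trans ?_ h2.symm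
    exact (herm_map σ (col H j) (col H i)).symm
  let j : (Fin n → K) → Vn := fun x i => (x i : F)
  have hjadd : ∀ x y, j (x + y) = j x + j y := fun _ _ => rfl
  have hjsmul : ∀ (a : K) x, j (a • x) = (a : F) • j x := fun _ _ => rfl
  have hmem : ∀ x y, ub hF ((H : Mn) *ᵥ j x) ((H : Mn) *ᵥ j y) ∈ K := by
    intro x y
    have hx : ∀ z : Fin n → K, (H : Mn) *ᵥ j z = ∑ i, (z i : F) • col H i := fun z => by
      funext k
      simp [col, Matrix.mulVec, dotProduct, j, mul_comm]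
    rw [hx, hx]
    simp only [ub, map_sum, LinearMap.sum_apply, map_smul, LinearMap.map_smulₛₗ,
      LinearMap.smul_apply, smul_eq_mul, Finset.mul_sum]
    refine Subfield.sum_mem _ fun a _ => ?_
    refine Subfield.sum_mem _ fun b _ => ?_
    refine K.mul_mem ?_ (K.mul_mem ?_ ((hKmem _).mpr (hN _ _)))
    all_goals first | exact (x _).2 | exact (y _).2 | exact K.pow_mem (x _).2 q |
      (rw [Forms.frobQ_apply]; exact K.pow_mem (x _).2 q)
  let B : (Fin n → K) →ₛₗ[frobQ hq₀] (Fin n → K) →ₗ[K] K :=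
    LinearMap.mk₂'ₛₗ (frobQ hq₀) (RingHom.id K) (fun x y => ⟨_, hmem x y⟩)
      (fun x x' y => Subtype.ext (by
        simp [hjadd, Matrix.mulVec_add, KnownA.ub_add_left hF]))
      (fun a x y => Subtype.ext (by
        show ub hF ((H : Mn) *ᵥ j (a • x)) ((H : Mn) *ᵥ j y) =
          ((frobQ hq₀ a : K) : F) * ub hF ((H : Mn) *ᵥ j x) ((H : Mn) *ᵥ j y)
        rw [hjsmul, Matrix.mulVec_smul, KnownA.ub_smul_left hF, hqx, Forms.frobQ_apply]))
      (fun x y y' => Subtype.ext (by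
        simp [hjadd, Matrix.mulVec_add, KnownA.ub_add_right hF]))
      (fun a x y => Subtype.ext (by
        show ub hF ((H : Mn) *ᵥ j x) ((H : Mn) *ᵥ j (a • y)) =
          (a : F) * ub hF ((H : Mn) *ᵥ j x) ((H : Mn) *ᵥ j y)
        rw [hjsmul, Matrix.mulVec_smul, KnownA.ub_smul_right hF]))
  have hsymm : ∀ x y, frobQ hq₀ (B x y) = B y x := fun x y => Subtype.ext (by
    rw [hqx]
    show ub hF _ _ ^ q = _
    rw [← Forms.frobQ_apply hF, KnownA.ub_symm hF]
    rfl)
  have hnd : ∀ x, (∀ y, B x y = 0) → x = 0 := by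
    intro x hx
    have h0 : (H : Mn) *ᵥ j x = 0 := by
      refine (Forms.hermB_nondegenerate hF).1 _ fun z => ?_
      show ub hF _ z = 0
      have hz : z = ∑ l, (((H⁻¹ : GLn) : Mn) *ᵥ z) l • ((H : Mn) *ᵥ j (Pi.single l 1)) := by
        have e : z = (H : Mn) *ᵥ (((H⁻¹ : GLn) : Mn) *ᵥ z) := by simp [Matrix.mulVec_mulVec]
        conv_lhs => rw [e, pi_eq_sum_univ' (((H⁻¹ : GLn) : Mn) *ᵥ z)]
        simp only [Matrix.mulVec_sum, Matrix.mulVec_smul]
        refine Finset.sum_congr rfl fun l _ => ?_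
        congr 2
        funext k
        by_cases hk : k = l <;> simp [j, hk]
      rw [hz]
      simp only [ub, map_sum, map_smul]
      refine Finset.sum_eq_zero fun l _ => ?_
      rw [smul_eq_zero]
      exact Or.inr (congrArg Subtype.val (hx (Pi.single l 1)))
    have h1 := congrArg (fun y => ((H⁻¹ : GLn) : Mn) *ᵥ y) h0
    simp only [Matrix.mulVec_mulVec, Units.inv_mul, Matrix.one_mulVec, Matrix.mulVec_zero] at h1
    exact funext fun i => Subtype.ext (congrFun h1 i)
  have hherm : Forms.IsHerm q₀ (frobQ hq₀) B :=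
    ⟨Forms.frobQ_apply hq₀, hsymm, Forms.isForm_hermitian _ (Forms.frobQ_ne_id hq₀)
      (Forms.frobQ_frobQ hq₀) B ⟨hsymm⟩ ⟨hnd, fun y hy => hnd y fun x => by
        rw [← hsymm, hy, map_zero]⟩, Forms.frobQ_ne_id hq₀⟩
  obtain ⟨b₀, hb₀⟩ := hherm.exists_orthonormal hq₀
  obtain ⟨b, hb⟩ : ∃ b : Fin n → (Fin n → K), ∀ i l, B (b i) (b l) = if i = l then 1 else 0 := by
    refine ⟨fun i => b₀ (finCongr (Module.finrank_fin_fun K).symm i), fun i l => ?_⟩
    rw [hb₀]
    simp
  let P : Mn := fun i l => (b l i : F)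
  have hP : ∀ l, P *ᵥ Pi.single l 1 = j (b l) := fun l => by rw [Matrix.mulVec_single_one]; rfl
  have hpres : ∀ u w, ub hF (((H : Mn) * P) *ᵥ u) (((H : Mn) * P) *ᵥ w) = ub hF u w := by
    have hbase : ∀ i l, ub hF (((H : Mn) * P) *ᵥ Pi.single i 1) (((H : Mn) * P) *ᵥ Pi.single l 1) =
        ub hF (Pi.single i 1) (Pi.single l 1) := by
      intro i l
      rw [← Matrix.mulVec_mulVec, ← Matrix.mulVec_mulVec, hP, hP,
        show ub hF ((H : Mn) *ᵥ j (b i)) ((H : Mn) *ᵥ j (b l)) = ((B (b i) (b l) : K) : F) from rfl,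
        hb]
      have hq0 : q ≠ 0 := by have := Forms.two_le_q hF; omega
      show _ = Cfsg.hermForm n F q (Pi.single l 1) (Pi.single i 1)
      rw [Cfsg.hermForm, Finset.sum_eq_single l (fun k _ hk => by
        rw [Pi.single_eq_of_ne hk, zero_mul]) (by simp)]
      by_cases hil : i = l
      · subst hil; simp
      · simp [hil, Ne.symm hil, hq0]
    intro u w
    conv_lhs => rw [pi_eq_sum_univ' u, pi_eq_sum_univ' w]
    conv_rhs => rw [pi_eq_sum_univ' u, pi_eq_sum_univ' w]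
    simp only [ub, Matrix.mulVec_sum, Matrix.mulVec_smul, map_sum, LinearMap.sum_apply, map_smul,
      LinearMap.map_smulₛₗ, LinearMap.smul_apply, smul_eq_mul, Finset.mul_sum]
    refine Finset.sum_congr rfl fun a _ => Finset.sum_congr rfl fun c _ => ?_
    simp only [ub] at hbase
    rw [hbase]
  have hdet : P.det ≠ 0 := fun hd => by
    obtain ⟨y, hy0, hy⟩ := Matrix.exists_mulVec_eq_zero_iff.mpr hd
    refine hy0 ((Forms.hermB_nondegenerate hF).1 y fun w => ?_)
    show ub hF y w = 0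
    rw [← hpres, ← Matrix.mulVec_mulVec, hy, Matrix.mulVec_zero, KnownA.ub_zero_left hF]
  refine ⟨⟨H * GeneralLinearGroup.mkOfDetNeZero P hdet, fun u w => hpres w u⟩, ?_⟩
  refine eq_mul_inv_of_mul_eq (gu_ext ?_)
  show (g.1 : Mn) * ((H : Mn) * P).map σ = (H : Mn) * P
  rw [Matrix.map_mul, show P.map σ = P from Matrix.ext fun i l => (hKmem _).mp (b l i).2,
    ← Matrix.mul_assoc, show (H : Mn).map σ = (Kc : Mn) from rfl, hgK]

theorem fieldTwist (hn : 3 ≤ n) {r : ℕ} (hr : Odd r) {σ : F ≃+* F} (hσ : orderOf σ = r) :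
    GTwist (A n q F) (Fd n q F σ) (sc n hF) (mapGU σ) (mapNormOne σ) r where
  comm g := Fd_A σ g
  pow_tau := by rw [← map_pow, ← hσ, pow_orderOf_eq_one, map_one]
  iter g := gu_ext (by
    rw [mapGU_iter, ← hσ, pow_orderOf_eq_one]
    rfl)
  scalar := mapGU_sc hF σ
  sc_comm := sc_comm hF
  sc_inj := sc_inj hF (by omega)
  ker_eq := by ext g; exact A_eq_one_iff hF hn g
  lang := lang_gu hF hr hσ
  lang₀ u hu := by
    obtain ⟨h, hh⟩ := lang_gu hF (n := 1) hr hσ (sc 1 hF u)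
      (by rw [nrm_comp (mapGU σ) (mapNormOne σ) _ (mapGU_sc hF σ), hu, map_one])
    refine ⟨Forms.guDet hF h, ?_⟩
    have := congrArg (Forms.guDet hF) hh
    rwa [map_mul, map_inv, guDet_mapGU hF, guDet_sc hF, pow_one] at this

theorem range_A_normal (hn : 3 ≤ n) (h32 : ¬(n = 3 ∧ q = 2)) : (A n q F).range.Normal := by
  refine ⟨?_⟩
  rintro _ ⟨g, rfl⟩ β
  obtain ⟨h, σ, rfl⟩ := exists_decomp hn hF h32 β
  refine ⟨h * mapGU σ g * h⁻¹, ?_⟩
  rw [map_mul, map_mul, map_inv, _root_.mul_inv_rev, show A n q F h * Fd n q F σ * A n q F g *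
    ((Fd n q F σ)⁻¹ * (A n q F h)⁻¹) =
      A n q F h * (Fd n q F σ * A n q F g) * (Fd n q F σ)⁻¹ * (A n q F h)⁻¹ by group, Fd_A]
  group

theorem eq_one_of_A_Fd (hn : 3 ≤ n) (g : Cfsg.GU n F q) (σ : F ≃+* F)
    (h : A n q F g * Fd n q F σ = 1) : σ = 1 := by
  obtain ⟨e, f, he, hf, hef⟩ := Forms.exists_iso_pair hF (show 2 ≤ n by omega) (n := n)
  have H : Hyp hF e f := ⟨he, hf, hef⟩
  have hfix : ∀ v, v ≠ 0 → ub hF v v = 0 → ∃ k : F, semi g σ v = k • v := fun v hv hvv => by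
    have h1 := sends_semi hF g σ hv hvv
    rw [h] at h1
    obtain ⟨k, -, e⟩ := Sends.unique hF hn hv hvv h1
      ⟨hv, hvv, fun x hx => by rwa [MulAut.one_apply]⟩
    exact ⟨k, e⟩
  -- points opposite to `e`
  obtain ⟨w, hw, hw0⟩ := H.exists_W_ne hn
  obtain ⟨a, ha⟩ := hfix e H.e_ne he
  obtain ⟨b, hb⟩ := hfix f H.f_ne hf
  have hsm : ∀ (c : F) (x : Vn), semi g σ (c • x) = σ c • semi g σ x := semi_smul g σ
  have hsa : ∀ x y : Vn, semi g σ (x + y) = semi g σ x + semi g σ y := semi_add g σ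
  have hub : ∀ x y : Vn, ub hF (semi g σ x) (semi g σ y) = σ (ub hF x y) := ub_semi hF g σ
  have hpt : ∀ u, InW hF e f u → ∀ c : F, c + frobQ hF c = -ub hF u u →
      semi g σ u = b • u ∧ σ c * a = b * c := by
    intro u hu c hc
    have hne : f + u + c • e ≠ 0 := fun h0 => by
      have := congrArg (ub hF e) h0
      simp [KnownA.ub_add_right hF, KnownA.ub_smul_right hF, he, hef, hu.1,
        KnownA.ub_zero_right hF] at this
    have hiso : ub hF (f + u + c • e) (f + u + c • e) = 0 := by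
      simp only [KnownA.ub_add_left hF, KnownA.ub_add_right hF, KnownA.ub_smul_left hF,
        KnownA.ub_smul_right hF, he, hf, hef, H.fe, hu.1, hu.2, hu.left.1, hu.left.2]
      linear_combination hc
    obtain ⟨k, hk⟩ := hfix _ hne hiso
    rw [hsa, hsa, hsm, ha, hb] at hk
    have hue : ub hF e (semi g σ u) = 0 := by
      have := hub e u
      rw [ha, KnownA.ub_smul_left hF, hu.1, map_zero, mul_eq_zero, map_eq_zero] at this
      refine this.resolve_left fun h0 => semi_ne g σ H.e_ne ?_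
      rw [ha, h0, zero_smul]
    have huf : ub hF f (semi g σ u) = 0 := by
      have := hub f u
      rw [hb, KnownA.ub_smul_left hF, hu.2, map_zero, mul_eq_zero, map_eq_zero] at this
      refine this.resolve_left fun h0 => semi_ne g σ H.f_ne ?_
      rw [hb, h0, zero_smul]
    have e1 := congrArg (ub hF e) hk
    simp [KnownA.ub_add_right hF, KnownA.ub_smul_right hF, he, hef, hu.1, hue] at e1
    have e2 := congrArg (ub hF f) hk
    simp [KnownA.ub_add_right hF, KnownA.ub_smul_right hF, hf, H.fe, hu.2, huf] at e2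
    subst e1
    refine ⟨?_, e2⟩
    have e3 : σ c • a • e = (b * c) • e := by rw [smul_smul, e2]
    rw [e3, smul_add, smul_add, smul_smul] at hk
    exact add_left_cancel (add_right_cancel hk)
  obtain ⟨c, hc⟩ := exists_c hF w
  obtain ⟨hwb, -⟩ := hpt w hw c hc
  refine RingEquiv.ext fun x => ?_
  obtain ⟨c', hc'⟩ := exists_c hF (x • w)
  obtain ⟨hxb, -⟩ := hpt (x • w) (hw.smul x) c' hc'
  rw [hsm, hwb, smul_smul, smul_smul] at hxb
  have hb0 : b ≠ 0 := fun h0 => semi_ne g σ H.f_ne (by rw [hb, h0, zero_smul])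
  have e := smul_left_injective F hw0 hxb
  exact mul_right_cancel₀ hb0 (e.trans (mul_comm b x))

theorem fd_injective (hn : 3 ≤ n) : Function.Injective (Fd n q F) := by
  rw [injective_iff_map_eq_one]
  exact fun σ h => eq_one_of_A_Fd hF hn 1 σ (by rw [map_one, one_mul, h])

theorem det_fixSub {r : ℕ} (hn : 1 ≤ n) (σ : F ≃+* F) (hσ : orderOf σ = r) :
    (fixSub (mapGU σ)).map (Forms.guDet (n := n) hF) = fixSub (mapNormOne σ) := by
  apply le_antisymm
  · rintro _ ⟨g, hg, rfl⟩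
    show mapNormOne σ (Forms.guDet hF g) = Forms.guDet hF g
    rw [← guDet_mapGU hF, show mapGU σ g = g from hg]
  · intro c hc
    let d : Fin n → F := fun i => if i = ⟨0, hn⟩ then ((c : Fˣ) : F) else 1
    have hdd : ∀ i, d i * d i ^ q = 1 := fun i => by
      simp only [d]
      split_ifs
      · rw [← Forms.frobQ_apply hF]; exact (Forms.mem_normOne hF).mp c.2
      · simp
    have hdet : (Matrix.diagonal d).det = ((c : Fˣ) : F) := by
      simp [Matrix.det_diagonal, d]
    refine ⟨⟨GeneralLinearGroup.mkOfDetNeZero (Matrix.diagonal d)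
      (by rw [hdet]; exact Units.ne_zero _), fun u w => Forms.hermForm_mulVec_scalar_diag d hdd u w⟩,
      gu_ext ?_, Subtype.ext (Units.ext hdet)⟩
    show (Matrix.diagonal d).map σ = Matrix.diagonal d
    rw [Matrix.diagonal_map (map_zero σ)]
    congr 1
    funext i
    simp only [Function.comp_apply, d]
    split_ifs
    · exact congrArg (fun x : normOne F q => ((x : Fˣ) : F)) (show mapNormOne σ c = c from hc)
    · exact map_one σ

theorem centralizer_equiv (hn : 3 ≤ n) {σ : F ≃+* F} {q₀ r : ℕ} {F₀ : Type v} [Field F₀]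
    [Fintype F₀] (hF₀ : Fintype.card F₀ = q₀ ^ 2) (hr : Odd r) (hqq : q = q₀ ^ r)
    (ι : F₀ →+* F) (hι : ∀ x : F, σ x = x ↔ x ∈ ι.range) :
    Nonempty (↥((fixSub (mapGU σ)).map (A n q F)) ≃* Cfsg.PGU n F₀ q₀) := by
  classical
  have hherm : ∀ u v, Cfsg.hermForm n F q (⇑ι ∘ u) (⇑ι ∘ v) = ι (Cfsg.hermForm n F₀ q₀ u v) := by
    intro u v
    simp only [Cfsg.hermForm, map_sum, map_mul, Function.comp_apply]
    refine Finset.sum_congr rfl fun i _ => ?_
    rw [hqq, ← map_pow, pow_q_eq hF₀ hr]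
  have hmv : ∀ (M : Matrix (Fin n) (Fin n) F₀) u, M.map ι *ᵥ (⇑ι ∘ u) = ⇑ι ∘ (M *ᵥ u) :=
    fun M u => by funext i; simp [Matrix.mulVec, dotProduct, map_sum]
  have hsing : ∀ i, (Pi.single i 1 : Vn) = ⇑ι ∘ Pi.single i 1 := fun i => by
    funext l; by_cases hl : l = i <;> simp [hl]
  have hext : ∀ M : Mn, (∀ i l, ub hF (M *ᵥ Pi.single i 1) (M *ᵥ Pi.single l 1) =
      ub hF (Pi.single i 1) (Pi.single l 1)) → ∀ u w, ub hF (M *ᵥ u) (M *ᵥ w) = ub hF u w := by
    intro M hbase u w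
    conv_lhs => rw [pi_eq_sum_univ' u, pi_eq_sum_univ' w]
    conv_rhs => rw [pi_eq_sum_univ' u, pi_eq_sum_univ' w]
    simp only [ub, Matrix.mulVec_sum, Matrix.mulVec_smul, map_sum, LinearMap.sum_apply, map_smul,
      LinearMap.map_smulₛₗ, LinearMap.smul_apply, smul_eq_mul, Finset.mul_sum]
    refine Finset.sum_congr rfl fun a _ => Finset.sum_congr rfl fun c _ => ?_
    simp only [ub] at hbase
    rw [hbase]
  have hmem : ∀ g : Cfsg.GU n F₀ q₀, GeneralLinearGroup.map ι g.1 ∈ Cfsg.GU n F q := by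
    intro g u v
    refine hext ((g.1 : Matrix _ _ F₀).map ι) (fun i l => ?_) v u
    show Cfsg.hermForm n F q _ _ = Cfsg.hermForm n F q _ _
    rw [hsing i, hsing l, hmv, hmv, hherm, hherm]
    exact congrArg ι (g.2 _ _)
  let j : Cfsg.GU n F₀ q₀ →* Cfsg.GU n F q :=
    ((GeneralLinearGroup.map ι).comp (Cfsg.GU n F₀ q₀).subtype).codRestrict _ hmem
  let Φ : Cfsg.GU n F₀ q₀ →* MulAut (Cfsg.PSU n F q) := (A n q F).comp j
  have hrange : Φ.range = (fixSub (mapGU σ)).map (A n q F) := by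
    rw [MonoidHom.range_comp]
    congr 1
    ext g
    constructor
    · rintro ⟨g₀, rfl⟩
      refine gu_ext (Matrix.ext fun a b => ?_)
      exact (hι _).mpr ⟨(g₀.1 : Matrix _ _ F₀) a b, rfl⟩
    · intro hg
      have h : ∀ a b, (g.1 : Mn) a b ∈ ι.range := fun a b => (hι _).mp
        (congrArg (fun x : Cfsg.GU n F q => (x.1 : Mn) a b) (show mapGU σ g = g from hg))
      choose e he using h
      have hme : (Matrix.of e).map ι = (g.1 : Mn) := Matrix.ext fun a b => he a b
      have hd : (Matrix.of e).det ≠ 0 := fun h0 => by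
        have h1 : (g.1 : Mn).det ≠ 0 := (GeneralLinearGroup.det g.1).ne_zero
        rw [← hme, ← RingHom.mapMatrix_apply, ← RingHom.map_det, h0, map_zero] at h1
        exact h1 rfl
      refine ⟨⟨GeneralLinearGroup.mkOfDetNeZero _ hd, fun u v => ι.injective ?_⟩, gu_ext hme⟩
      show ι (Cfsg.hermForm n F₀ q₀ (Matrix.of e *ᵥ u) (Matrix.of e *ᵥ v)) = _
      rw [← hherm, ← hmv, ← hmv, hme, ← hherm]
      exact g.2 _ _
  have hker : Φ.ker = (Cfsg.Geo.scalars (Fin n) F₀).subgroupOf (Cfsg.GU n F₀ q₀) := by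
    ext g₀
    rw [MonoidHom.mem_ker, MonoidHom.comp_apply, A_eq_one_iff hF hn, Subgroup.mem_subgroupOf,
      Cfsg.Geo.mem_scalars_iff]
    set z : Fin n := ⟨0, by omega⟩
    constructor
    · rintro ⟨u, hu⟩
      have h1 : ∀ a b, ι ((g₀.1 : Matrix _ _ F₀) a b) = if a = b then ((u : Fˣ) : F) else 0 :=
        fun a b => by
          have := (congrArg (fun x : Cfsg.GU n F q => (x.1 : Mn) a b) hu).symm
          rw [sc_val, Matrix.diagonal_apply] at this
          exact this
      have h2 : (g₀.1 : Matrix _ _ F₀) z z ≠ 0 := fun h0 => (u : Fˣ).ne_zero (by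
        have := h1 z z; simpa [h0] using this.symm)
      refine ⟨Units.mk0 _ h2, Matrix.ext fun a b => ι.injective ?_⟩
      rw [h1]
      by_cases hab : a = b
      · subst hab; simp [h1]
      · simp [hab]
    · rintro ⟨c, hc⟩
      have hu : (Units.map (ι : F₀ →* F) c) ^ (q + 1) = 1 := by
        have h1 := g₀.2 (Pi.single z 1) (Pi.single z 1)
        simp only [Units.coeHom_apply, hc, Matrix.smul_mulVec, Matrix.one_mulVec] at h1
        have hq0 : q₀ ≠ 0 := by have := Forms.two_le_q hF₀; omega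
        simp [Cfsg.hermForm, Pi.single_apply, mul_pow, hq0] at h1
        refine Units.ext ?_
        simp only [Units.val_pow_eq_pow_val, Units.coe_map, MonoidHom.coe_coe, Units.val_one]
        rw [hqq, ← map_pow, pow_succ', pow_q_eq hF₀ hr, h1, map_one]
      refine ⟨⟨_, hu⟩, gu_ext ?_⟩
      rw [sc_val]
      show _ = ((g₀.1 : GL (Fin n) F₀) : Matrix (Fin n) (Fin n) F₀).map ι
      rw [hc]
      ext a b
      by_cases hab : a = b <;> simp [hab]
  exact ⟨((MulEquiv.subgroupCongr hrange.symm).trans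
    (QuotientGroup.quotientKerEquivRange Φ).symm).trans (QuotientGroup.quotientMulEquivOfEq hker)⟩

end Cfsg.Agent.KnownB.Proj.Unit

namespace Cfsg.Agent.KnownB.Proj.Unit

variable {n q : ℕ} {F : Type*} [Field F] [Fintype F]

/-- A field automorphism class contains a standard one of odd order. -/
theorem field_class (hF : Fintype.card F = q ^ 2) (hn : 3 ≤ n) {x : MulAut (Cfsg.PSU n F q)}
    (hx : Cfsg.IsFieldAutClassPSU x) :
    ∃ (α : MulAut (Cfsg.PSU n F q)) (σ : F ≃+* F), σ ≠ 1 ∧ Odd (orderOf σ) ∧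
      α * x * α⁻¹ = Fd n q F σ ∧ orderOf σ = orderOf x := by
  obtain ⟨α, φ, σ, hσ, ho, hφ, h⟩ := hx
  rw [isFieldAutOf_iff] at hφ
  subst hφ
  refine ⟨α, σ, hσ, ho, h, ?_⟩
  rw [← orderOf_injective (Fd n q F) (fd_injective hF hn) σ, ← h, ← MulAut.conj_apply,
    MulEquiv.orderOf_eq]

theorem index_fix_normOne (hF : Fintype.card F = q ^ 2) {q₀ r : ℕ} {F₀ : Type*} [Field F₀]
    [Fintype F₀] (hF₀ : Fintype.card F₀ = q₀ ^ 2) (hr : Odd r) (hqq : q = q₀ ^ r) {σ : F ≃+* F}
    (ι : F₀ →+* F) (hι : ∀ x : F, σ x = x ↔ x ∈ ι.range) :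
    (AutPSL.fixSub (mapNormOne (q := q) σ)).index = (q + 1) / (q₀ + 1) := by
  classical
  have hn1 : ∀ v : Forms.normOne F₀ q₀, Units.map (ι : F₀ →* F) (v : F₀ˣ) ∈ Forms.normOne F q := by
    intro v
    have hv : ((v : F₀ˣ) : F₀) ^ q₀ * (v : F₀ˣ) = 1 := by
      rw [← pow_succ, ← Units.val_pow_eq_pow_val, show (v : F₀ˣ) ^ (q₀ + 1) = 1 from v.2,
        Units.val_one]
    refine Units.ext ?_
    show (ι ((v : F₀ˣ) : F₀)) ^ (q + 1) = 1
    rw [← map_pow, pow_succ, hqq, pow_q_eq hF₀ hr, hv, map_one]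
  let j : Forms.normOne F₀ q₀ →* Forms.normOne F q :=
    ((Units.map (ι : F₀ →* F)).comp (Forms.normOne F₀ q₀).subtype).codRestrict _ hn1
  have hrange : j.range = AutPSL.fixSub (mapNormOne (q := q) σ) := by
    ext u
    rw [AutPSL.mem_fixSub, MonoidHom.mem_range]
    constructor
    · rintro ⟨v, rfl⟩
      exact Subtype.ext (Units.ext ((hι _).mpr ⟨_, rfl⟩))
    · intro hu
      obtain ⟨w, hw⟩ := (hι _).mp (congrArg (fun x : Forms.normOne F q => ((x : Fˣ) : F)) hu)
      have hw0 : w ≠ 0 := by rintro rfl; rw [map_zero] at hw; exact (u : Fˣ).ne_zero hw.symm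
      refine ⟨⟨Units.mk0 w hw0, Units.ext (ι.injective ?_)⟩, Subtype.ext (Units.ext hw)⟩
      show ι (w ^ (q₀ + 1)) = ι 1
      rw [pow_succ, ← pow_q_eq hF₀ hr, ← hqq, ← pow_succ, map_pow, hw, map_one,
        ← Units.val_pow_eq_pow_val]
      exact congrArg Units.val (show (u : Fˣ) ^ (q + 1) = 1 from u.2)
  have hinj : Function.Injective j := fun a b h =>
    Subtype.ext (Units.map_injective ι.injective (congrArg Subtype.val h))
  have hmul := Subgroup.card_mul_index (AutPSL.fixSub (mapNormOne (q := q) σ))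
  rw [← hrange, ← Nat.card_congr (MonoidHom.ofInjective hinj).toEquiv, Forms.card_normOne hF₀,
    Forms.card_normOne hF] at hmul
  rw [← hrange]
  exact (Nat.div_eq_of_eq_mul_right (by omega) hmul.symm).symm

end Cfsg.Agent.KnownB.Proj.Unit
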