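import Cfsg.Agent.KnownB.Proj.Unit.Space

/-! The action of an automorphism of `PSU` on isotropic points. -/

set_option autoImplicit false

namespace Cfsg.Agent.KnownB.Proj.Unit

open Cfsg.Agent.Forms (frobQ)
open Cfsg.Agent.KnownA (ub act root ub_add_left ub_add_right ub_smul_left ub_smul_right ub_sub_left
  ub_sub_right ub_zero_left ub_zero_right ub_symm ub_eq_zero_symm sig_sig act_root act_mul_apply
  act_ub su_ext)

universe u

variable {n q : ℕ} {F : Type u} [Field F] [Fintype F] (hF : Fintype.card F = q ^ 2)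

local notation "Vn" => (Fin n → F)
local notation "SUn" => Cfsg.SU n F q

/-- All transvections of centre `v` go to transvections of centre `v'`. -/
def Sends (γ : MulAut (Cfsg.PSU n F q)) (v v' : Vn) : Prop :=
  v' ≠ 0 ∧ ub hF v' v' = 0 ∧ ∀ x, IsTvOf hF v x → IsTvOf hF v' (γ x)

theorem exists_isTvOf {v : Vn} (hv : v ≠ 0) (hvv : ub hF v v = 0) :
    ∃ x, IsTvOf hF v x := by
  obtain ⟨z, hz, hzc⟩ := exists_z hF
  exact ⟨_, hv, hvv, z, hz, hzc, rfl⟩

include hF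

theorem IsTvOf.smul {v : Vn} {x : Cfsg.PSU n F q} (h : IsTvOf hF v x) {k : F} (hk : k ≠ 0) :
    IsTvOf hF (k • v) x := by
  obtain ⟨hv, hvv, c, hc, hcc, rfl⟩ := h
  have hkk : frobQ hF k ≠ 0 := (map_ne_zero _).mpr hk
  have hN : frobQ hF ((k * frobQ hF k)⁻¹) = (k * frobQ hF k)⁻¹ := by
    rw [map_inv₀, map_mul, sig_sig hF, mul_comm]
  have hvv' : ub hF (k • v) (k • v) = 0 := by
    rw [ub_smul_left hF, ub_smul_right hF, hvv]; ring
  refine ⟨smul_ne_zero hk hv, hvv', c * (k * frobQ hF k)⁻¹,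
    mul_ne_zero hc (inv_ne_zero (mul_ne_zero hk hkk)), smul_trace hF hcc hN,
    congrArg QuotientGroup.mk (su_ext fun y => ?_)⟩
  rw [act_tr hF hvv' (smul_trace hF hcc hN), act_tr hF hvv hcc, ub_smul_left hF, smul_smul,
    add_right_inj]
  congr 1
  field_simp

/-- A centre is determined by its orthogonal. -/
theorem par_of_perp {a b : Vn} (ha : a ≠ 0) (hb : b ≠ 0) (haa : ub hF a a = 0)
    (hbb : ub hF b b = 0)
    (h : ∀ z, z ≠ 0 → ub hF z z = 0 → ub hF a z = 0 → ub hF b z = 0) :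
    ∃ k : F, k ≠ 0 ∧ a = k • b := by
  by_contra hcon
  have hnm : a ∉ Submodule.span F {b} := by
    intro hm
    obtain ⟨k, rfl⟩ := Submodule.mem_span_singleton.mp hm
    exact hcon ⟨k, fun h0 => ha (by rw [h0, zero_smul]), rfl⟩
  have hnm' : b ∉ Submodule.span F {a} := by
    intro hm
    obtain ⟨k, rfl⟩ := Submodule.mem_span_singleton.mp hm
    have hk : k ≠ 0 := fun h0 => hb (by rw [h0, zero_smul])
    exact hcon ⟨k⁻¹, inv_ne_zero hk, by rw [inv_smul_smul₀ hk]⟩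
  have hba := h a ha haa haa
  obtain ⟨f, hff, hbf, haf⟩ := Forms.exists_partner_perp hF hbb (ub_eq_zero_symm hF hba) hnm'
  have hf0 : f ≠ 0 := fun h0 => by rw [h0, ub_zero_right hF] at hbf; exact zero_ne_one hbf
  exact one_ne_zero (hbf.symm.trans (h f hf0 hff haf))

variable (hn : 3 ≤ n) {γ δ : MulAut (Cfsg.PSU n F q)} {v w v' w' : Fin n → F}
include hn

theorem exists_sends (γ : MulAut (Cfsg.PSU n F q)) (hv : v ≠ 0) (hvv : ub hF v v = 0) :
    ∃ v', Sends hF γ v v' := by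
  obtain ⟨x, hx⟩ := exists_isTvOf hF hv hvv
  obtain ⟨a, ha⟩ := isTv_map hF hn γ hx
  refine ⟨a, ha.1, ha.2.1, fun y hy => ?_⟩
  obtain ⟨b, hb⟩ := isTv_map hF hn γ hy
  obtain ⟨k, hk, hab⟩ := par_of_perp hF ha.1 hb.1 ha.2.1 hb.2.1 fun z hz hzz hz' => by
    obtain ⟨t, ht⟩ := exists_isTvOf hF hz hzz
    obtain ⟨c, hc⟩ := isTv_map hF hn γ⁻¹ ht
    have h2 : 2 ≤ n := by omega
    rw [← commute_iff hF h2 hb ht]
    have h1 := ((commute_iff hF h2 ha ht).mpr hz').map γ⁻¹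
    rw [MulAut.inv_apply_self] at h1
    have h3 := ((commute_iff hF h2 hy hc).mpr ((commute_iff hF h2 hx hc).mp h1)).map γ
    rwa [MulAut.apply_inv_self] at h3
  rw [hab]
  exact hb.smul hF hk

theorem Sends.unique (hv : v ≠ 0) (hvv : ub hF v v = 0) (h : Sends hF γ v v')
    (h' : Sends hF γ v w') : ∃ k : F, k ≠ 0 ∧ v' = k • w' := by
  obtain ⟨x, hx⟩ := exists_isTvOf hF hv hvv
  exact IsTvOf.par hF (show 2 ≤ n by omega) (h.2.2 x hx) (h'.2.2 x hx)

theorem Sends.perp_iff (hv : v ≠ 0) (hvv : ub hF v v = 0) (hw : w ≠ 0) (hww : ub hF w w = 0)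
    (h : Sends hF γ v v') (h' : Sends hF γ w w') : ub hF v w = 0 ↔ ub hF v' w' = 0 := by
  obtain ⟨x, hx⟩ := exists_isTvOf hF hv hvv
  obtain ⟨y, hy⟩ := exists_isTvOf hF hw hww
  have h2 : 2 ≤ n := by omega
  rw [← commute_iff hF h2 hx hy, ← commute_iff hF h2 (h.2.2 x hx) (h'.2.2 y hy),
    commute_map_iff γ.injective]

theorem Sends.comp {v'' : Vn} (h : Sends hF γ v v') (h' : Sends hF δ v' v'') :
    Sends hF (δ * γ) v v'' :=
  ⟨h'.1, h'.2.1, fun x hx => h'.2.2 _ (h.2.2 x hx)⟩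

theorem Sends.inv (hv : v ≠ 0) (hvv : ub hF v v = 0) (h : Sends hF γ v v') :
    Sends hF γ⁻¹ v' v := by
  obtain ⟨u, hu⟩ := exists_sends hF hn γ⁻¹ h.1 h.2.1
  obtain ⟨x, hx⟩ := exists_isTvOf hF hv hvv
  have h1 := hu.2.2 _ (h.2.2 x hx)
  rw [MulAut.inv_apply_self] at h1
  obtain ⟨k, hk, hkv⟩ := IsTvOf.par hF (show 2 ≤ n by omega) hx h1
  exact ⟨hv, hvv, fun y hy => hkv ▸ (hu.2.2 y hy).smul hF hk⟩

omit hn in
theorem Sends.smul (h : Sends hF γ v v') {a b : F} (ha : a ≠ 0) (hb : b ≠ 0) :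
    Sends hF γ (a • v) (b • v') := by
  refine ⟨smul_ne_zero hb h.1, by rw [ub_smul_left hF, ub_smul_right hF, h.2.1]; ring,
    fun x hx => (h.2.2 x ?_).smul hF hb⟩
  have := hx.smul hF (inv_ne_zero ha)
  rwa [inv_smul_smul₀ ha] at this

omit hn in
theorem sends_semi (g : Cfsg.GU n F q) (σ : F ≃+* F) (hv : v ≠ 0) (hvv : ub hF v v = 0) :
    Sends hF (A n q F g * Fd n q F σ) v (semi g σ v) := by
  refine ⟨semi_ne g σ hv, by rw [ub_semi hF, hvv, map_zero], ?_⟩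
  rintro _ ⟨-, -, c, hc, hcc, rfl⟩
  refine ⟨semi_ne g σ hv, by rw [ub_semi hF, hvv, map_zero], σ c, (map_ne_zero σ).mpr hc,
    by rw [← map_frob hF, ← map_add, hcc, map_zero], ?_⟩
  have h1 := tr_conj hF (isSemi_semi hF g σ) one_ne_zero hvv hcc (v' := semi g σ v)
    (one_smul F _).symm (semi_act g σ (tr hF v c))
  rw [map_one, mul_one, mul_one] at h1
  show _ = QuotientGroup.mk (conjSU g (fieldSU σ (tr hF v c)))
  rw [h1]

theorem sends_equivariant {s s' : SUn} (hs : γ (QuotientGroup.mk s) = QuotientGroup.mk s')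
    (hv : v ≠ 0) (hvv : ub hF v v = 0) (h : Sends hF γ v v') :
    Sends hF γ (act s v) (act s' v') := by
  refine ⟨act_ne s' h.1, by rw [act_ub hF, h.2.1], ?_⟩
  rintro _ ⟨-, -, c, hc, hcc, rfl⟩
  rw [← tr_conj_su hF s hvv hcc, QuotientGroup.mk_mul, QuotientGroup.mk_mul, QuotientGroup.mk_inv,
    map_mul, map_mul, map_inv, hs]
  obtain ⟨-, hvv', d, hd, hdc, e⟩ := h.2.2 _ ⟨hv, hvv, c, hc, hcc, rfl⟩
  rw [← e, ← QuotientGroup.mk_inv, ← QuotientGroup.mk_mul, ← QuotientGroup.mk_mul,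
    tr_conj_su hF s' hvv' hdc]
  exact ⟨act_ne s' h.1, by rw [act_ub hF, hvv'], d, hd, hdc, rfl⟩

/-- The stabiliser of a fixed point is preserved. -/
theorem fixes_image {s s' : SUn} (hs : γ (QuotientGroup.mk s) = QuotientGroup.mk s')
    (hv : v ≠ 0) (hvv : ub hF v v = 0) (h : Sends hF γ v v) (hfix : Fixes s v) : Fixes s' v := by
  obtain ⟨l, hl, hle⟩ := hfix
  have h1 := sends_equivariant hF hn hs hv hvv h
  rw [hle] at h1
  have h2 := h.smul hF hl one_ne_zero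
  rw [one_smul] at h2
  obtain ⟨k, hk, e⟩ := Sends.unique hF hn (smul_ne_zero hl hv)
    (by rw [ub_smul_left hF, ub_smul_right hF, hvv]; ring) h1 h2
  exact ⟨k, hk, e⟩

/-- An automorphism fixing all isotropic points is the identity. -/
theorem eq_one_of_sends (hall : ∀ v : Vn, v ≠ 0 → ub hF v v = 0 → Sends hF γ v v) : γ = 1 := by
  refine autPSU_ext fun s => ?_
  rw [MulAut.one_apply]
  obtain ⟨s', hs'⟩ := QuotientGroup.mk_surjective (γ (QuotientGroup.mk s))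
  rw [← hs', QuotientGroup.eq]
  rw [Forms.su_mem_center_iff hF (show 2 ≤ n by omega)]
  refine Forms.scalar_of_iso_lines hF (show 2 ≤ n by omega) (act (s'⁻¹ * s))
    (act_ub hF _) fun v hv hv0 => ?_
  have h1 := sends_equivariant hF hn hs'.symm hv0 hv (hall v hv0 hv)
  obtain ⟨k, -, e⟩ := Sends.unique hF hn (act_ne s hv0) (by rw [act_ub hF, hv])
    (hall _ (act_ne s hv0) (by rw [act_ub hF, hv])) h1
  exact ⟨k, by rw [act_mul_apply, e, map_smul, act_inv_act]⟩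

end Cfsg.Agent.KnownB.Proj.Unit
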