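import Cfsg.Agent.KnownB.Proj.Unit.Points

/-! The radical of a point is preserved by automorphisms fixing the point. -/

set_option autoImplicit false

namespace Cfsg.Agent.KnownB.Proj.Unit

open Cfsg.Agent.Forms (frobQ)
open Cfsg.Agent.KnownA (ub act root ub_add_left ub_add_right ub_smul_left ub_smul_right ub_sub_left
  ub_sub_right ub_zero_left ub_zero_right ub_symm ub_eq_zero_symm sig_sig act_root act_mul_apply
  act_ub root_mul su_ext)

universe u

variable {n q : ℕ} {F : Type u} [Field F] [Fintype F] {hF : Fintype.card F = q ^ 2}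
  {e f : Fin n → F}

local notation "Vn" => (Fin n → F)
local notation "SUn" => Cfsg.SU n F q

variable (H : Hyp hF e f)
include H

/-- Valid parameters of a radical element. -/
theorem Hyp.root_valid {w : Vn} (hw : InW hF e f w) {c : F}
    (hc : c + frobQ hF c = -ub hF w w) : root hF e w c ∈ radical hF e H.he :=
  root_mem hF H.he hw.1 hc

theorem Hyp.root_f {w : Vn} (hw : InW hF e f w) {c : F} (hc : c + frobQ hF c = -ub hF w w) :
    act (root hF e w c) f = f + w + c • e := by
  rw [act_root hF H.he hw.1 hc, H.hef, hw.left.2]; module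

theorem Hyp.root_e {w : Vn} (hw : InW hF e f w) {c : F} (hc : c + frobQ hF c = -ub hF w w) :
    act (root hF e w c) e = e := by
  rw [act_root hF H.he hw.1 hc, H.he, hw.left.1]; module

/-- Parameters are unique. -/
theorem Hyp.root_inj {w w' : Vn} (hw : InW hF e f w) (hw' : InW hF e f w') {c c' : F}
    (hc : c + frobQ hF c = -ub hF w w) (hc' : c' + frobQ hF c' = -ub hF w' w')
    (h : act (root hF e w c) f = act (root hF e w' c') f) : w = w' ∧ c = c' := by
  rw [H.root_f hw hc, H.root_f hw' hc'] at h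
  have h1 := congrArg (ub hF f) h
  simp only [ub_add_right hF, ub_smul_right hF, H.hf, H.fe, hw.2, hw'.2, mul_one, zero_add] at h1
  subst h1
  exact ⟨add_left_cancel (add_right_cancel h), rfl⟩

/-- The parameters of an isotropic point opposite to `e`. -/
theorem Hyp.exists_param {v : Vn} (hvv : ub hF v v = 0) (hev : ub hF e v = 1) :
    ∃ w c, InW hF e f w ∧ c + frobQ hF c = -ub hF w w ∧ v = f + w + c • e := by
  refine ⟨_, ub hF f v, H.proj v, ?_, ?_⟩
  · simp only [ub_sub_left hF, ub_sub_right hF, ub_smul_left hF, ub_smul_right hF, hvv, H.he, H.hf,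
      H.hef, H.fe, hev, map_one, ← ub_symm hF f v, ← ub_symm hF e v]
    ring
  · rw [hev]; module

/-- Every element of the radical has parameters in the orthogonal of the pair. -/
theorem Hyp.radical_param {r : SUn} (hr : r ∈ radical hF e H.he) :
    ∃ w c, InW hF e f w ∧ c + frobQ hF c = -ub hF w w ∧ r = root hF e w c := by
  obtain ⟨w, c, hw, hc, rfl⟩ := hr
  have hwe := ub_eq_zero_symm hF hw
  have hW : InW hF e f (w - ub hF f w • e) := by
    refine ⟨?_, ?_⟩ <;> simp only [ub_sub_right hF, ub_smul_right hF, H.he, H.fe, hw] <;> ring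
  have hc' : (c + ub hF f w - frobQ hF (ub hF f w)) +
      frobQ hF (c + ub hF f w - frobQ hF (ub hF f w)) =
      -ub hF (w - ub hF f w • e) (w - ub hF f w • e) := by
    simp only [ub_sub_left hF, ub_sub_right hF, ub_smul_left hF, ub_smul_right hF, hw, hwe, H.he,
      map_add, map_sub, sig_sig hF]
    linear_combination hc
  refine ⟨_, _, hW, hc', su_ext fun x => ?_⟩
  rw [act_root hF H.he hw hc, act_root hF H.he hW.1 hc', ub_sub_left hF, ub_smul_left hF]
  module

/-- Elements of a `p`-subgroup fixing both lines and normalised by their stabiliser act trivially. -/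
theorem Hyp.p_eq_one (hn : 3 ≤ n) {p : ℕ} [Fact p.Prime] [CharP F p] (K : Subgroup SUn)
    (hK : IsPGroup p K) (hKfix : ∀ k ∈ K, Fixes k e ∧ Fixes k f)
    (hKn : ∀ h : SUn, Fixes h e → Fixes h f → ∀ k ∈ K, h * k * h⁻¹ ∈ K) : ∀ k ∈ K, k = 1 := by
  let W : Type u := {w : Vn // InW hF e f w}
  letI : MulAction K W :=
    { smul := fun k w => ⟨act k.1 w.1, H.mem_W_of_fixes (hKfix k.1 k.2).1 (hKfix k.1 k.2).2 w.2⟩
      one_smul := fun w => Subtype.ext (act_one_apply w.1)
      mul_smul := fun k k' w => Subtype.ext (act_mul_apply k.1 k'.1 w.1) }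
  have hcard : p ∣ Nat.card W := by
    obtain ⟨w, hw, hw0⟩ := H.exists_W_ne hn
    let j : Multiplicative F →* Multiplicative Vn :=
      MonoidHom.mk' (fun a => Multiplicative.ofAdd (a.toAdd • w)) fun a b => by
        rw [← ofAdd_add, ← add_smul]; rfl
    let S : Subgroup (Multiplicative Vn) :=
      { carrier := {x | InW hF e f x.toAdd}
        mul_mem' := fun ha hb => ha.add hb
        one_mem' := InW.zero
        inv_mem' := fun {x} ha => by
          show InW hF e f (-x.toAdd)
          simpa using ha.smul (-1 : F) }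
    have h1 : j.range ≤ S := by rintro _ ⟨a, rfl⟩; exact hw.smul _
    have h2 : Nat.card j.range = Fintype.card F := by
      rw [← Nat.card_eq_fintype_card]
      refine (Nat.card_congr (MonoidHom.ofInjective (f := j) ?_).toEquiv).symm.trans ?_
      · intro a b hab
        exact Multiplicative.toAdd.injective (smul_left_injective F hw0
          (Multiplicative.ofAdd.injective hab))
      · exact Nat.card_congr Multiplicative.toAdd
    have h3 : Nat.card S = Nat.card W := Nat.card_congr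
      (Multiplicative.toAdd.subtypeEquiv fun _ => Iff.rfl)
    rw [← h3]
    refine dvd_trans ?_ (Subgroup.card_dvd_of_le h1)
    rw [h2, hF]
    exact dvd_pow (dvd_q hF) two_ne_zero
  have h0 : (⟨0, InW.zero⟩ : W) ∈ MulAction.fixedPoints K W := fun k => Subtype.ext (map_zero _)
  obtain ⟨⟨u, hu⟩, hufix, hune⟩ :=
    hK.exists_fixed_point_of_prime_dvd_card_of_fixed_point W hcard h0
  have hu0 : u ≠ 0 := fun h => hune (Subtype.ext h.symm)
  have hufix' : ∀ k ∈ K, act k u = u := fun k hk => congrArg Subtype.val (hufix ⟨k, hk⟩)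
  let Fix : Vn → Prop := fun x => ∀ k ∈ K, act k x = x
  have hFixW : ∀ w, InW hF e f w → Fix w := by
    by_cases hno : ∀ w, InW hF e f w → ub hF w w = 0 → w = 0
    · intro w hw k hk
      obtain ⟨l, rfl⟩ := H.line_of_no_iso hno hu (fun h => hu0 (hno u hu h)) hw
      rw [map_smul, hufix' k hk]
    push Not at hno
    obtain ⟨a, haW, haa, ha0⟩ := hno
    obtain ⟨z, hz, hzc⟩ := exists_z hF
    -- a fixed vector not orthogonal to an isotropic one forces the latter to be fixed
    have hstep : ∀ x w, InW hF e f x → Fix x → InW hF e f w → ub hF w w = 0 → ub hF w x ≠ 0 →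
        Fix w := by
      intro x w hx hxfix hw hww hwx k hk
      obtain ⟨h1, h2⟩ := H.trv_fixes hw hww hzc
      have hk' := hKn (tr hF w z)⁻¹
        ⟨1, one_ne_zero, by rw [one_smul]; conv_lhs => rw [← h1, act_inv_act]⟩
        ⟨1, one_ne_zero, by rw [one_smul]; conv_lhs => rw [← h2, act_inv_act]⟩ k hk
      have h3 := congrArg (act (tr hF w z)) (hxfix _ hk')
      rw [inv_inv, act_mul_apply, act_mul_apply, act_act_inv, act_tr hF hww hzc, map_add,
        hxfix k hk, map_smul, add_right_inj] at h3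
      exact smul_right_injective _ (mul_ne_zero hz hwx) h3
    have hiso : ∀ w, InW hF e f w → ub hF w w = 0 → Fix w := by
      obtain ⟨w₁, hw₁, hw₁₁, hw₁u⟩ : ∃ w, InW hF e f w ∧ ub hF w w = 0 ∧ ub hF w u ≠ 0 := by
        by_contra hcon
        push Not at hcon
        refine hu0 (H.eq_zero_of_perp hu fun x hx => ub_eq_zero_symm hF ?_)
        exact H.iso_induction (P := fun y => ub hF y u = 0)
          (fun v w _ _ hv hw => by rw [ub_add_left hF, hv, hw, add_zero])
          hcon haW ha0 haa hx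
      have hw₁0 : w₁ ≠ 0 := fun h => hw₁u (by rw [h, ub_zero_left hF])
      have hfix₁ := hstep u w₁ hu hufix' hw₁ hw₁₁ hw₁u
      intro w hw hww
      by_cases hw0 : w = 0
      · subst hw0; intro k _; exact map_zero _
      by_cases h : ub hF w w₁ ≠ 0
      · exact hstep w₁ w hw₁ hfix₁ hw hww h
      push Not at h
      obtain ⟨y, hy, hyy, h1, h2⟩ := H.exists_common hw hw0 hww hw₁ hw₁0 hw₁₁ h
      have hfy := hstep w₁ y hw₁ hfix₁ hy hyy fun h0 => h2 (ub_eq_zero_symm hF h0)
      exact hstep y w hy hfy hw hww h1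
    intro w hw
    exact H.iso_induction (P := Fix) (fun v w _ _ hv hw k hk => by
      rw [map_add, hv k hk, hw k hk]) hiso haW ha0 haa hw
  intro k hk
  have hline : ∀ v : Vn, v ≠ 0 → Fixes k v → act k v = v := by
    rintro v hv ⟨l, hl, hlv⟩
    obtain ⟨j, hj⟩ := hK ⟨k, hk⟩
    have hj' : k ^ p ^ j = 1 := congrArg Subtype.val hj
    have hpow : ∀ i : ℕ, act (k ^ i) v = l ^ i • v := by
      intro i
      induction i with
      | zero => simp [act_one_apply]
      | succ i ih => rw [pow_succ', act_mul_apply, ih, map_smul, hlv, smul_smul, ← pow_succ]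
    have h1 := hpow (p ^ j)
    rw [hj', act_one_apply] at h1
    have h2 : l ^ p ^ j = 1 := smul_left_injective F hv (h1.symm.trans (one_smul F v).symm)
    have h3 : (l - 1) ^ p ^ j = 0 := by rw [sub_pow_char_pow, h2, one_pow, sub_self]
    rw [hlv, sub_eq_zero.mp (eq_zero_of_pow_eq_zero h3), one_smul]
  refine su_ext fun x => ?_
  rw [act_one_apply, show x = (x - ub hF f x • e - ub hF e x • f) + ub hF f x • e + ub hF e x • f by
    module]
  simp only [map_add, map_smul, hFixW _ (H.proj x) k hk, hline e H.e_ne (hKfix k hk).1,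
    hline f H.f_ne (hKfix k hk).2]

/-- A `p`-subgroup normal in the stabiliser of the point lies in the radical. -/
theorem Hyp.le_radical (hn : 3 ≤ n) {p : ℕ} [Fact p.Prime] [CharP F p] (P : Subgroup SUn)
    (hP : IsPGroup p P) (hPfix : ∀ s ∈ P, Fixes s e)
    (hPn : ∀ h : SUn, Fixes h e → ∀ s ∈ P, h * s * h⁻¹ ∈ P) : P ≤ radical hF e H.he := by
  set R := radical hF e H.he
  have hR : IsPGroup p R := fun s => ⟨2, Subtype.ext (radical_pow hF p H.he s.2)⟩
  have hRfix : ∀ r ∈ R, act r e = e := by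
    rintro r ⟨w, c, hw, hc, rfl⟩
    rw [act_root hF H.he hw hc, H.he, ub_eq_zero_symm hF hw]
    module
  have hPR : P ≤ Subgroup.normalizer (R : Set SUn) := by
    intro s hs
    obtain ⟨l, hl, hle⟩ := hPfix s hs
    rw [Subgroup.mem_normalizer_iff]
    refine fun t => ⟨conj_mem_radical hF s H.he hl hle, fun h => ?_⟩
    have hinv : act s⁻¹ e = l⁻¹ • e := by
      refine smul_right_injective _ hl ?_
      show l • act s⁻¹ e = l • l⁻¹ • e
      rw [smul_inv_smul₀ hl, ← map_smul, ← hle, act_inv_act]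
    have := conj_mem_radical hF s⁻¹ H.he (inv_ne_zero hl) hinv h
    simpa [mul_assoc] using this
  let Kf : Subgroup SUn :=
    { carrier := {s | s ∈ P ⊔ R ∧ Fixes s f}
      mul_mem' := fun ⟨h1, a, ha, h1'⟩ ⟨h2, b, hb, h2'⟩ => ⟨mul_mem h1 h2, b * a, mul_ne_zero hb ha,
        by rw [act_mul_apply, h2', map_smul, h1', smul_smul]⟩
      one_mem' := ⟨one_mem _, 1, one_ne_zero, by rw [act_one_apply, one_smul]⟩
      inv_mem' := fun {s} ⟨h1, a, ha, h1'⟩ => ⟨inv_mem h1, a⁻¹, inv_ne_zero ha, by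
        refine smul_right_injective _ ha ?_
        show a • act s⁻¹ f = a • a⁻¹ • f
        rw [smul_inv_smul₀ ha, ← map_smul, ← h1', act_inv_act]⟩ }
  have hPRfix : ∀ s ∈ P ⊔ R, Fixes s e := by
    intro s hs
    rw [sup_comm] at hs
    refine Subgroup.closure_induction (p := fun s _ => Fixes s e) ?_ ?_ ?_ ?_
      (show s ∈ Subgroup.closure ((R : Set SUn) ∪ P) by rwa [← Subgroup.sup_eq_closure])
    · rintro x (hx | hx)
      · exact ⟨1, one_ne_zero, by rw [hRfix x hx, one_smul]⟩
      · exact hPfix x hx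
    · exact ⟨1, one_ne_zero, by rw [act_one_apply, one_smul]⟩
    · rintro x y - - ⟨a, ha, hx⟩ ⟨b, hb, hy⟩
      exact ⟨b * a, mul_ne_zero hb ha, by rw [act_mul_apply, hy, map_smul, hx, smul_smul]⟩
    · rintro x - ⟨a, ha, hx⟩
      refine ⟨a⁻¹, inv_ne_zero ha, smul_right_injective _ ha ?_⟩
      show a • act x⁻¹ e = a • a⁻¹ • e
      rw [smul_inv_smul₀ ha, ← map_smul, ← hx, act_inv_act]
  have hpr : IsPGroup p (P ⊔ R : Subgroup SUn) := hP.to_sup_of_normal_right' hR hPR
  have hK1 := H.p_eq_one hn Kf (hpr.to_le fun s hs => hs.1)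
    (fun k hk => ⟨hPRfix k hk.1, hk.2⟩) (fun h hhe hhf k hk => ⟨?_, ?_⟩)
  · intro s hs
    obtain ⟨l, hl, hle⟩ := hPfix s hs
    have h1 := act_ub hF s e f
    rw [hle, ub_smul_left hF, H.hef] at h1
    have hfl : frobQ hF l ≠ 0 := (map_ne_zero _).mpr hl
    obtain ⟨w, c, hw, hc, hv⟩ := H.exists_param (v := frobQ hF l • act s f)
      (by rw [ub_smul_left hF, ub_smul_right hF, act_ub hF, H.hf]; ring)
      (by rw [ub_smul_right hF, h1])
    rw [← H.root_f hw hc] at hv
    set r := root hF e w c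
    have hr : r ∈ R := H.root_valid hw hc
    have hk : r⁻¹ * s ∈ Kf := ⟨mul_mem (inv_mem (le_sup_right (a := P) hr)) (le_sup_left (b := R) hs),
      (frobQ hF l)⁻¹, inv_ne_zero hfl, by
        refine smul_right_injective _ hfl ?_
        show frobQ hF l • act (r⁻¹ * s) f = frobQ hF l • (frobQ hF l)⁻¹ • f
        rw [smul_inv_smul₀ hfl, act_mul_apply, ← map_smul, hv, act_inv_act]⟩
    rw [inv_mul_eq_one.mp (hK1 _ hk)] at hr
    exact hr
  · -- the join is normalised by the stabiliser of the pair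
    refine Subgroup.closure_induction (p := fun x _ => h * x * h⁻¹ ∈ P ⊔ R) ?_ ?_ ?_ ?_
      (show k ∈ Subgroup.closure ((P : Set SUn) ∪ R) by rw [← Subgroup.sup_eq_closure]; exact hk.1)
    · rintro x (hx | hx)
      · exact le_sup_left (b := R) (hPn h hhe x hx)
      · obtain ⟨a, ha, he'⟩ := hhe
        exact le_sup_right (a := P) (conj_mem_radical hF h H.he ha he' hx)
    · simp
    · intro x y _ _ hx hy
      have := mul_mem hx hy
      simpa [mul_assoc] using this
    · intro x _ hx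
      have := inv_mem hx
      simpa [mul_assoc] using this
  · obtain ⟨a, ha, haf⟩ := hhf
    obtain ⟨b, hb, hbf⟩ := hk.2
    have hinv : act h⁻¹ f = a⁻¹ • f := by
      refine smul_right_injective _ ha ?_
      show a • act h⁻¹ f = a • a⁻¹ • f
      rw [smul_inv_smul₀ ha, ← map_smul, ← haf, act_inv_act]
    refine ⟨b, hb, ?_⟩
    rw [act_mul_apply, act_mul_apply, hinv, map_smul, hbf, map_smul, map_smul, haf, smul_smul,
      smul_smul]
    congr 1
    field_simp

/-- An automorphism fixing the point preserves the radical. -/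
theorem Hyp.radical_image (hn : 3 ≤ n) {γ : MulAut (Cfsg.PSU n F q)} (hγ : Sends hF γ e e) {r : SUn}
    (hr : r ∈ radical hF e H.he) :
    ∃ r' ∈ radical hF e H.he, γ (QuotientGroup.mk r) = QuotientGroup.mk r' := by
  obtain ⟨p, _, _⟩ := exists_char (F := F)
  let mkS := QuotientGroup.mk' (Subgroup.center SUn)
  let N : Subgroup (Cfsg.PSU n F q) := ((radical hF e H.he).map mkS).map γ.toMonoidHom
  have hR : IsPGroup p (radical hF e H.he) := fun s => ⟨2, Subtype.ext (radical_pow hF p H.he s.2)⟩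
  have hN : IsPGroup p N := (hR.map mkS).map _
  let M : Subgroup SUn := N.comap mkS
  obtain ⟨Q⟩ : Nonempty (Sylow p M) := Sylow.nonempty
  have hnorm : ∀ m ∈ M, ∃ a ∈ (Q : Subgroup M), (QuotientGroup.mk (a : SUn) : Cfsg.PSU n F q) =
      QuotientGroup.mk m := by
    intro m hm
    let π : M →* N := (mkS.comp M.subtype).codRestrict N fun x => x.2
    have hπ : Function.Surjective π := by
      rintro ⟨x, hx⟩
      obtain ⟨s, rfl⟩ := QuotientGroup.mk_surjective x
      exact ⟨⟨s, hx⟩, rfl⟩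
    have htop : ((Q.mapSurjective hπ : Sylow p N) : Subgroup N) = ⊤ :=
      ((Q.mapSurjective hπ).3 (Q := ⊤) (fun x => by
        obtain ⟨k, hk⟩ := hN x.1
        exact ⟨k, Subtype.ext hk⟩) le_top).symm
    have hmem : π ⟨m, hm⟩ ∈ ((Q.mapSurjective hπ : Sylow p N) : Subgroup N) := by
      rw [htop]; trivial
    obtain ⟨a, ha, hae⟩ := hmem
    exact ⟨a, ha, congrArg Subtype.val hae⟩
  let P : Subgroup SUn := (Q : Subgroup M).map M.subtype
  have hPp : IsPGroup p P := Q.2.map _
  have hpel : ∀ m ∈ M, ∀ k, m ^ p ^ k = 1 → m ∈ P := by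
    intro m hm k hk
    obtain ⟨a, ha, hae⟩ := hnorm m hm
    obtain ⟨j, hj⟩ := Q.2 ⟨a, ha⟩
    have hj' : (a : SUn) ^ p ^ j = 1 := congrArg (fun x => ((x : (Q : Subgroup M)).1 : SUn)) hj
    have h1 : (a : SUn) ^ p ^ (k + j) = 1 := by rw [pow_add, mul_comm, pow_mul, hj', one_pow]
    have h2 : m ^ p ^ (k + j) = 1 := by rw [pow_add, pow_mul, hk, one_pow]
    rw [← eq_of_mk_eq hF (show 2 ≤ n by omega) h1 h2 hae]
    exact ⟨a, ha, rfl⟩
  have hMfix : ∀ m ∈ M, Fixes m e := by
    intro m hm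
    obtain ⟨_, ⟨r₁, hr₁, rfl⟩, hm'⟩ := hm
    obtain ⟨w, c, hw, hc, rfl⟩ := hr₁
    refine fixes_image hF hn (γ := γ) hm' H.e_ne H.he hγ ⟨1, one_ne_zero, ?_⟩
    rw [act_root hF H.he hw hc, H.he, ub_eq_zero_symm hF hw]
    module
  have hle := H.le_radical hn P hPp (fun s hs => by
      obtain ⟨a, -, rfl⟩ := hs; exact hMfix _ a.2)
    (fun h hh s hs => by
      obtain ⟨a, ha, rfl⟩ := hs
      obtain ⟨j, hj⟩ := Q.2 ⟨a, ha⟩
      have hj' : (a : SUn) ^ p ^ j = 1 := congrArg (fun x => ((x : (Q : Subgroup M)).1 : SUn)) hj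
      obtain ⟨h', hh'⟩ := QuotientGroup.mk_surjective (γ⁻¹ (QuotientGroup.mk h))
      obtain ⟨l, hl, hle⟩ := fixes_image hF hn hh'.symm H.e_ne H.he
        (Sends.inv hF hn H.e_ne H.he hγ) hh
      refine hpel _ ?_ j (by rw [conj_pow]; show h * (a : SUn) ^ p ^ j * h⁻¹ = 1; simp [hj'])
      obtain ⟨_, ⟨r₁, hr₁, rfl⟩, hm'⟩ := a.2
      refine ⟨_, ⟨_, conj_mem_radical hF h' H.he hl hle hr₁, rfl⟩, ?_⟩
      show γ (QuotientGroup.mk (h' * r₁ * h'⁻¹)) = QuotientGroup.mk (h * (a : SUn) * h⁻¹)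
      rw [QuotientGroup.mk_mul, QuotientGroup.mk_mul, QuotientGroup.mk_inv, map_mul, map_mul,
        map_inv, hh', MulAut.apply_inv_self, QuotientGroup.mk_mul, QuotientGroup.mk_mul,
        QuotientGroup.mk_inv]
      exact congrArg (fun t => _ * t * _) hm')
  obtain ⟨s, hs⟩ := QuotientGroup.mk_surjective (γ (QuotientGroup.mk r))
  obtain ⟨a, ha, hae⟩ := hnorm s ⟨_, ⟨r, hr, rfl⟩, hs.symm⟩
  exact ⟨a, hle ⟨a, ha, rfl⟩, by rw [hae, hs]⟩

end Cfsg.Agent.KnownB.Proj.Unit
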