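import Cfsg.Agent.KnownB.Proj.Unit.Transv

/-! The orthogonal of a hyperbolic pair and the commutant of its stabiliser. -/

set_option autoImplicit false

namespace Cfsg.Agent.KnownB.Proj.Unit

open Cfsg.Agent.Forms (frobQ)
open Cfsg.Agent.KnownA (ub act ub_add_left ub_add_right ub_smul_left ub_smul_right ub_sub_left
  ub_sub_right ub_zero_left ub_zero_right ub_symm ub_eq_zero_symm sig_sig act_mul_apply act_ub)

universe u

variable {n q : ℕ} {F : Type u} [Field F] [Fintype F] (hF : Fintype.card F = q ^ 2)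

local notation "Vn" => (Fin n → F)
local notation "SUn" => Cfsg.SU n F q

/-- A hyperbolic pair. -/
structure Hyp (e f : Vn) : Prop where
  he : ub hF e e = 0
  hf : ub hF f f = 0
  hef : ub hF e f = 1

/-- The element fixes the line of `v`. -/
def Fixes (s : SUn) (v : Vn) : Prop := ∃ l : F, l ≠ 0 ∧ act s v = l • v

/-- Membership in the orthogonal of the pair. -/
def InW (e f : Vn) (w : Vn) : Prop := ub hF e w = 0 ∧ ub hF f w = 0

variable {hF} {e f : Fin n → F}

theorem InW.add {v w : Vn} (hv : InW hF e f v) (hw : InW hF e f w) : InW hF e f (v + w) :=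
  ⟨by rw [ub_add_right hF, hv.1, hw.1, add_zero], by rw [ub_add_right hF, hv.2, hw.2, add_zero]⟩

theorem InW.smul {w : Vn} (a : F) (hw : InW hF e f w) : InW hF e f (a • w) :=
  ⟨by rw [ub_smul_right hF, hw.1, mul_zero], by rw [ub_smul_right hF, hw.2, mul_zero]⟩

theorem InW.sub {v w : Vn} (hv : InW hF e f v) (hw : InW hF e f w) : InW hF e f (v - w) :=
  ⟨by rw [ub_sub_right hF, hv.1, hw.1, sub_zero], by rw [ub_sub_right hF, hv.2, hw.2, sub_zero]⟩

theorem InW.zero : InW hF e f (0 : Vn) := ⟨ub_zero_right hF e, ub_zero_right hF f⟩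

theorem InW.left {w : Vn} (hw : InW hF e f w) : ub hF w e = 0 ∧ ub hF w f = 0 :=
  ⟨ub_eq_zero_symm hF hw.1, ub_eq_zero_symm hF hw.2⟩

theorem InW.swap {w : Vn} (hw : InW hF e f w) : InW hF f e w := ⟨hw.2, hw.1⟩

variable (H : Hyp hF e f)
include H

theorem Hyp.fe : ub hF f e = 1 := by rw [← ub_symm hF, H.hef, map_one]

theorem Hyp.swap : Hyp hF f e := ⟨H.hf, H.he, H.fe⟩

theorem Hyp.e_ne : e ≠ 0 := fun h => by
  have := H.hef; rw [h, ub_zero_left hF] at this; exact zero_ne_one this

theorem Hyp.f_ne : f ≠ 0 := H.swap.e_ne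

/-- The projection to the orthogonal of the pair. -/
theorem Hyp.proj (x : Vn) : InW hF e f (x - ub hF f x • e - ub hF e x • f) := by
  refine ⟨?_, ?_⟩ <;>
    simp only [ub_sub_right hF, ub_smul_right hF, H.he, H.hf, H.hef, H.fe] <;> ring

theorem Hyp.eq_zero_of_perp {u : Vn} (hu : InW hF e f u) (h : ∀ w, InW hF e f w → ub hF u w = 0) :
    u = 0 := by
  refine (Forms.hermB_nondegenerate hF).1 u fun x => ?_
  show ub hF u x = 0
  have hd := h _ (H.proj x)
  simp only [ub_sub_right hF, ub_smul_right hF, hu.left.1, hu.left.2] at hd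
  linear_combination hd

theorem Hyp.mem_W_of_fixes {s : SUn} (hse : Fixes s e) (hsf : Fixes s f) {w : Vn}
    (hw : InW hF e f w) : InW hF e f (act s w) := by
  obtain ⟨l, hl, hle⟩ := hse
  obtain ⟨μ, hμ, hμf⟩ := hsf
  have h1 := act_ub hF s e w
  have h2 := act_ub hF s f w
  rw [hle, ub_smul_left hF, hw.1, mul_eq_zero, map_eq_zero, or_iff_right hl] at h1
  rw [hμf, ub_smul_left hF, hw.2, mul_eq_zero, map_eq_zero, or_iff_right hμ] at h2
  exact ⟨h1, h2⟩

theorem Hyp.mult_eq {s : SUn} {l μ : F} (hle : act s e = l • e) (hμf : act s f = μ • f) :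
    frobQ hF l * μ = 1 := by
  have h := act_ub hF s e f
  rwa [hle, hμf, ub_smul_left hF, ub_smul_right hF, H.hef, mul_one] at h

theorem Hyp.trv_fixes {w : Vn} (hw : InW hF e f w) (hww : ub hF w w = 0) {c : F}
    (hc : c + frobQ hF c = 0) : act (tr hF w c) e = e ∧ act (tr hF w c) f = f := by
  rw [act_tr hF hww hc, act_tr hF hww hc, hw.left.1, hw.left.2]
  simp

theorem Hyp.exists_W_ne (hn : 3 ≤ n) : ∃ w, InW hF e f w ∧ w ≠ 0 := by
  by_contra hcon
  push Not at hcon
  have hsp : (⊤ : Submodule F Vn) ≤ Submodule.span F {e, f} := fun x _ => by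
    have h := hcon _ (H.proj x)
    rw [sub_sub, sub_eq_zero] at h
    rw [h]
    exact Submodule.add_mem _ (Submodule.smul_mem _ _ (Submodule.subset_span (by simp)))
      (Submodule.smul_mem _ _ (Submodule.subset_span (by simp)))
  have h1 := Submodule.finrank_mono hsp
  classical
  have h2 : Module.finrank F (Submodule.span F ({e, f} : Set Vn)) ≤ 2 := by
    have h3 := finrank_span_finset_le_card (R := F) ({e, f} : Finset Vn)
    rw [Finset.coe_pair] at h3
    exact h3.trans Finset.card_le_two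
  rw [finrank_top, Module.finrank_fin_fun] at h1
  omega

theorem Hyp.exists_aniso (hn : 3 ≤ n) : ∃ w, InW hF e f w ∧ ub hF w w ≠ 0 := by
  by_contra hcon
  push Not at hcon
  obtain ⟨w, hw, hw0⟩ := H.exists_W_ne hn
  refine hw0 (H.eq_zero_of_perp hw fun z hz => ?_)
  by_contra hwz
  obtain ⟨t, ht⟩ := KnownA.exists_trace_one hF
  have h := hcon _ (hw.add (hz.smul (t / ub hF w z)))
  simp only [ub_add_left hF, ub_add_right hF, ub_smul_left hF, ub_smul_right hF, hcon w hw,
    hcon z hz, ← ub_symm hF w z, map_div₀] at h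
  rw [div_mul_cancel₀ t hwz, div_mul_cancel₀ _ (fun h0 => hwz ((map_eq_zero _).mp h0))] at h
  exact zero_ne_one (α := F) (by linear_combination ht - h)

/-- A hyperbolic partner inside the orthogonal of the pair. -/
theorem Hyp.exists_partner_W {w : Vn} (hw : InW hF e f w) (hw0 : w ≠ 0) (hww : ub hF w w = 0) :
    ∃ z, InW hF e f z ∧ ub hF z z = 0 ∧ ub hF w z = 1 := by
  obtain ⟨y, hy, hwy⟩ : ∃ y, InW hF e f y ∧ ub hF w y ≠ 0 := by
    by_contra h
    push Not at h
    exact hw0 (H.eq_zero_of_perp hw h)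
  set y' := (ub hF w y)⁻¹ • y with hy'
  have h1 : ub hF w y' = 1 := by rw [hy', ub_smul_right hF, inv_mul_cancel₀ hwy]
  have h2 : ub hF y' w = 1 := by rw [← ub_symm hF, h1, map_one]
  obtain ⟨c, hc⟩ := exists_c hF y'
  refine ⟨y' + c • w, (hy.smul _).add (hw.smul _), ?_, ?_⟩
  · simp only [ub_add_left hF, ub_add_right hF, ub_smul_left hF, ub_smul_right hF, h1, h2, hww]
    linear_combination hc
  · rw [ub_add_right hF, h1, ub_smul_right hF, hww]; ring

/-- For vectors of the orthogonal which are isotropic, a common non-orthogonal one. -/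
theorem Hyp.exists_common {w w' : Vn} (hw : InW hF e f w) (hw0 : w ≠ 0) (hww : ub hF w w = 0)
    (hw' : InW hF e f w') (hw0' : w' ≠ 0) (hww' : ub hF w' w' = 0) (hperp : ub hF w w' = 0) :
    ∃ z, InW hF e f z ∧ ub hF z z = 0 ∧ ub hF w z ≠ 0 ∧ ub hF w' z ≠ 0 := by
  obtain ⟨a, ha, haa, hwa⟩ := H.exists_partner_W hw hw0 hww
  obtain ⟨b, hb, hbb, hwb⟩ := H.exists_partner_W hw' hw0' hww'
  by_cases h1 : ub hF w' a ≠ 0
  · exact ⟨a, ha, haa, hwa ▸ one_ne_zero, h1⟩
  push Not at h1
  by_cases h2 : ub hF w b ≠ 0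
  · exact ⟨b, hb, hbb, h2, hwb ▸ one_ne_zero⟩
  push Not at h2
  -- correct `a + b` by a multiple of `w`
  obtain ⟨c, hc⟩ := exists_c hF (a + b)
  refine ⟨a + b + c • w, (ha.add hb).add (hw.smul c), ?_, ?_, ?_⟩
  · have haw : ub hF a w = 1 := by rw [← ub_symm hF, hwa, map_one]
    simp only [ub_add_left hF, ub_add_right hF, ub_smul_left hF, ub_smul_right hF, hww, hwa, h2,
      haw, ub_eq_zero_symm hF h2] at hc ⊢
    linear_combination hc
  · simp only [ub_add_right hF, ub_smul_right hF, hww, hwa, h2]; simp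
  · simp only [ub_add_right hF, ub_smul_right hF, h1, hwb, ub_eq_zero_symm hF hperp]; simp

/-- Isotropic vectors generate the orthogonal as soon as there is one. -/
theorem Hyp.iso_induction {P : Vn → Prop} (hadd : ∀ v w, InW hF e f v → InW hF e f w →
      P v → P w → P (v + w)) (hiso : ∀ w, InW hF e f w → ub hF w w = 0 → P w)
    {a : Vn} (ha : InW hF e f a) (ha0 : a ≠ 0) (haa : ub hF a a = 0) {x : Vn}
    (hx : InW hF e f x) : P x := by
  obtain ⟨b, hb, hbb, hab⟩ := H.exists_partner_W ha ha0 haa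
  have hba : ub hF b a = 1 := by rw [← ub_symm hF, hab, map_one]
  set z := x - ub hF b x • a - ub hF a x • b with hz
  have hzW : InW hF e f z := (hx.sub (ha.smul _)).sub (hb.smul _)
  have hza : ub hF a z = 0 := by
    simp only [hz, ub_sub_right hF, ub_smul_right hF, haa, hab]; ring
  have hzb : ub hF b z = 0 := by
    simp only [hz, ub_sub_right hF, ub_smul_right hF, hbb, hba]; ring
  obtain ⟨c, hc⟩ := exists_c hF z
  have h1 : P (a + c • b + z) := hiso _ ((ha.add (hb.smul c)).add hzW) (by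
    simp only [ub_add_left hF, ub_add_right hF, ub_smul_left hF, ub_smul_right hF, haa, hbb, hab,
      hba, hza, hzb, ub_eq_zero_symm hF hza, ub_eq_zero_symm hF hzb]
    linear_combination hc)
  have h2 : P ((ub hF b x - 1) • a) := hiso _ (ha.smul _) (by
    rw [ub_smul_left hF, ub_smul_right hF, haa]; ring)
  have h3 : P ((ub hF a x - c) • b) := hiso _ (hb.smul _) (by
    rw [ub_smul_left hF, ub_smul_right hF, hbb]; ring)
  have := hadd _ _ (((ha.add (hb.smul c)).add hzW).add (ha.smul _)) (hb.smul _)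
    (hadd _ _ ((ha.add (hb.smul c)).add hzW) (ha.smul _) h1 h2) h3
  rwa [show a + c • b + z + (ub hF b x - 1) • a + (ub hF a x - c) • b = x by
    rw [hz]; module] at this

/-- In a degenerate situation the orthogonal is a line. -/
theorem Hyp.line_of_no_iso (hno : ∀ w, InW hF e f w → ub hF w w = 0 → w = 0) {z : Vn}
    (hz : InW hF e f z) (hzz : ub hF z z ≠ 0) {x : Vn} (hx : InW hF e f x) :
    ∃ k : F, x = k • z := by
  refine ⟨ub hF z x / ub hF z z, ?_⟩
  set y := x - (ub hF z x / ub hF z z) • z with hy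
  by_contra hne
  have hy0 : y ≠ 0 := fun h => hne (sub_eq_zero.mp h)
  have hyW : InW hF e f y := hx.sub (hz.smul _)
  have hzy : ub hF z y = 0 := by
    rw [hy, ub_sub_right hF, ub_smul_right hF, div_mul_cancel₀ _ hzz, sub_self]
  have hyy : ub hF y y ≠ 0 := fun h => hy0 (hno y hyW h)
  have hr : frobQ hF (-ub hF y y / ub hF z z) = -ub hF y y / ub hF z z := by
    rw [map_div₀, map_neg, KnownA.ub_self_fixed hF, KnownA.ub_self_fixed hF]
  obtain ⟨t, ht⟩ := KnownA.exists_norm hF _ hr
  have h := hno (y + t • z) (hyW.add (hz.smul t)) (by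
    simp only [ub_add_left hF, ub_add_right hF, ub_smul_left hF, ub_smul_right hF, hzy,
      ub_eq_zero_symm hF hzy]
    rw [eq_div_iff hzz] at ht
    linear_combination ht)
  have h2 := congrArg (ub hF y) h
  rw [ub_add_right hF, ub_smul_right hF, ub_eq_zero_symm hF hzy, ub_zero_right hF, mul_zero,
    add_zero] at h2
  exact hyy h2

/-- The torus of the pair acting on an isotropic pair of the orthogonal. -/
theorem Hyp.exists_torus_W {w z : Vn} (hw : InW hF e f w) (hz : InW hF e f z)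
    (hww : ub hF w w = 0) (hzz : ub hF z z = 0) (hwz : ub hF w z = 1) {t : F} (ht : t ≠ 0) :
    ∃ s : SUn, act s e = t • e ∧ act s f = (frobQ hF t)⁻¹ • f ∧
      act s z = frobQ hF t • z := by
  obtain ⟨g, hg⟩ := KnownA.exists_torus hF e f w z t ht H.he H.hf H.hef hww hzz hwz hw.1 hz.1
    hw.2 hz.2
  have hzw : ub hF z w = 1 := by rw [← ub_symm hF, hwz, map_one]
  refine ⟨g, ?_, ?_, ?_⟩
  · rw [hg]; simp [H.he, H.fe, hw.left.1, hz.left.1]; module
  · rw [hg]; simp [H.hf, H.hef, hw.left.2, hz.left.2]; module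
  · rw [hg]; simp [hzz, hwz, hz.1, hz.2]; module

end Cfsg.Agent.KnownB.Proj.Unit
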