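import Cfsg.Agent.KnownB.Proj.Unit.Hom

/-! Transvections of `PSU_n(q)` as the elements central in a Sylow `p`-subgroup. -/

set_option autoImplicit false

namespace Cfsg.Agent.KnownB.Proj.Unit

open Cfsg.Agent.Forms (frobQ isoPts)
open Cfsg.Agent.KnownA (ub act kap root ub_add_left ub_add_right ub_smul_left ub_smul_right
  ub_sub_left ub_sub_right ub_zero_left ub_zero_right ub_symm ub_eq_zero_symm sig_sig act_root
  act_mul_apply act_ub root_mul su_ext)

universe u

variable {n q : ℕ} {F : Type u} [Field F] [Fintype F] (hF : Fintype.card F = q ^ 2)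

local notation "Vn" => (Fin n → F)
local notation "SUn" => Cfsg.SU n F q

omit [Fintype F] in
theorem act_one_apply (x : Vn) : act (1 : SUn) x = x := by
  rw [KnownA.act_one, Module.End.one_apply]

omit [Fintype F] in
theorem act_inv_act (g : SUn) (x : Vn) : act g⁻¹ (act g x) = x := by
  rw [← act_mul_apply, inv_mul_cancel, act_one_apply]

omit [Fintype F] in
theorem act_act_inv (g : SUn) (x : Vn) : act g (act g⁻¹ x) = x := by
  rw [← act_mul_apply, mul_inv_cancel, act_one_apply]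

omit [Fintype F] in
theorem act_ne (g : SUn) {x : Vn} (hx : x ≠ 0) : act g x ≠ 0 := fun h => hx (by
  rw [← act_inv_act g x, h, map_zero])

/-- A semilinear isometry. -/
structure IsSemi (σ : F ≃+* F) (Θ : Vn → Vn) : Prop where
  add : ∀ x y, Θ (x + y) = Θ x + Θ y
  smul : ∀ (a : F) x, Θ (a • x) = σ a • Θ x
  surj : Function.Surjective Θ
  ub_map : ∀ x y, ub hF (Θ x) (Θ y) = σ (ub hF x y)

include hF

theorem isSemi_semi (g : Cfsg.GU n F q) (σ : F ≃+* F) : IsSemi hF σ (semi g σ) :=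
  ⟨semi_add g σ, semi_smul g σ, semi_surj g σ, ub_semi hF g σ⟩

theorem isSemi_act (g : SUn) : IsSemi hF (RingEquiv.refl F) (fun x : Vn => act g x) :=
  ⟨fun _ _ => map_add _ _ _, fun _ _ => map_smul _ _ _,
    fun y => ⟨act g⁻¹ y, act_act_inv g y⟩, fun _ _ => act_ub hF g _ _⟩

theorem map_frob (σ : F ≃+* F) (a : F) : σ (frobQ hF a) = frobQ hF (σ a) := by simp

/-- Conjugating a root element by a semilinear isometry. -/
theorem conj_root {σ : F ≃+* F} {Θ : Vn → Vn} (hΘ : IsSemi hF σ Θ) {e e' w : Vn} {c l : F}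
    (hl : l ≠ 0) (he : ub hF e e = 0) (hw : ub hF e w = 0)
    (hc : c + frobQ hF c = -ub hF w w) (hle : Θ e = l • e') {s : SUn}
    (hs : ∀ x, act s (Θ x) = Θ (act (root hF e w c) x)) :
    ub hF e' (frobQ hF l • Θ w) = 0 ∧
      σ c * (l * frobQ hF l) + frobQ hF (σ c * (l * frobQ hF l)) =
        -ub hF (frobQ hF l • Θ w) (frobQ hF l • Θ w) ∧
      s = root hF e' (frobQ hF l • Θ w) (σ c * (l * frobQ hF l)) := by
  have hsl : frobQ hF l ≠ 0 := fun h => hl ((map_eq_zero _).mp h)
  have he' : ∀ x, frobQ hF l * ub hF e' (Θ x) = σ (ub hF e x) := fun x => by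
    rw [← ub_smul_left hF, ← hle, hΘ.ub_map]
  have hee : ub hF e' e' = 0 := by
    have h := he' e
    rw [hle, ub_smul_right hF, he, map_zero] at h
    exact (mul_eq_zero.mp ((mul_eq_zero.mp h).resolve_left hsl)).resolve_left hl
  have hwe : ub hF e' (frobQ hF l • Θ w) = 0 := by
    rw [ub_smul_right hF, he', hw, map_zero]
  have hcc : σ c * (l * frobQ hF l) + frobQ hF (σ c * (l * frobQ hF l)) =
      -ub hF (frobQ hF l • Θ w) (frobQ hF l • Θ w) := by
    have h := congrArg σ hc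
    rw [map_add, map_frob hF, map_neg, ← hΘ.ub_map] at h
    rw [ub_smul_left hF, ub_smul_right hF, map_mul, map_mul, sig_sig hF]
    linear_combination (l * frobQ hF l) * h
  refine ⟨hwe, hcc, su_ext fun y => ?_⟩
  obtain ⟨x, rfl⟩ := hΘ.surj y
  rw [hs, act_root hF he hw hc, act_root hF hee hwe hcc, hΘ.add, hΘ.add, hΘ.smul, hΘ.smul, map_sub,
    map_mul, ub_smul_left hF, sig_sig hF, ← hΘ.ub_map w x, ← he', hle]
  match_scalars <;> ring

theorem exists_c (w : Vn) : ∃ c : F, c + frobQ hF c = -ub hF w w := by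
  obtain ⟨t, ht⟩ := KnownA.exists_trace_one hF
  refine ⟨-(t * ub hF w w), ?_⟩
  rw [map_neg, map_mul, KnownA.ub_self_fixed hF]
  linear_combination -(ub hF w w) * ht

theorem exists_z : ∃ c : F, c ≠ 0 ∧ c + frobQ hF c = 0 := by
  obtain ⟨a, ha⟩ := Forms.exists_kap_ne_zero hF
  exact ⟨kap hF a, ha, KnownA.kap_trace hF a⟩

theorem neg_ub_zero {c : F} (h : c + frobQ hF c = 0) :
    c + frobQ hF c = -ub hF (0 : Vn) 0 := by rw [ub_zero_left, neg_zero]; exact h

/-- The transvection `x ↦ x + c h(v,x) v`. -/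
noncomputable def tr (v : Vn) (c : F) : SUn := root hF v 0 c

theorem act_tr {v : Vn} (hv : ub hF v v = 0) {c : F} (hc : c + frobQ hF c = 0) (x : Vn) :
    act (tr hF v c) x = x + (c * ub hF v x) • v := by
  rw [tr, act_root hF hv (ub_zero_right hF v) (neg_ub_zero hF hc), smul_zero, add_zero,
    ub_zero_left hF, sub_zero]

theorem tr_conj {σ : F ≃+* F} {Θ : Vn → Vn} (hΘ : IsSemi hF σ Θ) {v v' : Vn} {c l : F}
    (hl : l ≠ 0) (hv : ub hF v v = 0) (hc : c + frobQ hF c = 0) (hlv : Θ v = l • v') {s : SUn}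
    (hs : ∀ x, act s (Θ x) = Θ (act (tr hF v c) x)) :
    s = tr hF v' (σ c * (l * frobQ hF l)) := by
  have h0 : Θ 0 = 0 := by simpa using hΘ.smul 0 0
  have := (conj_root hF hΘ hl hv (ub_zero_right hF v) (neg_ub_zero hF hc) hlv hs).2.2
  rwa [h0, smul_zero] at this

theorem tr_conj_su (g : SUn) {v : Vn} {c : F} (hv : ub hF v v = 0) (hc : c + frobQ hF c = 0) :
    g * tr hF v c * g⁻¹ = tr hF (act g v) c := by
  have := tr_conj hF (isSemi_act hF g) one_ne_zero hv hc (v' := act g v) (one_smul F _).symm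
    (s := g * tr hF v c * g⁻¹) fun x => by
      rw [act_mul_apply, act_mul_apply, act_inv_act]
  rwa [map_one, mul_one, mul_one, RingEquiv.refl_apply] at this

theorem smul_trace {c a : F} (hc : c + frobQ hF c = 0) (ha : frobQ hF a = a) :
    c * a + frobQ hF (c * a) = 0 := by
  rw [map_mul, ha]; linear_combination a * hc

theorem add_trace {c d : F} (hc : c + frobQ hF c = 0) (hd : d + frobQ hF d = 0) :
    c + d + frobQ hF (c + d) = 0 := by
  rw [map_add]; linear_combination hc + hd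

theorem tr_eq_tr {v w : Vn} (hv : v ≠ 0) (hvv : ub hF v v = 0) (hww : ub hF w w = 0) {a b : F}
    (ha : a ≠ 0) (hac : a + frobQ hF a = 0) (hbc : b + frobQ hF b = 0)
    (h : tr hF v a = tr hF w b) : ∃ k : F, k ≠ 0 ∧ v = k • w := by
  obtain ⟨x, hx⟩ : ∃ x, ub hF v x ≠ 0 := by
    by_contra hh
    push Not at hh
    exact hv ((Forms.hermB_nondegenerate hF).1 v hh)
  have h1 := congrArg (fun s => act s x) h
  simp only [act_tr hF hvv hac, act_tr hF hww hbc, add_right_inj] at h1
  refine ⟨(a * ub hF v x)⁻¹ * (b * ub hF w x), ?_, ?_⟩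
  · intro h0
    rcases mul_eq_zero.mp h0 with h2 | h2
    · exact mul_ne_zero ha hx (inv_eq_zero.mp h2)
    · rw [h2, zero_smul, smul_eq_zero] at h1
      exact h1.elim (mul_ne_zero ha hx) hv
  · rw [mul_smul, ← h1, inv_smul_smul₀ (mul_ne_zero ha hx)]

/-- The unipotent radical attached to an isotropic vector. -/
noncomputable def radical (e : Vn) (he : ub hF e e = 0) : Subgroup SUn where
  carrier := {s | ∃ w c, ub hF e w = 0 ∧ c + frobQ hF c = -ub hF w w ∧ s = root hF e w c}
  mul_mem' := by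
    rintro _ _ ⟨w, c, hw, hc, rfl⟩ ⟨w', c', hw', hc', rfl⟩
    refine ⟨w + w', c + c' - ub hF w w', by rw [ub_add_right hF, hw, hw', add_zero], ?_,
      root_mul hF he hw hw' hc hc'⟩
    simp only [map_sub, map_add, ub_symm hF, ub_add_left hF, ub_add_right hF]
    linear_combination hc + hc'
  one_mem' := ⟨0, 0, ub_zero_right hF e, by rw [map_zero, add_zero, ub_zero_left hF, neg_zero], su_ext fun x => by
    rw [act_root hF he (ub_zero_right hF e) (by rw [map_zero, add_zero, ub_zero_left hF, neg_zero])]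
    simp [ub_zero_left hF, KnownA.act_one]⟩
  inv_mem' := by
    rintro _ ⟨w, c, hw, hc, rfl⟩
    have hw' : ub hF e (-w) = 0 := by
      rw [show -w = (-1 : F) • w by simp, ub_smul_right hF, hw, mul_zero]
    have hc' : frobQ hF c + frobQ hF (frobQ hF c) = -ub hF (-w) (-w) := by
      rw [show -w = (-1 : F) • w by simp, ub_smul_left hF, ub_smul_right hF, sig_sig hF, map_neg,
        map_one]
      linear_combination hc
    refine ⟨-w, frobQ hF c, hw', hc', inv_eq_of_mul_eq_one_right (su_ext fun x => ?_)⟩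
    rw [act_one_apply, act_mul_apply, act_root hF he hw' hc', act_root hF he hw hc]
    simp only [ub_add_right hF, ub_smul_right hF, show -w = (-1 : F) • w by simp,
      ub_smul_left hF, map_neg, map_one, hw, he, ub_eq_zero_symm hF hw]
    match_scalars
    · ring
    · ring
    · linear_combination (ub hF e x) * hc

theorem root_mem {e w : Vn} {c : F} (he : ub hF e e = 0) (hw : ub hF e w = 0)
    (hc : c + frobQ hF c = -ub hF w w) : root hF e w c ∈ radical hF e he :=
  ⟨w, c, hw, hc, rfl⟩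

theorem tr_mem_radical {e : Vn} (he : ub hF e e = 0) {c : F} (hc : c + frobQ hF c = 0) :
    tr hF e c ∈ radical hF e he :=
  root_mem hF he (ub_zero_right hF e) (neg_ub_zero hF hc)

theorem radical_pow (p : ℕ) [CharP F p] {e : Vn} (he : ub hF e e = 0) {s : SUn}
    (hs : s ∈ radical hF e he) : s ^ p ^ 2 = 1 := by
  have key : ∀ (k : ℕ) w c, ub hF e w = 0 → c + frobQ hF c = -ub hF w w → ∃ d,
      ∀ x, act (root hF e w c ^ k) x =
        x + ((k : F) * ub hF e x) • w + (d * ub hF e x - (k : F) * ub hF w x) • e := by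
    intro k w c hw hc
    induction k with
    | zero => exact ⟨0, fun x => by simp [act_one_apply]⟩
    | succ k ih =>
      obtain ⟨d, hd⟩ := ih
      refine ⟨d + c - (k : F) * ub hF w w, fun x => ?_⟩
      rw [pow_succ, act_mul_apply, act_root hF he hw hc, hd]
      simp only [ub_add_right hF, ub_smul_right hF, hw, he, ub_eq_zero_symm hF hw]
      push_cast
      match_scalars <;> ring
  obtain ⟨w, c, hw, hc, rfl⟩ := hs
  obtain ⟨d, hd⟩ := key p w c hw hc
  have h1 : ∀ x, act (root hF e w c ^ p) x = x + (d * ub hF e x) • e := fun x => by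
    rw [hd, CharP.cast_eq_zero]; simp
  have h2 : ∀ (k : ℕ) x, act ((root hF e w c ^ p) ^ k) x = x + ((k : F) * d * ub hF e x) • e := by
    intro k x
    induction k with
    | zero => simp [act_one_apply]
    | succ k ih =>
      rw [pow_succ', act_mul_apply, ih, h1, ub_add_right hF, ub_smul_right hF, he]
      push_cast
      module
  refine su_ext fun x => ?_
  rw [sq, pow_mul, h2, CharP.cast_eq_zero, act_one_apply]
  simp

theorem conj_mem_radical (g : SUn) {e : Vn} (he : ub hF e e = 0) {l : F} (hl : l ≠ 0)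
    (hge : act g e = l • e) {s : SUn} (hs : s ∈ radical hF e he) :
    g * s * g⁻¹ ∈ radical hF e he := by
  obtain ⟨w, c, hw, hc, rfl⟩ := hs
  exact ⟨_, _, conj_root hF (isSemi_act hF g) hl he hw hc hge fun x => by
    rw [act_mul_apply, act_mul_apply, act_inv_act]⟩

theorem fixed_of_radical {e f : Vn} (he : ub hF e e = 0) (hef : ub hF e f = 1)
    {x : Vn} (hx : ∀ s ∈ radical hF e he, act s x = x) : ∃ k : F, x = k • e := by
  obtain ⟨z, hz, hzc⟩ := exists_z hF
  have he0 : e ≠ 0 := fun h => by rw [h, ub_zero_left hF] at hef; exact zero_ne_one hef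
  have hex : ub hF e x = 0 := by
    have h := hx _ (tr_mem_radical hF he hzc)
    rw [act_tr hF he hzc, add_eq_left, smul_eq_zero, mul_eq_zero, or_iff_right hz] at h
    exact h.resolve_right he0
  refine ⟨ub hF f x, sub_eq_zero.mp ((Forms.hermB_nondegenerate hF).1 _ fun y => ?_)⟩
  show ub hF (x - ub hF f x • e) y = 0
  have hw : ub hF e (y - ub hF e y • f) = 0 := by
    rw [ub_sub_right hF, ub_smul_right hF, hef, mul_one, sub_self]
  obtain ⟨c, hc⟩ := exists_c hF (y - ub hF e y • f)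
  have h := hx _ (root_mem hF he hw hc)
  rw [act_root hF he hw hc, hex, zero_smul, add_zero, mul_zero, zero_sub, add_eq_left, smul_eq_zero,
    neg_eq_zero, or_iff_left he0, ub_sub_left hF, ub_smul_left hF] at h
  have h' := congrArg (frobQ hF) h
  simp only [map_sub, map_mul, map_zero, ub_symm hF, sig_sig hF] at h'
  rw [ub_sub_left hF, ub_smul_left hF, ub_symm hF f x]
  linear_combination h'

/-- The image of a transvection with centre `v`. -/
def IsTvOf (v : Vn) (x : Cfsg.PSU n F q) : Prop :=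
  v ≠ 0 ∧ ub hF v v = 0 ∧ ∃ c : F, c ≠ 0 ∧ c + frobQ hF c = 0 ∧ QuotientGroup.mk (tr hF v c) = x

theorem exists_fe {v : Vn} (hv : v ≠ 0) (hvv : ub hF v v = 0) :
    ∃ f : Vn, ub hF f f = 0 ∧ ub hF v f = 1 := by
  obtain ⟨f, -, hf, hvf⟩ := KnownA.exists_partner hF ⊤
    (fun x _ h => (Forms.hermB_nondegenerate hF).1 x fun y => h y trivial)
    (Submodule.mem_top (x := v)) hv hvv
  exact ⟨f, hf, hvf⟩

theorem li_pair {v f : Vn} (hvv : ub hF v v = 0) (hvf : ub hF v f ≠ 0) :
    LinearIndependent F ![v, f] := Forms.li_of_ub_ne hF hvv hvf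

/-- `SU` is transitive on hyperbolic pairs, up to scalars. -/
theorem exists_move {v f v' f' : Vn} (hvv : ub hF v v = 0) (hff : ub hF f f = 0)
    (hvf : ub hF v f = 1) (hvv' : ub hF v' v' = 0) (hff' : ub hF f' f' = 0)
    (hvf' : ub hF v' f' = 1) :
    ∃ g : SUn, ∃ t s : F, t ≠ 0 ∧ s ≠ 0 ∧ act g v = t • v' ∧ act g f = s • f' :=
  Forms.exists_su_move hF (li_pair hF hvv (hvf ▸ one_ne_zero)) (li_pair hF hvv' (hvf' ▸ one_ne_zero))
    hvv hff hvv' hff' (hvf.trans hvf'.symm)

section Char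

variable {p : ℕ} [Fact p.Prime] [CharP F p]

omit hF in
theorem exists_char : ∃ r : ℕ, Fact r.Prime ∧ CharP F r := by
  obtain ⟨r, hr⟩ := CharP.exists F
  obtain ⟨k, hrr, -⟩ := FiniteField.card F r
  exact ⟨r, ⟨hrr⟩, hr⟩

theorem dvd_q : p ∣ q := by
  obtain ⟨k, -, hk⟩ := FiniteField.card F p
  exact (Fact.out : p.Prime).dvd_of_dvd_pow (n := 2) (hF ▸ hk ▸ dvd_pow_self p k.pos.ne')

theorem center_coprime (hn : 2 ≤ n) :
    Nat.Coprime p (Nat.card (Subgroup.center SUn)) := by
  rw [Forms.card_center_SU hF hn, (Fact.out : p.Prime).coprime_iff_not_dvd]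
  intro h
  exact (Fact.out : p.Prime).one_lt.ne' (Nat.dvd_one.mp ((Nat.dvd_add_right (dvd_q hF)).mp
    (h.trans (Nat.gcd_dvd_right _ _))))

theorem eq_of_mk_eq (hn : 2 ≤ n) {s t : SUn} {k : ℕ} (hs : s ^ p ^ k = 1) (ht : t ^ p ^ k = 1)
    (h : (QuotientGroup.mk s : Cfsg.PSU n F q) = QuotientGroup.mk t) : s = t := by
  obtain ⟨z, hz, rfl⟩ : ∃ z ∈ Subgroup.center SUn, s * z = t :=
    ⟨s⁻¹ * t, QuotientGroup.eq.mp h, mul_inv_cancel_left _ _⟩
  have hcomm : Commute s z := Subgroup.mem_center_iff.mp hz s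
  rw [hcomm.mul_pow, hs, one_mul] at ht
  have h1 : orderOf z ∣ p ^ k := orderOf_dvd_of_pow_eq_one ht
  have h2 : orderOf z ∣ Nat.card (Subgroup.center SUn) := by
    rw [← Subgroup.orderOf_mk z hz]; exact orderOf_dvd_natCard _
  have h3 := Nat.eq_one_of_dvd_coprimes ((center_coprime hF hn).pow_left k) h1 h2
  rw [orderOf_eq_one_iff.mp h3, mul_one]

theorem commute_of_mk_commute (hn : 2 ≤ n) {s t : SUn} {k : ℕ} (ht : t ^ p ^ k = 1)
    (h : Commute (QuotientGroup.mk s : Cfsg.PSU n F q) (QuotientGroup.mk t)) : Commute s t := by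
  have h1 : s * t * s⁻¹ = t := by
    refine eq_of_mk_eq hF hn (by rw [conj_pow, ht, mul_one, mul_inv_cancel]) ht ?_
    rw [QuotientGroup.mk_mul, QuotientGroup.mk_mul, QuotientGroup.mk_inv, h.eq, mul_inv_cancel_right]
  exact mul_inv_eq_iff_eq_mul.mp h1

theorem tr_pow {v : Vn} (hv : ub hF v v = 0) {c : F} (hc : c + frobQ hF c = 0) :
    tr hF v c ^ p ^ 2 = 1 := radical_pow hF p hv (tr_mem_radical hF hv hc)

variable {v w : Fin n → F} {x y : Cfsg.PSU n F q}

theorem IsTvOf.par (hn : 2 ≤ n) (h : IsTvOf hF v x) (h' : IsTvOf hF w x) :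
    ∃ k : F, k ≠ 0 ∧ v = k • w := by
  obtain ⟨p, _, _⟩ := exists_char (F := F)
  obtain ⟨hv, hvv, a, ha, hac, rfl⟩ := h
  obtain ⟨hw, hww, b, hb, hbc, hb'⟩ := h'
  exact tr_eq_tr hF hv hvv hww ha hac hbc
    (eq_of_mk_eq hF hn (tr_pow hF (p := p) hvv hac) (tr_pow hF (p := p) hww hbc) hb'.symm)

theorem IsTvOf.ne_one (hn : 2 ≤ n) (h : IsTvOf hF v x) : x ≠ 1 := by
  obtain ⟨p, _, _⟩ := exists_char (F := F)
  obtain ⟨hv, hvv, a, ha, hac, rfl⟩ := h
  intro h1
  have h2 := eq_of_mk_eq hF hn (tr_pow hF (p := p) hvv hac) (one_pow _)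
    (h1.trans (QuotientGroup.mk_one _).symm)
  obtain ⟨f, -, hvf⟩ := exists_fe hF hv hvv
  have h3 := congrArg (fun s => act s f) h2
  simp only [act_tr hF hvv hac, hvf, mul_one, act_one_apply, add_eq_left, smul_eq_zero] at h3
  exact h3.elim ha hv

theorem commute_iff (hn : 2 ≤ n) (hx : IsTvOf hF v x) (hy : IsTvOf hF w y) :
    Commute x y ↔ ub hF v w = 0 := by
  obtain ⟨p, _, _⟩ := exists_char (F := F)
  obtain ⟨hv, hvv, a, ha, hac, rfl⟩ := hx
  obtain ⟨hw, hww, b, hb, hbc, rfl⟩ := hy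
  constructor
  · intro h
    have h1 := tr_conj_su hF (tr hF v a) hww hbc
    rw [(commute_of_mk_commute hF hn (tr_pow hF (p := p) hww hbc) h).eq,
      mul_inv_cancel_right] at h1
    have hw' : ub hF (act (tr hF v a) w) (act (tr hF v a) w) = 0 := by rw [act_ub hF, hww]
    obtain ⟨k, -, hk⟩ := tr_eq_tr hF hw hww hw' hb hbc hbc h1
    rw [act_tr hF hvv hac] at hk
    by_contra hne
    have h2 := congrArg (ub hF v) hk
    simp only [ub_smul_right hF, ub_add_right hF, hvv, mul_zero, add_zero] at h2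
    have hk1 : k = 1 := mul_right_cancel₀ hne (by rw [one_mul]; exact h2.symm)
    rw [hk1, one_smul, left_eq_add, smul_eq_zero, mul_eq_zero] at hk
    exact hk.elim (fun h => h.elim ha hne) hv
  · intro h
    refine (Commute.map ?_ (QuotientGroup.mk' (Subgroup.center SUn)) :)
    refine mul_inv_eq_iff_eq_mul.mp ?_
    rw [tr_conj_su hF _ hww hbc, act_tr hF hvv hac, h, mul_zero, zero_smul, add_zero]

/-- Non-trivial elements central in some Sylow `p`-subgroup. -/
def CentralP (p : ℕ) (x : Cfsg.PSU n F q) : Prop :=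
  x ≠ 1 ∧ ∃ P : Sylow p (Cfsg.PSU n F q), x ∈ (P : Subgroup _) ∧
    ∀ y ∈ (P : Subgroup (Cfsg.PSU n F q)), Commute x y

omit [CharP F p] hF in
theorem centralP_map (β : MulAut (Cfsg.PSU n F q)) {x : Cfsg.PSU n F q} (h : CentralP p x) :
    CentralP p (β x) := by
  obtain ⟨hx, P, hxP, hP⟩ := h
  refine ⟨fun h1 => hx (β.injective (h1.trans (map_one β).symm)),
    P.mapSurjective (f := β.toMonoidHom) β.surjective, ⟨x, hxP, rfl⟩, ?_⟩
  rintro y ⟨z, hz, rfl⟩
  exact (hP z hz).map β

/-- A Sylow subgroup fixing `e` and containing its radical. -/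
theorem exists_sylow_fixing (hn : 2 ≤ n) {e : Vn} (he0 : e ≠ 0) (he : ub hF e e = 0) :
    ∃ Q : Sylow p SUn, (∀ s ∈ (Q : Subgroup SUn), act s e = e) ∧
      radical hF e he ≤ (Q : Subgroup SUn) := by
  have hR : IsPGroup p (radical hF e he) := fun s => ⟨2, Subtype.ext (radical_pow hF p he s.2)⟩
  obtain ⟨Q, hQ⟩ := hR.exists_le_sylow
  letI : MulAction (Q : Subgroup SUn) Vn :=
    { smul := fun w x => act w.1 x
      one_smul := fun x => act_one_apply x
      mul_smul := fun w w' x => act_mul_apply w.1 w'.1 x }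
  have hcard : p ∣ Nat.card Vn := by
    rw [Nat.card_fun, Nat.card_eq_fintype_card (α := F), hF, Nat.card_fin]
    exact dvd_pow (dvd_pow (dvd_q hF) two_ne_zero) (by omega)
  have h0 : (0 : Vn) ∈ MulAction.fixedPoints (Q : Subgroup SUn) Vn := fun w => map_zero _
  obtain ⟨x, hx, hne⟩ := Q.2.exists_fixed_point_of_prime_dvd_card_of_fixed_point Vn hcard h0
  obtain ⟨f, -, hef⟩ := exists_fe hF he0 he
  obtain ⟨k, hk⟩ := fixed_of_radical hF he hef (x := x) fun s hs => hx ⟨s, hQ hs⟩
  have hk0 : k ≠ 0 := fun h => hne (by rw [hk, h, zero_smul])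
  refine ⟨Q, fun s hs => smul_right_injective _ hk0 ?_, hQ⟩
  show k • act s e = k • e
  rw [← map_smul, ← hk]
  exact hx ⟨s, hs⟩

theorem exists_tr_of_central (hn : 3 ≤ n) {e : Vn} (he0 : e ≠ 0) (he : ub hF e e = 0) {u : SUn}
    (hue : act u e = e) (hcomm : ∀ s ∈ radical hF e he, Commute u s) :
    ∃ c, c + frobQ hF c = 0 ∧ u = tr hF e c := by
  obtain ⟨f, hff, hef⟩ := exists_fe hF he0 he
  have hkey : ∀ w, ub hF e w = 0 → ∃ a : F, frobQ hF a = a ∧ act u w = w + a • e := by
    intro w hw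
    obtain ⟨c, hc⟩ := exists_c hF w
    have h1 := congrArg (fun s => act s (act u⁻¹ f)) (hcomm _ (root_mem hF he hw hc)).eq
    simp only [act_mul_apply, act_act_inv, act_root hF he hw hc, map_add, map_smul, hue] at h1
    have hinv : act u⁻¹ e = e := by conv_lhs => rw [← hue, act_inv_act]
    have e1 : ub hF e (act u⁻¹ f) = 1 := by rw [← hinv, act_ub hF, hef]
    have e2 : ub hF w (act u⁻¹ f) = ub hF (act u w) f := by
      conv_rhs => rw [← act_act_inv u f, act_ub hF]
    rw [e1, e2, hef, one_smul] at h1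
    refine ⟨ub hF (act u w) f - ub hF w f, ?_, ?_⟩
    swap
    · linear_combination (norm := module) h1
    · have h2 : act u w = w + (ub hF (act u w) f - ub hF w f) • e := by
        linear_combination (norm := module) h1
      have h3 := congrArg (fun z => ub hF z f) h2
      simp only [ub_add_left hF, ub_smul_left hF, hef, mul_one] at h3
      linear_combination -h3
  have hfix : ∀ w, ub hF e w = 0 → act u w = w := by
    intro w hw
    obtain ⟨a, ha, hw'⟩ := hkey w hw
    by_contra hne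
    have ha0 : a ≠ 0 := fun h => hne (by rw [hw', h, zero_smul, add_zero])
    obtain ⟨z, hz, hzc⟩ := exists_z hF
    obtain ⟨b, hb, hb'⟩ := hkey (z • w) (by rw [ub_smul_right hF, hw, mul_zero])
    rw [map_smul, hw', smul_add, add_right_inj, smul_smul] at hb'
    have : z * a = b := smul_left_injective F he0 hb'
    rw [← this, map_mul, ha] at hb
    have hzz : frobQ hF z = z := mul_right_cancel₀ ha0 hb
    -- `z` would be fixed and of trace zero, so `2 z = 0`
    rw [hzz] at hzc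
    obtain ⟨t, ht⟩ := KnownA.exists_trace_one hF
    obtain ⟨b', hb2, hb2'⟩ := hkey (t • w) (by rw [ub_smul_right hF, hw, mul_zero])
    rw [map_smul, hw', smul_add, add_right_inj, smul_smul] at hb2'
    have : t * a = b' := smul_left_injective F he0 hb2'
    rw [← this, map_mul, ha] at hb2
    have htt : frobQ hF t = t := mul_right_cancel₀ ha0 hb2
    rw [htt] at ht
    apply hz
    linear_combination t * hzc - z * ht
  set d := act u f - f with hd
  have hd' : ∀ y, ub hF e y = 0 → ub hF d y = 0 := fun y hy => by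
    rw [hd, ub_sub_left hF]
    conv_lhs => arg 1; rw [← hfix y hy]
    rw [act_ub hF, sub_self]
  have hde : d = frobQ hF (ub hF d f) • e := by
    refine sub_eq_zero.mp ((Forms.hermB_nondegenerate hF).1 _ fun y => ?_)
    show ub hF (d - frobQ hF (ub hF d f) • e) y = 0
    have hy := hd' (y - ub hF e y • f) (by
      rw [ub_sub_right hF, ub_smul_right hF, hef, mul_one, sub_self])
    rw [ub_sub_right hF, ub_smul_right hF] at hy
    rw [ub_sub_left hF, ub_smul_left hF, sig_sig hF]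
    linear_combination hy
  set c := frobQ hF (ub hF d f) with hc
  have huf : act u f = f + c • e := by rw [← hde, hd]; abel
  have hcc : c + frobQ hF c = 0 := by
    have h1 := act_ub hF u f f
    rw [huf] at h1
    simp only [ub_add_left hF, ub_add_right hF, ub_smul_left hF, ub_smul_right hF, hff, he, hef,
      show ub hF f e = 1 by rw [← ub_symm hF, hef, map_one]] at h1
    linear_combination h1
  refine ⟨c, hcc, su_ext fun y => ?_⟩
  have hy := hfix (y - ub hF e y • f) (by
    rw [ub_sub_right hF, ub_smul_right hF, hef, mul_one, sub_self])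
  rw [map_sub, map_smul, huf, sub_eq_iff_eq_add] at hy
  rw [hy, act_tr hF he hcc]
  module

theorem centralP_isTv (hn : 3 ≤ n) {x : Cfsg.PSU n F q} (h : CentralP p x) :
    ∃ v, IsTvOf hF v x := by
  obtain ⟨hx, P, hxP, hP⟩ := h
  obtain ⟨e, f, he, -, hef⟩ := Forms.exists_iso_pair hF (show 2 ≤ n by omega) (n := n)
  have he0 : e ≠ 0 := fun h0 => by rw [h0, ub_zero_left hF] at hef; exact zero_ne_one hef
  obtain ⟨Q, hfix, hrad⟩ := exists_sylow_fixing hF (p := p) (show 2 ≤ n by omega) he0 he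
  obtain ⟨Q', rfl⟩ := Sylow.mapSurjective_surjective
    (QuotientGroup.mk'_surjective (Subgroup.center SUn)) p P
  obtain ⟨g, rfl⟩ := MulAction.exists_smul_eq SUn Q Q'
  obtain ⟨u, hu, rfl⟩ := hxP
  obtain ⟨u₀, hu₀, rfl⟩ := hu
  have hcomm : ∀ w ∈ radical hF e he, Commute u₀ w := by
    intro w hw
    have h1 := hP (QuotientGroup.mk (g * w * g⁻¹)) ⟨_, ⟨w, hrad hw, rfl⟩, rfl⟩
    obtain ⟨k, hk⟩ := Q.2 ⟨w, hrad hw⟩
    have hk' : w ^ p ^ k = 1 := congrArg Subtype.val hk
    have h2 : Commute (g * u₀ * g⁻¹) (g * w * g⁻¹) :=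
      commute_of_mk_commute hF (by omega) (k := k)
        (by rw [conj_pow, hk', mul_one, mul_inv_cancel]) h1
    exact (Commute.conj_iff g).mp h2
  obtain ⟨c, hc, rfl⟩ := exists_tr_of_central hF hn he0 he (hfix u₀ hu₀) hcomm
  refine ⟨act g e, act_ne g he0, by rw [act_ub hF, he], c, ?_, hc, ?_⟩
  · intro h0
    refine hx ?_
    have h1 : tr hF e c = 1 := su_ext fun y => by
      rw [act_tr hF he hc, h0, zero_mul, zero_smul, add_zero, act_one_apply]
    show (QuotientGroup.mk (g * tr hF e c * g⁻¹) : Cfsg.PSU n F q) = 1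
    rw [h1, mul_one, mul_inv_cancel, QuotientGroup.mk_one]
  · show _ = (QuotientGroup.mk (g * tr hF e c * g⁻¹) : Cfsg.PSU n F q)
    rw [tr_conj_su hF g he hc]

theorem isTvOf_centralP (hn : 3 ≤ n) (h : IsTvOf hF v x) : CentralP p x := by
  have hx := IsTvOf.ne_one hF (show 2 ≤ n by omega) h
  obtain ⟨hv, hvv, c, hc, hcc, rfl⟩ := h
  obtain ⟨Q, hfix, hrad⟩ := exists_sylow_fixing hF (p := p) (show 2 ≤ n by omega) hv hvv
  refine ⟨hx, Q.mapSurjective (QuotientGroup.mk'_surjective _),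
    ⟨_, hrad (tr_mem_radical hF hvv hcc), rfl⟩, ?_⟩
  rintro _ ⟨s, hs, rfl⟩
  refine Commute.map ?_ (QuotientGroup.mk' (Subgroup.center SUn))
  refine (mul_inv_eq_iff_eq_mul.mp ?_).symm
  rw [tr_conj_su hF s hvv hcc, hfix s hs]

theorem isTv_map (hn : 3 ≤ n) (β : MulAut (Cfsg.PSU n F q)) (h : IsTvOf hF v x) :
    ∃ w, IsTvOf hF w (β x) := by
  obtain ⟨p, _, _⟩ := exists_char (F := F)
  exact centralP_isTv hF (p := p) hn (centralP_map β (isTvOf_centralP hF hn h))

end Char

end Cfsg.Agent.KnownB.Proj.Unit
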